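import Mathlib

namespace Cfsg.Agent.Helper28.NilNum

/-- 2-adic valuation of `n!`. -/
def V (n : ℕ) : ℕ := padicValNat 2 n.factorial

/-- The bound function for nilpotent permutation groups of degree `n`. -/
def B (n : ℕ) : ℕ := if n % 4 = 3 then 3 * 2 ^ (V n - 1) else 2 ^ V n

/-- Residue factor. -/
def g (r : ℕ) : ℕ := if r = 2 then 2 else if r = 3 then 3 else 1

theorem V_zero : V 0 = 0 := by simp [V]

theorem V_one : V 1 = 0 := by simp [V]

theorem V_two_mul (m : ℕ) : V (2 * m) = V m + m := by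
  unfold V
  exact padicValNat_factorial_mul m

theorem V_two_mul_add_one (m : ℕ) : V (2 * m + 1) = V m + m := by
  unfold V
  rw [padicValNat_factorial_mul_add m (by norm_num : 1 < 2), padicValNat_factorial_mul]

theorem V_add (a b : ℕ) : V a + V b ≤ V (a + b) := by
  unfold V
  have hd : a.factorial * b.factorial ∣ (a + b).factorial :=
    Nat.factorial_mul_factorial_dvd_factorial_add a b
  rw [← padicValNat.mul (Nat.factorial_ne_zero a) (Nat.factorial_ne_zero b)]
  exact (padicValNat_dvd_iff_le (Nat.factorial_ne_zero _)).1 (dvd_trans pow_padicValNat_dvd hd)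

theorem V_mono {a b : ℕ} (h : a ≤ b) : V a ≤ V b := by
  obtain ⟨c, rfl⟩ := Nat.exists_eq_add_of_le h
  have := V_add a c
  omega

theorem V_four (j : ℕ) : V (4 * j) = V j + 3 * j := by
  have h1 : 4 * j = 2 * (2 * j) := by ring
  rw [h1, V_two_mul, V_two_mul]; omega

theorem V_four_add_one (j : ℕ) : V (4 * j + 1) = V j + 3 * j := by
  have h1 : 4 * j + 1 = 2 * (2 * j) + 1 := by ring
  rw [h1, V_two_mul_add_one, V_two_mul]; omega

theorem V_four_add_two (j : ℕ) : V (4 * j + 2) = V j + 3 * j + 1 := by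
  have h1 : 4 * j + 2 = 2 * (2 * j + 1) := by ring
  rw [h1, V_two_mul, V_two_mul_add_one]; omega

theorem V_four_add_three (j : ℕ) : V (4 * j + 3) = V j + 3 * j + 1 := by
  have h1 : 4 * j + 3 = 2 * (2 * j + 1) + 1 := by ring
  rw [h1, V_two_mul_add_one, V_two_mul_add_one]; omega

theorem V_two : V 2 = 1 := by
  have h := V_two_mul 1
  rw [V_one] at h
  simpa using h

theorem V_three : V 3 = 1 := by
  have h := V_two_mul_add_one 1
  rw [V_one] at h
  simpa using h

theorem V_nine : V 9 = 7 := by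
  have h := V_four_add_one 2
  rw [V_two] at h
  simpa using h

theorem g_zero : g 0 = 1 := by decide
theorem g_one : g 1 = 1 := by decide
theorem g_two : g 2 = 2 := by decide
theorem g_three : g 3 = 3 := by decide

theorem B_eq (i r : ℕ) (hr : r < 4) : B (4 * i + r) = 2 ^ (V i + 3 * i) * g r := by
  unfold B
  have hmod : (4 * i + r) % 4 = r := by omega
  rw [hmod]
  rcases (by omega : r = 0 ∨ r = 1 ∨ r = 2 ∨ r = 3) with rfl | rfl | rfl | rfl
  · rw [if_neg (by norm_num : ¬ (0:ℕ) = 3), Nat.add_zero, V_four, g_zero, mul_one]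
  · rw [if_neg (by norm_num : ¬ (1:ℕ) = 3), V_four_add_one, g_one, mul_one]
  · rw [if_neg (by norm_num : ¬ (2:ℕ) = 3), V_four_add_two, g_two, pow_succ]
  · rw [if_pos rfl, V_four_add_three, Nat.add_sub_cancel, g_three, mul_comm]

theorem g_mul_le1 (r t : ℕ) (hr : r < 4) (ht : t < 4) (h : r + t < 4) :
    g r * g t ≤ g (r + t) := by
  interval_cases r <;> interval_cases t <;> first | omega | decide

theorem g_mul_le2 (r t : ℕ) (hr : r < 4) (ht : t < 4) (h : 4 ≤ r + t) :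
    g r * g t ≤ 8 * g (r + t - 4) := by
  interval_cases r <;> interval_cases t <;> first | omega | decide

theorem eight_mul_pow (A C : ℕ) : 8 * (2 ^ A * 2 ^ C) = 2 ^ (3 + (A + C)) := by
  rw [pow_add, pow_add]; norm_num

theorem B_mul_le (a b : ℕ) : B a * B b ≤ B (a + b) := by
  obtain ⟨i, r, hr, rfl⟩ : ∃ i r, r < 4 ∧ a = 4 * i + r :=
    ⟨a / 4, a % 4, Nat.mod_lt _ (by norm_num), by omega⟩
  obtain ⟨j, t, ht, rfl⟩ : ∃ j t, t < 4 ∧ b = 4 * j + t :=
    ⟨b / 4, b % 4, Nat.mod_lt _ (by norm_num), by omega⟩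
  rw [B_eq i r hr, B_eq j t ht]
  have hV : V i + V j ≤ V (i + j) := V_add i j
  by_cases h : r + t < 4
  · have e : 4 * i + r + (4 * j + t) = 4 * (i + j) + (r + t) := by ring
    rw [e, B_eq (i + j) (r + t) h]
    have h1 : 2 ^ (V i + 3 * i) * 2 ^ (V j + 3 * j) ≤ 2 ^ (V (i + j) + 3 * (i + j)) := by
      rw [← pow_add]
      exact Nat.pow_le_pow_right (by norm_num) (by omega)
    calc 2 ^ (V i + 3 * i) * g r * (2 ^ (V j + 3 * j) * g t)
        = (2 ^ (V i + 3 * i) * 2 ^ (V j + 3 * j)) * (g r * g t) := by ring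
      _ ≤ 2 ^ (V (i + j) + 3 * (i + j)) * g (r + t) :=
          Nat.mul_le_mul h1 (g_mul_le1 r t hr ht h)
  · have h' : 4 ≤ r + t := by omega
    have e : 4 * i + r + (4 * j + t) = 4 * (i + j + 1) + (r + t - 4) := by omega
    rw [e, B_eq (i + j + 1) (r + t - 4) (by omega)]
    have hV2 : V (i + j) ≤ V (i + j + 1) := V_mono (by omega)
    have h1 : 8 * (2 ^ (V i + 3 * i) * 2 ^ (V j + 3 * j))
        ≤ 2 ^ (V (i + j + 1) + 3 * (i + j + 1)) := by
      rw [eight_mul_pow]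
      exact Nat.pow_le_pow_right (by norm_num) (by omega)
    calc 2 ^ (V i + 3 * i) * g r * (2 ^ (V j + 3 * j) * g t)
        = (2 ^ (V i + 3 * i) * 2 ^ (V j + 3 * j)) * (g r * g t) := by ring
      _ ≤ (2 ^ (V i + 3 * i) * 2 ^ (V j + 3 * j)) * (8 * g (r + t - 4)) :=
          Nat.mul_le_mul_left _ (g_mul_le2 r t hr ht h')
      _ = (8 * (2 ^ (V i + 3 * i) * 2 ^ (V j + 3 * j))) * g (r + t - 4) := by ring
      _ ≤ 2 ^ (V (i + j + 1) + 3 * (i + j + 1)) * g (r + t - 4) :=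
          Nat.mul_le_mul_right _ h1

theorem pow_V_le_B (n : ℕ) : 2 ^ V n ≤ B n := by
  unfold B
  split_ifs with h
  · have hV : 1 ≤ V n := by
      have h1 : V 2 ≤ V n := V_mono (by omega)
      rw [V_two] at h1
      exact h1
    obtain ⟨k, hk⟩ : ∃ k, V n = k + 1 := ⟨V n - 1, by omega⟩
    rw [hk, Nat.add_sub_cancel, pow_succ]
    have hp : 0 < 2 ^ k := by positivity
    omega
  · exact le_rfl

theorem B_pos (n : ℕ) : 0 < B n := lt_of_lt_of_le (by positivity) (pow_V_le_B n)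

theorem B_mono {a b : ℕ} (h : a ≤ b) : B a ≤ B b := by
  obtain ⟨c, rfl⟩ := Nat.exists_eq_add_of_le h
  calc B a = B a * 1 := (mul_one _).symm
    _ ≤ B a * B c := Nat.mul_le_mul_left _ (B_pos c)
    _ ≤ B (a + c) := B_mul_le a c

theorem B_zero : B 0 = 1 := by simp [B, V]

theorem B_three : B 3 = 3 := by simp [B, V_three]

theorem U_succ (p : ℕ) [Fact p.Prime] (a : ℕ) :
    padicValNat p (p ^ (a + 1)).factorial = padicValNat p (p ^ a).factorial + p ^ a := by
  rw [pow_succ', padicValNat_factorial_mul]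

theorem U_zero (p : ℕ) : padicValNat p (p ^ 0).factorial = 0 := by simp

theorem two_mul_add_one_le (k : ℕ) : 2 * k + 1 ≤ 2 ^ (k + 1) := by
  induction k with
  | zero => norm_num
  | succ k ih =>
    have h : 2 ^ (k + 1 + 1) = 2 * 2 ^ (k + 1) := by rw [pow_succ']
    omega

theorem V_odd_mul (k q : ℕ) (hk : 2 ≤ k) : V q + (k + 1) * q ≤ V ((2 * k + 1) * q) := by
  have e : (2 * k + 1) * q = q + 2 * (k * q) := by ring
  rw [e]
  have h1 := V_add q (2 * (k * q))
  have h2 := V_two_mul (k * q)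
  have h3 : V (2 * q) ≤ V (k * q) := V_mono (Nat.mul_le_mul_right q hk)
  have h4 := V_two_mul q
  have h5 : (k + 1) * q = k * q + q := by ring
  omega

theorem big_prime (p k : ℕ) [Fact p.Prime] (hp : p = 2 * k + 1) (hk : 2 ≤ k) (a : ℕ) :
    p ^ padicValNat p (p ^ a).factorial ≤ 2 ^ V (p ^ a) := by
  induction a with
  | zero =>
    rw [U_zero, pow_zero]
    exact Nat.one_le_two_pow
  | succ a ih =>
    rw [U_succ p a]
    have hV : V (p ^ a) + (k + 1) * p ^ a ≤ V (p ^ (a + 1)) := by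
      have h := V_odd_mul k (p ^ a) hk
      rw [← hp, ← pow_succ'] at h
      exact h
    have hpq : p ^ (p ^ a) ≤ 2 ^ ((k + 1) * p ^ a) := by
      rw [pow_mul]
      exact Nat.pow_le_pow_left (by rw [hp]; exact two_mul_add_one_le k) _
    calc p ^ (padicValNat p (p ^ a).factorial + p ^ a)
        = p ^ padicValNat p (p ^ a).factorial * p ^ (p ^ a) := pow_add p _ _
      _ ≤ 2 ^ V (p ^ a) * 2 ^ ((k + 1) * p ^ a) := Nat.mul_le_mul ih hpq
      _ = 2 ^ (V (p ^ a) + (k + 1) * p ^ a) := (pow_add 2 _ _).symm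
      _ ≤ 2 ^ V (p ^ (a + 1)) := Nat.pow_le_pow_right (by norm_num) hV

theorem three_rel (a : ℕ) : 3 ^ a = 2 * padicValNat 3 (3 ^ a).factorial + 1 := by
  induction a with
  | zero => simp
  | succ a ih =>
    rw [U_succ 3 a, pow_succ]
    omega

theorem U3_two : padicValNat 3 (3 ^ 2).factorial = 4 := by
  have h := three_rel 2
  omega

theorem three_step (u v w q : ℕ) (hq : q = 2 * u + 1) (hw : 2 * v + q ≤ w)
    (ih : 3 * 3 ^ u ≤ 2 * 2 ^ v) : 3 * 3 ^ (u + q) ≤ 2 * 2 ^ w := by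
  subst hq
  have h3 : (3:ℕ) ^ u ≤ 2 ^ u * 2 ^ u := by
    rw [← mul_pow]; exact Nat.pow_le_pow_left (by norm_num) u
  calc 3 * 3 ^ (u + (2 * u + 1)) = (3 * 3 ^ u) * (3 * 3 ^ u) * 3 ^ u := by ring
    _ ≤ (2 * 2 ^ v) * (2 * 2 ^ v) * (2 ^ u * 2 ^ u) :=
        Nat.mul_le_mul (Nat.mul_le_mul ih ih) h3
    _ = 2 * 2 ^ (2 * v + (2 * u + 1)) := by ring
    _ ≤ 2 * 2 ^ w := Nat.mul_le_mul_left _ (Nat.pow_le_pow_right (by norm_num) hw)

theorem three_strong (a : ℕ) (ha : 2 ≤ a) :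
    3 * 3 ^ padicValNat 3 (3 ^ a).factorial ≤ 2 * 2 ^ V (3 ^ a) := by
  induction a, ha using Nat.le_induction with
  | base =>
    rw [U3_two, show (3:ℕ) ^ 2 = 9 by norm_num, V_nine]
    norm_num
  | succ a ha ih =>
    rw [U_succ 3 a]
    have hw : 2 * V (3 ^ a) + 3 ^ a ≤ V (3 ^ (a + 1)) := by
      have e : 3 ^ (a + 1) = 3 ^ a + 2 * 3 ^ a := by rw [pow_succ]; ring
      rw [e]
      have h1 := V_add (3 ^ a) (2 * 3 ^ a)
      have h2 := V_two_mul (3 ^ a)
      omega
    exact three_step _ _ _ _ (three_rel a) hw ih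

theorem three_le (a : ℕ) : 3 ^ padicValNat 3 (3 ^ a).factorial ≤ B (3 ^ a) := by
  rcases Nat.lt_or_ge a 2 with h | h
  · rcases (by omega : a = 0 ∨ a = 1) with rfl | rfl
    · rw [U_zero, pow_zero]
      exact B_pos _
    · have h1 : padicValNat 3 (3 ^ 1).factorial = 1 := by
        have h := three_rel 1
        omega
      have h2 : B (3 ^ 1) = 3 := by
        rw [show (3:ℕ) ^ 1 = 3 by norm_num]; exact B_three
      exact le_of_eq (calc 3 ^ padicValNat 3 (3 ^ 1).factorial = 3 ^ 1 := by rw [h1]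
        _ = 3 := by norm_num
        _ = B (3 ^ 1) := h2.symm)
  · have h1 := three_strong a h
    have h2 := pow_V_le_B (3 ^ a)
    have h3 : 3 ^ padicValNat 3 (3 ^ a).factorial ≤ 2 ^ V (3 ^ a) := by omega
    exact le_trans h3 h2

theorem syl_le_B (p : ℕ) [hp : Fact p.Prime] (a : ℕ) :
    p ^ padicValNat p (p ^ a).factorial ≤ B (p ^ a) := by
  rcases hp.out.eq_two_or_odd with h2 | hodd
  · subst h2
    exact pow_V_le_B _
  · by_cases h3 : p = 3
    · subst h3
      exact three_le a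
    · have h5 : 5 ≤ p := by
        have := hp.out.two_le
        omega
      have hpk : p = 2 * (p / 2) + 1 := by omega
      exact le_trans (big_prime p (p / 2) hpk (by omega) a) (pow_V_le_B _)

theorem prod_B_le (s : Finset ℕ) (f : ℕ → ℕ) :
    ∏ p ∈ s, B (f p) ≤ B (∑ p ∈ s, f p) := by
  induction s using Finset.induction_on with
  | empty => simp [B_zero]
  | insert a s ha ih =>
    rw [Finset.prod_insert ha, Finset.sum_insert ha]
    exact le_trans (Nat.mul_le_mul_left _ ih) (B_mul_le _ _)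

theorem add_le_mul_two (a b : ℕ) (ha : 2 ≤ a) (hb : 2 ≤ b) : a + b ≤ a * b := by
  obtain ⟨c, rfl⟩ := Nat.exists_eq_add_of_le ha
  obtain ⟨d, rfl⟩ := Nat.exists_eq_add_of_le hb
  nlinarith [Nat.zero_le (c * d)]

theorem sum_le_prod_aux (s : Finset ℕ) (f : ℕ → ℕ) (h : ∀ i ∈ s, 2 ≤ f i) :
    ∑ i ∈ s, f i ≤ ∏ i ∈ s, f i ∧ (s.Nonempty → 2 ≤ ∏ i ∈ s, f i) := by
  induction s using Finset.induction_on with
  | empty => exact ⟨by simp, fun h => absurd h (by simp)⟩
  | insert a s ha ih =>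
    have hs : ∀ i ∈ s, 2 ≤ f i := fun i hi => h i (Finset.mem_insert_of_mem hi)
    have hfa : 2 ≤ f a := h a (Finset.mem_insert_self a s)
    obtain ⟨ih1, ih2⟩ := ih hs
    rw [Finset.prod_insert ha, Finset.sum_insert ha]
    rcases s.eq_empty_or_nonempty with hs0 | hne
    · subst hs0
      exact ⟨by simp, fun _ => by simpa using hfa⟩
    · have h2 := ih2 hne
      refine ⟨?_, fun _ => ?_⟩
      · exact le_trans (Nat.add_le_add_left ih1 _) (add_le_mul_two _ _ hfa h2)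
      · calc 2 ≤ f a := hfa
          _ = f a * 1 := (mul_one _).symm
          _ ≤ f a * ∏ i ∈ s, f i := Nat.mul_le_mul_left _ (by omega)

theorem sum_le_prod (s : Finset ℕ) (f : ℕ → ℕ) (h : ∀ i ∈ s, 2 ≤ f i) :
    ∑ i ∈ s, f i ≤ ∏ i ∈ s, f i := (sum_le_prod_aux s f h).1

end Cfsg.Agent.Helper28.NilNum
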