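import Mathlib
import Cfsg.Agent.Helper28.NilNum

namespace Cfsg.Agent.Helper28.NilGrp

variable {G : Type} [Group G] [Finite G]

theorem sylow_normal (hG : Group.IsNilpotent G) (q : ℕ) [hq : Fact q.Prime] (Q : Sylow q G) :
    (Q : Subgroup G).Normal := by
  have h := (Group.isNilpotent_of_finite_tfae (G := G)).out 0 3
  exact h.1 hG q hq Q

theorem decomp (hG : Group.IsNilpotent G) (p : ℕ) [Fact p.Prime] (P : Sylow p G) (h : G) :
    ∃ a ∈ (P : Subgroup G), ∃ c : G,
      (∀ b ∈ (P : Subgroup G), c * b = b * c) ∧ h = a * c := by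
  have hPn : (P : Subgroup G).Normal := sylow_normal hG p P
  have htop : (P : Subgroup G) ⊔ Subgroup.centralizer ((P : Subgroup G) : Set G) = ⊤ := by
    apply Subgroup.eq_top_of_le_card
    apply Nat.le_of_dvd Nat.card_pos
    rw [← Nat.factorization_prime_le_iff_dvd Nat.card_pos.ne' Nat.card_pos.ne']
    intro q hq
    have : Fact q.Prime := ⟨hq⟩
    have hex : ∃ Q : Sylow q G, (Q : Subgroup G) ≤
        (P : Subgroup G) ⊔ Subgroup.centralizer ((P : Subgroup G) : Set G) := by
      by_cases hqp : q = p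
      · subst hqp
        exact ⟨P, le_sup_left⟩
      · obtain ⟨Q⟩ : Nonempty (Sylow q G) := inferInstance
        refine ⟨Q, le_trans ?_ le_sup_right⟩
        have hQn : (Q : Subgroup G).Normal := sylow_normal hG q Q
        intro y hy
        rw [Subgroup.mem_centralizer_iff]
        intro b hb
        exact (Subgroup.commute_of_normal_of_disjoint _ _ hPn hQn
          (IsPGroup.disjoint_of_ne p q (Ne.symm hqp) _ _ P.isPGroup' Q.isPGroup') b y hb hy).eq
    obtain ⟨Q, hQle⟩ := hex
    have h1 : Nat.card (Q : Subgroup G) = q ^ (Nat.card G).factorization q :=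
      Sylow.card_eq_multiplicity Q
    have h2 : Nat.card (Q : Subgroup G) ∣
        Nat.card ↥((P : Subgroup G) ⊔ Subgroup.centralizer ((P : Subgroup G) : Set G)) :=
      Subgroup.card_dvd_of_le hQle
    rw [h1] at h2
    exact (hq.pow_dvd_iff_le_factorization Nat.card_pos.ne').1 h2
  have := hPn
  have hmem' : h ∈ (((P : Subgroup G) ⊔ Subgroup.centralizer ((P : Subgroup G) : Set G) :
      Subgroup G) : Set G) := by
    rw [htop]; exact Set.mem_univ h
  rw [Subgroup.normal_mul] at hmem'
  obtain ⟨a, ha, c, hc, hac⟩ := Set.mem_mul.1 hmem'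
  refine ⟨a, ha, c, ?_, hac.symm⟩
  intro b hb
  exact ((Subgroup.mem_centralizer_iff.1 hc) b hb).symm

theorem orbit_faithful {β : Type} [MulAction G β] [FaithfulSMul G β]
    (P : Subgroup G) (x : β) (htr : ∀ y : β, ∃ g : G, g • x = y)
    (hdec : ∀ h : G, ∃ a ∈ P, ∃ c : G, (∀ b ∈ P, c * b = b * c) ∧ h = a * c) :
    Function.Injective (MulAction.toPermHom ↥P ↥(MulAction.orbit ↥P x)) := by
  rw [injective_iff_map_eq_one]
  intro g hg
  have hgx : ∀ z ∈ MulAction.orbit ↥P x, (g : G) • z = z := by
    intro z hz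
    have h1 : (MulAction.toPermHom ↥P ↥(MulAction.orbit ↥P x) g) ⟨z, hz⟩ = ⟨z, hz⟩ := by
      rw [hg]; rfl
    have h2 := congrArg Subtype.val h1
    exact h2
  apply Subtype.ext
  apply eq_of_smul_eq_smul (α := β)
  intro y
  rw [OneMemClass.coe_one, one_smul]
  obtain ⟨h, rfl⟩ := htr y
  obtain ⟨a, ha, c, hc, rfl⟩ := hdec h
  have hg' : a⁻¹ * (g : G) * a ∈ P := P.mul_mem (P.mul_mem (P.inv_mem ha) g.2) ha
  have hcomm := hc _ hg'
  have hfix : (a⁻¹ * (g : G) * a) • x = x := by
    have h1 : (g : G) • (a • x) = a • x := hgx (a • x) ⟨⟨a, ha⟩, rfl⟩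
    rw [mul_smul, mul_smul, h1, inv_smul_smul]
  have e : (g : G) * (a * c) = (a * c) * (a⁻¹ * (g : G) * a) := by
    rw [mul_assoc a c, hcomm]; group
  rw [← mul_smul, e, mul_smul, hfix]

theorem orbit_card_eq {β : Type} [MulAction G β] (P : Subgroup G) (hP : P.Normal) (x : β)
    (h : G) :
    Nat.card ↥(MulAction.orbit ↥P (h • x)) = Nat.card ↥(MulAction.orbit ↥P x) := by
  have e : MulAction.orbit ↥P (h • x) = (fun z : β => h • z) '' MulAction.orbit ↥P x := by
    ext z
    constructor
    · rintro ⟨b, rfl⟩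
      have hb' : h⁻¹ * (b : G) * h ∈ P := by
        have := hP.conj_mem (b : G) b.2 h⁻¹
        simpa using this
      refine ⟨(⟨h⁻¹ * (b : G) * h, hb'⟩ : ↥P) • x, ⟨_, rfl⟩, ?_⟩
      show h • ((h⁻¹ * (b : G) * h) • x) = (b : G) • h • x
      rw [← mul_smul, ← mul_smul]; congr 1; group
    · rintro ⟨_, ⟨b, rfl⟩, rfl⟩
      refine ⟨⟨h * (b : G) * h⁻¹, hP.conj_mem (b : G) b.2 h⟩, ?_⟩
      show (h * (b : G) * h⁻¹) • h • x = h • (b : G) • x
      rw [← mul_smul, ← mul_smul]; congr 1; group
  rw [e]
  exact Nat.card_image_of_injective (MulAction.injective h) _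

theorem orbit_card_dvd {β : Type} [Finite β] [MulAction G β] (P : Subgroup G) (hP : P.Normal)
    (x : β) (htr : ∀ y : β, ∃ g : G, g • x = y) :
    Nat.card ↥(MulAction.orbit ↥P x) ∣ Nat.card β := by
  classical
  have : Fintype (MulAction.orbitRel.Quotient ↥P β) := Fintype.ofFinite _
  have h1 : Nat.card β = Nat.card (Σ ω : MulAction.orbitRel.Quotient ↥P β,
      MulAction.orbit ↥P ω.out) :=
    Nat.card_congr (MulAction.selfEquivSigmaOrbits ↥P β)
  rw [h1, Nat.card_sigma]
  have h2 : ∀ ω : MulAction.orbitRel.Quotient ↥P β,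
      Nat.card ↥(MulAction.orbit ↥P ω.out) = Nat.card ↥(MulAction.orbit ↥P x) := by
    intro ω
    obtain ⟨h, hh⟩ := htr ω.out
    rw [← hh]
    exact orbit_card_eq P hP x h
  rw [Finset.sum_congr rfl (fun ω _ => h2 ω), Finset.sum_const, smul_eq_mul]
  exact Dvd.intro_left _ rfl

theorem sylow_bound {β : Type} [Finite β] [MulAction G β] [FaithfulSMul G β]
    (hG : Group.IsNilpotent G) (x : β) (htr : ∀ y : β, ∃ g : G, g • x = y)
    (p : ℕ) [hp : Fact p.Prime] :
    (Nat.card G).factorization p
      ≤ ((p ^ (Nat.card β).factorization p).factorial).factorization p := by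
  obtain ⟨P⟩ : Nonempty (Sylow p G) := inferInstance
  have hPn : (P : Subgroup G).Normal := sylow_normal hG p P
  have : Nonempty β := ⟨x⟩
  have hβ : Nat.card β ≠ 0 := Nat.card_pos.ne'
  obtain ⟨b, hb⟩ := P.isPGroup'.card_orbit x
  have hinj := orbit_faithful (P : Subgroup G) x htr (decomp hG p P)
  have h1 : Nat.card ↥(P : Subgroup G) ∣ (p ^ b).factorial := by
    have h := Subgroup.card_dvd_of_injective _ hinj
    rw [Nat.card_perm, hb] at h
    exact h
  have h2 : p ^ b ∣ Nat.card β := by
    rw [← hb]; exact orbit_card_dvd (P : Subgroup G) hPn x htr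
  have h3 : b ≤ (Nat.card β).factorization p :=
    (hp.out.pow_dvd_iff_le_factorization hβ).1 h2
  have h4 : (p ^ b).factorial ∣ (p ^ (Nat.card β).factorization p).factorial :=
    Nat.factorial_dvd_factorial (Nat.pow_le_pow_right hp.out.pos h3)
  have h5 : Nat.card ↥(P : Subgroup G) = p ^ (Nat.card G).factorization p :=
    Sylow.card_eq_multiplicity P
  rw [h5] at h1
  exact (hp.out.pow_dvd_iff_le_factorization (Nat.factorial_ne_zero _)).1 (dvd_trans h1 h4)

theorem num_bound (m n : ℕ) (hm0 : m ≠ 0) (hn0 : n ≠ 0)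
    (h : ∀ p : ℕ, p.Prime →
      m.factorization p ≤ ((p ^ n.factorization p).factorial).factorization p) :
    m ≤ NilNum.B n := by
  have hfac : ∀ p ∈ m.primeFactors,
      p ^ m.factorization p ≤ NilNum.B (p ^ n.factorization p) := by
    intro p hp
    have hpp := Nat.prime_of_mem_primeFactors hp
    have : Fact p.Prime := ⟨hpp⟩
    have h1 := h p hpp
    have h2 : ((p ^ n.factorization p).factorial).factorization p
        = padicValNat p (p ^ n.factorization p).factorial :=
      Nat.factorization_def _ hpp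
    rw [h2] at h1
    exact le_trans (Nat.pow_le_pow_right hpp.pos h1) (NilNum.syl_le_B p _)
  have hsub : m.primeFactors ⊆ n.primeFactors := by
    intro p hp
    have hpp := Nat.prime_of_mem_primeFactors hp
    by_contra hnot
    have hnd : ¬ p ∣ n := fun hd => hnot (Nat.mem_primeFactors.2 ⟨hpp, hd, hn0⟩)
    have h0 : n.factorization p = 0 := Nat.factorization_eq_zero_of_not_dvd hnd
    have h1 := h p hpp
    rw [h0] at h1
    have h2 : ((p ^ 0).factorial).factorization p = 0 := by simp
    rw [h2] at h1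
    have h3 : 0 < m.factorization p :=
      hpp.factorization_pos_of_dvd hm0 (Nat.dvd_of_mem_primeFactors hp)
    omega
  have hs1 : ∑ p ∈ m.primeFactors, p ^ n.factorization p
      ≤ ∑ p ∈ n.primeFactors, p ^ n.factorization p :=
    Finset.sum_le_sum_of_subset hsub
  have hs2 : ∑ p ∈ n.primeFactors, p ^ n.factorization p
      ≤ ∏ p ∈ n.primeFactors, p ^ n.factorization p := by
    refine NilNum.sum_le_prod n.primeFactors (fun p => p ^ n.factorization p) ?_
    intro p hp
    have hpp := Nat.prime_of_mem_primeFactors hp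
    have h3 : 0 < n.factorization p :=
      hpp.factorization_pos_of_dvd hn0 (Nat.dvd_of_mem_primeFactors hp)
    calc 2 ≤ p := hpp.two_le
      _ = p ^ 1 := (pow_one p).symm
      _ ≤ p ^ n.factorization p := Nat.pow_le_pow_right hpp.pos h3
  have hs3 : ∏ p ∈ n.primeFactors, p ^ n.factorization p = n :=
    Nat.prod_factorization_pow_eq_self hn0
  have hm : m = ∏ p ∈ m.primeFactors, p ^ m.factorization p :=
    (Nat.prod_factorization_pow_eq_self hm0).symm
  calc m = ∏ p ∈ m.primeFactors, p ^ m.factorization p := hm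
    _ ≤ ∏ p ∈ m.primeFactors, NilNum.B (p ^ n.factorization p) :=
        Finset.prod_le_prod (fun _ _ => Nat.zero_le _) hfac
    _ ≤ NilNum.B (∑ p ∈ m.primeFactors, p ^ n.factorization p) :=
        NilNum.prod_B_le _ (fun p => p ^ n.factorization p)
    _ ≤ NilNum.B n := NilNum.B_mono (by rw [hs3] at hs2; exact le_trans hs1 hs2)

theorem trans_bound {β : Type} [Finite β] [MulAction G β] [FaithfulSMul G β]
    (hG : Group.IsNilpotent G) (x : β) (htr : ∀ y : β, ∃ g : G, g • x = y) :
    Nat.card G ≤ NilNum.B (Nat.card β) := by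
  have : Nonempty β := ⟨x⟩
  refine num_bound _ _ Nat.card_pos.ne' Nat.card_pos.ne' ?_
  intro p hp
  have : Fact p.Prime := ⟨hp⟩
  exact sylow_bound hG x htr p

/-- The complement of an orbit, as an invariant subset. -/
def compl {β : Type} (M : Subgroup (Equiv.Perm β)) (x : β) : SubMulAction M β where
  carrier := (MulAction.orbit M x)ᶜ
  smul_mem' := by
    intro g y hy hgy
    exact hy (by
      have h := MulAction.mem_orbit_of_mem_orbit g⁻¹ hgy
      rwa [inv_smul_smul] at h)

theorem main : ∀ (n : ℕ) (β : Type) [Finite β] (M : Subgroup (Equiv.Perm β)),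
    Nat.card β = n → Group.IsNilpotent M → Nat.card M ≤ NilNum.B n := by
  intro n
  induction n using Nat.strong_induction_on with
  | _ n ih =>
    intro β hfin M hcard hM
    have := hfin
    have := hM
    classical
    rcases isEmpty_or_nonempty β with hβ | ⟨⟨x⟩⟩
    · have h1 : Nat.card M ≤ Nat.card (Equiv.Perm β) := Subgroup.card_le_card_group M
      have hb0 : Nat.card β = 0 := Nat.card_of_isEmpty
      rw [Nat.card_perm, hb0, Nat.factorial_zero] at h1
      exact le_trans h1 (NilNum.B_pos n)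
    · let φ₁ : M →* Equiv.Perm ↥(MulAction.orbit M x) :=
        MulAction.toPermHom M ↥(MulAction.orbit M x)
      let φ₂ : M →* Equiv.Perm ↥(compl M x) := MulAction.toPermHom M ↥(compl M x)
      have hM1 : Group.IsNilpotent φ₁.range :=
        Group.nilpotent_of_surjective φ₁.rangeRestrict φ₁.rangeRestrict_surjective
      have hM2 : Group.IsNilpotent φ₂.range :=
        Group.nilpotent_of_surjective φ₂.rangeRestrict φ₂.rangeRestrict_surjective
      have hle : Nat.card M ≤ Nat.card φ₁.range * Nat.card φ₂.range := by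
        rw [← Nat.card_prod]
        apply Nat.card_le_card_of_injective
          (fun g : M => (φ₁.rangeRestrict g, φ₂.rangeRestrict g))
        intro g g' hgg
        have e1 : φ₁ g = φ₁ g' := congrArg Subtype.val (congrArg Prod.fst hgg)
        have e2 : φ₂ g = φ₂ g' := congrArg Subtype.val (congrArg Prod.snd hgg)
        apply Subtype.ext
        apply Equiv.ext
        intro y
        by_cases hy : y ∈ MulAction.orbit M x
        · have h := congrArg (fun σ : Equiv.Perm ↥(MulAction.orbit M x) =>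
            ((σ ⟨y, hy⟩ : ↥(MulAction.orbit M x)) : β)) e1
          exact h
        · have h := congrArg (fun σ : Equiv.Perm ↥(compl M x) =>
            ((σ ⟨y, hy⟩ : ↥(compl M x)) : β)) e2
          exact h
      have htr : ∀ y : ↥(MulAction.orbit M x), ∃ g : ↥φ₁.range,
          g • (⟨x, MulAction.mem_orbit_self x⟩ : ↥(MulAction.orbit M x)) = y := by
        rintro ⟨y, ⟨m, rfl⟩⟩
        exact ⟨⟨φ₁ m, ⟨m, rfl⟩⟩, Subtype.ext rfl⟩
      have hb1 : Nat.card φ₁.range ≤ NilNum.B (Nat.card ↥(MulAction.orbit M x)) :=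
        trans_bound hM1 ⟨x, MulAction.mem_orbit_self x⟩ htr
      have hsum : Nat.card ↥(MulAction.orbit M x) + Nat.card ↥(compl M x) = Nat.card β := by
        have e : ↥(MulAction.orbit M x) ⊕ ↥(compl M x) ≃ β :=
          Equiv.Set.sumCompl (MulAction.orbit M x)
        rw [← Nat.card_congr e, Nat.card_sum]
      have hpos : 0 < Nat.card ↥(MulAction.orbit M x) := by
        have : Nonempty ↥(MulAction.orbit M x) := ⟨⟨x, MulAction.mem_orbit_self x⟩⟩
        exact Nat.card_pos
      have hlt : Nat.card ↥(compl M x) < n := by omega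
      have hb2 : Nat.card φ₂.range ≤ NilNum.B (Nat.card ↥(compl M x)) :=
        ih (Nat.card ↥(compl M x)) hlt ↥(compl M x) φ₂.range rfl hM2
      calc Nat.card M ≤ Nat.card φ₁.range * Nat.card φ₂.range := hle
        _ ≤ NilNum.B (Nat.card ↥(MulAction.orbit M x)) * NilNum.B (Nat.card ↥(compl M x)) :=
            Nat.mul_le_mul hb1 hb2
        _ ≤ NilNum.B (Nat.card ↥(MulAction.orbit M x) + Nat.card ↥(compl M x)) :=
            NilNum.B_mul_le _ _
        _ = NilNum.B n := by rw [hsum, hcard]

end Cfsg.Agent.Helper28.NilGrp
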