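import Mathlib
import Cfsg.Agent.Helper28.NilNum

namespace Cfsg.Agent.Helper28.NilNum

theorem Vt_0 : V 0 = 0 := V_zero
theorem Vt_1 : V 1 = 0 := V_one
theorem Vt_2 : V 2 = 1 := V_two
theorem Vt_3 : V 3 = 1 := V_three

theorem Vt_4 : V 4 = 3 := by
  have h := V_two_mul 2
  rw [Vt_2] at h
  simpa using h

theorem Vt_5 : V 5 = 3 := by
  have h := V_two_mul_add_one 2
  rw [Vt_2] at h
  simpa using h

theorem Vt_6 : V 6 = 4 := by
  have h := V_two_mul 3
  rw [Vt_3] at h
  simpa using h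

theorem Vt_7 : V 7 = 4 := by
  have h := V_two_mul_add_one 3
  rw [Vt_3] at h
  simpa using h

theorem Vt_8 : V 8 = 7 := by
  have h := V_two_mul 4
  rw [Vt_4] at h
  simpa using h

theorem Vt_9 : V 9 = 7 := by
  have h := V_two_mul_add_one 4
  rw [Vt_4] at h
  simpa using h

theorem Vt_10 : V 10 = 8 := by
  have h := V_two_mul 5
  rw [Vt_5] at h
  simpa using h

theorem Vt_11 : V 11 = 8 := by
  have h := V_two_mul_add_one 5
  rw [Vt_5] at h
  simpa using h

theorem Vt_12 : V 12 = 10 := by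
  have h := V_two_mul 6
  rw [Vt_6] at h
  simpa using h

theorem Vt_13 : V 13 = 10 := by
  have h := V_two_mul_add_one 6
  rw [Vt_6] at h
  simpa using h

theorem Vt_14 : V 14 = 11 := by
  have h := V_two_mul 7
  rw [Vt_7] at h
  simpa using h

theorem Vt_15 : V 15 = 11 := by
  have h := V_two_mul_add_one 7
  rw [Vt_7] at h
  simpa using h

theorem Vt_16 : V 16 = 15 := by
  have h := V_two_mul 8
  rw [Vt_8] at h
  simpa using h

theorem Vt_17 : V 17 = 15 := by
  have h := V_two_mul_add_one 8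
  rw [Vt_8] at h
  simpa using h

theorem Vt_18 : V 18 = 16 := by
  have h := V_two_mul 9
  rw [Vt_9] at h
  simpa using h

theorem Vt_25 : V 25 = 22 := by
  have h := V_two_mul_add_one 12
  rw [Vt_12] at h
  simpa using h

theorem Vt_27 : V 27 = 23 := by
  have h := V_two_mul_add_one 13
  rw [Vt_13] at h
  simpa using h

theorem Bt_0 : B 0 = 1 := by simp [B, Vt_0]

theorem Bt_1 : B 1 = 1 := by simp [B, Vt_1]

theorem Bt_2 : B 2 = 2 := by simp [B, Vt_2]

theorem Bt_3 : B 3 = 3 := by simp [B, Vt_3]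

theorem Bt_4 : B 4 = 8 := by simp [B, Vt_4]

theorem Bt_5 : B 5 = 8 := by simp [B, Vt_5]

theorem Bt_6 : B 6 = 16 := by simp [B, Vt_6]

theorem Bt_7 : B 7 = 24 := by simp [B, Vt_7]

theorem Bt_8 : B 8 = 128 := by simp [B, Vt_8]

theorem Bt_9 : B 9 = 128 := by simp [B, Vt_9]

theorem Bt_10 : B 10 = 256 := by simp [B, Vt_10]

theorem Bt_11 : B 11 = 384 := by simp [B, Vt_11]

theorem Bt_12 : B 12 = 1024 := by simp [B, Vt_12]

theorem Bt_13 : B 13 = 1024 := by simp [B, Vt_13]

theorem Bt_14 : B 14 = 2048 := by simp [B, Vt_14]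

theorem Bt_15 : B 15 = 3072 := by simp [B, Vt_15]

theorem Bt_16 : B 16 = 32768 := by simp [B, Vt_16]

theorem Bt_17 : B 17 = 32768 := by simp [B, Vt_17]

theorem Bt_18 : B 18 = 65536 := by simp [B, Vt_18]

/-- Bound function for even nilpotent groups (twice the order). -/
def D (n : ℕ) : ℕ :=
  if n = 0 then 2 else if n = 1 then 2 else if n = 3 then 6 else if n = 5 then 10
  else if n = 6 then 18 else if n = 9 then 162 else B n

theorem D_eq_B (n : ℕ) (h0 : n ≠ 0) (h1 : n ≠ 1) (h3 : n ≠ 3) (h5 : n ≠ 5) (h6 : n ≠ 6)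
    (h9 : n ≠ 9) : D n = B n := by
  unfold D
  rw [if_neg h0, if_neg h1, if_neg h3, if_neg h5, if_neg h6, if_neg h9]

theorem B_le_D (n : ℕ) : B n ≤ D n := by
  by_cases h : n = 0 ∨ n = 1 ∨ n = 3 ∨ n = 5 ∨ n = 6 ∨ n = 9
  · rcases h with rfl | rfl | rfl | rfl | rfl | rfl <;>
      simp [D, Bt_0, Bt_1, Bt_3, Bt_5, Bt_6, Bt_9]
  · push_neg at h
    exact le_of_eq (D_eq_B n h.1 h.2.1 h.2.2.1 h.2.2.2.1 h.2.2.2.2.1 h.2.2.2.2.2).symm

theorem D_le_two_B (n : ℕ) : D n ≤ 2 * B n := by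
  by_cases h : n = 0 ∨ n = 1 ∨ n = 3 ∨ n = 5 ∨ n = 6 ∨ n = 9
  · rcases h with rfl | rfl | rfl | rfl | rfl | rfl <;>
      simp [D, Bt_0, Bt_1, Bt_3, Bt_5, Bt_6, Bt_9]
  · push_neg at h
    have e := D_eq_B n h.1 h.2.1 h.2.2.1 h.2.2.2.1 h.2.2.2.2.1 h.2.2.2.2.2
    omega

theorem save (x k n : ℕ) (h : 2 * x ≤ B k) (hkn : k ≤ n) : x * D (n - k) ≤ D n := by
  have h1 := D_le_two_B (n - k)
  have h2 := B_mul_le k (n - k)
  rw [Nat.add_sub_of_le hkn] at h2
  have h3 := B_le_D n
  calc x * D (n - k) ≤ x * (2 * B (n - k)) := Nat.mul_le_mul_left _ h1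
    _ = (2 * x) * B (n - k) := by ring
    _ ≤ B k * B (n - k) := Nat.mul_le_mul_right _ h
    _ ≤ B n := h2
    _ ≤ D n := h3

theorem req (k t n : ℕ)
    (h : (k = 1 ∧ t = 1) ∨ (k = 3 ∧ t = 3) ∨ (k = 5 ∧ t = 5) ∨ (k = 9 ∧ t = 81))
    (hkn : k ≤ n) : t * D (n - k) ≤ D n := by
  rcases Nat.lt_or_ge n 19 with hn | hn
  · interval_cases n <;> rcases h with ⟨rfl, rfl⟩ | ⟨rfl, rfl⟩ | ⟨rfl, rfl⟩ | ⟨rfl, rfl⟩ <;>
      first
      | omega
      | simp [D, Bt_0, Bt_1, Bt_2, Bt_3, Bt_4, Bt_5, Bt_6, Bt_7, Bt_8, Bt_9, Bt_10, Bt_11,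
          Bt_12, Bt_13, Bt_14, Bt_15, Bt_16, Bt_17, Bt_18]
  · have hk9 : k ≤ 9 := by
      rcases h with ⟨rfl, _⟩ | ⟨rfl, _⟩ | ⟨rfl, _⟩ | ⟨rfl, _⟩ <;> omega
    have e1 : D n = B n :=
      D_eq_B n (by omega) (by omega) (by omega) (by omega) (by omega) (by omega)
    have e2 : D (n - k) = B (n - k) :=
      D_eq_B (n - k) (by omega) (by omega) (by omega) (by omega) (by omega) (by omega)
    have htk : t ≤ B k := by
      rcases h with ⟨rfl, rfl⟩ | ⟨rfl, rfl⟩ | ⟨rfl, rfl⟩ | ⟨rfl, rfl⟩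
      · simp [Bt_1]
      · simp [Bt_3]
      · simp [Bt_5]
      · simp [Bt_9]
    have h2 := B_mul_le k (n - k)
    rw [Nat.add_sub_of_le hkn] at h2
    rw [e1, e2]
    exact le_trans (Nat.mul_le_mul_right _ htk) h2

theorem big_step (p j : ℕ) [Fact p.Prime] (hp : p = 2 * j + 1) (hj : 2 ≤ j) (a : ℕ)
    (ih : 2 * p ^ padicValNat p (p ^ a).factorial ≤ 2 ^ V (p ^ a)) :
    2 * p ^ padicValNat p (p ^ (a + 1)).factorial ≤ 2 ^ V (p ^ (a + 1)) := by
  rw [U_succ p a]
  have hV : V (p ^ a) + (j + 1) * p ^ a ≤ V (p ^ (a + 1)) := by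
    have h := V_odd_mul j (p ^ a) hj
    rw [← hp, ← pow_succ'] at h
    exact h
  have hpq : p ^ (p ^ a) ≤ 2 ^ ((j + 1) * p ^ a) := by
    rw [pow_mul]
    exact Nat.pow_le_pow_left (by rw [hp]; exact two_mul_add_one_le j) _
  calc 2 * p ^ (padicValNat p (p ^ a).factorial + p ^ a)
      = (2 * p ^ padicValNat p (p ^ a).factorial) * p ^ (p ^ a) := by rw [pow_add, mul_assoc]
    _ ≤ 2 ^ V (p ^ a) * 2 ^ ((j + 1) * p ^ a) := Nat.mul_le_mul ih hpq
    _ = 2 ^ (V (p ^ a) + (j + 1) * p ^ a) := (pow_add 2 _ _).symm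
    _ ≤ 2 ^ V (p ^ (a + 1)) := Nat.pow_le_pow_right (by norm_num) hV

theorem four_j_le (j : ℕ) (hj : 3 ≤ j) : 4 * j + 2 ≤ 2 ^ (j + 1) := by
  induction j, hj using Nat.le_induction with
  | base => norm_num
  | succ j hj ih =>
    have h : 2 ^ (j + 1 + 1) = 2 * 2 ^ (j + 1) := by rw [pow_succ']
    omega

theorem U_one (p : ℕ) [Fact p.Prime] : padicValNat p (p ^ 1).factorial = 1 := by
  have h := U_succ p 0
  rw [U_zero, zero_add, zero_add, pow_zero] at h
  exact h

theorem big_save (p j : ℕ) [Fact p.Prime] (hp : p = 2 * j + 1) (hj : 3 ≤ j) (a : ℕ)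
    (ha : 1 ≤ a) : 2 * p ^ padicValNat p (p ^ a).factorial ≤ 2 ^ V (p ^ a) := by
  induction a, ha using Nat.le_induction with
  | base =>
    rw [U_one p, pow_one]
    have hV : j + 1 ≤ V p := by
      rw [hp, V_two_mul_add_one]
      have h1 : V 2 ≤ V j := V_mono (by omega)
      rw [V_two] at h1
      omega
    calc 2 * p = 4 * j + 2 := by omega
      _ ≤ 2 ^ (j + 1) := four_j_le j hj
      _ ≤ 2 ^ V p := Nat.pow_le_pow_right (by norm_num) hV
  | succ a ha ih => exact big_step p j hp (by omega) a ih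

theorem five_save (a : ℕ) (ha : 2 ≤ a) :
    2 * 5 ^ padicValNat 5 (5 ^ a).factorial ≤ 2 ^ V (5 ^ a) := by
  have : Fact (Nat.Prime 5) := ⟨by norm_num⟩
  induction a, ha using Nat.le_induction with
  | base =>
    have hU : padicValNat 5 (5 ^ 2).factorial = 6 := by
      have h := U_succ 5 1
      rw [U_one 5] at h
      first | exact h | simpa using h
    rw [hU, show (5:ℕ) ^ 2 = 25 by norm_num, Vt_25]
    norm_num
  | succ a ha ih => exact big_step 5 2 (by norm_num) (by norm_num) a ih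

theorem three_step2 (u v w q : ℕ) (hq : q = 2 * u + 1) (hw : 2 * v + q ≤ w)
    (ih : 4 * 3 ^ u ≤ 2 ^ v) : 4 * 3 ^ (u + q) ≤ 2 ^ w := by
  subst hq
  have h3 : (3:ℕ) ^ u ≤ 2 ^ u * 2 ^ u := by
    rw [← mul_pow]; exact Nat.pow_le_pow_left (by norm_num) u
  calc 4 * 3 ^ (u + (2 * u + 1)) = 12 * (3 ^ u * 3 ^ u * 3 ^ u) := by ring
    _ ≤ 32 * (3 ^ u * 3 ^ u * 3 ^ u) := Nat.mul_le_mul_right _ (by norm_num)
    _ = 2 * ((4 * 3 ^ u) * (4 * 3 ^ u)) * 3 ^ u := by ring
    _ ≤ 2 * (2 ^ v * 2 ^ v) * (2 ^ u * 2 ^ u) :=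
        Nat.mul_le_mul (Nat.mul_le_mul_left _ (Nat.mul_le_mul ih ih)) h3
    _ = 2 ^ (2 * v + (2 * u + 1)) := by ring
    _ ≤ 2 ^ w := Nat.pow_le_pow_right (by norm_num) hw

theorem three_save (a : ℕ) (ha : 3 ≤ a) :
    4 * 3 ^ padicValNat 3 (3 ^ a).factorial ≤ 2 ^ V (3 ^ a) := by
  induction a, ha using Nat.le_induction with
  | base =>
    have hU : padicValNat 3 (3 ^ 3).factorial = 13 := by
      have h := three_rel 3
      omega
    rw [hU, show (3:ℕ) ^ 3 = 27 by norm_num, Vt_27]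
    norm_num
  | succ a ha ih =>
    rw [U_succ 3 a]
    have hw : 2 * V (3 ^ a) + 3 ^ a ≤ V (3 ^ (a + 1)) := by
      have e : 3 ^ (a + 1) = 3 ^ a + 2 * 3 ^ a := by rw [pow_succ]; ring
      rw [e]
      have h1 := V_add (3 ^ a) (2 * 3 ^ a)
      have h2 := V_two_mul (3 ^ a)
      omega
    exact three_step2 _ _ _ _ (three_rel a) hw ih

theorem pp_save (p : ℕ) [hp : Fact p.Prime] (a : ℕ) (h2 : p ≠ 2) (h1 : p ^ a ≠ 1)
    (h3 : p ^ a ≠ 3) (h5 : p ^ a ≠ 5) (h9 : p ^ a ≠ 9) :
    2 * p ^ padicValNat p (p ^ a).factorial ≤ B (p ^ a) := by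
  have ha : 1 ≤ a := by
    rcases Nat.eq_zero_or_pos a with h | h
    · subst h; exact absurd (pow_zero p) h1
    · exact h
  have hodd : p % 2 = 1 := by
    rcases hp.out.eq_two_or_odd with h | h
    · exact absurd h h2
    · exact h
  have h2le := hp.out.two_le
  by_cases hp3 : p = 3
  · subst hp3
    have ha3 : 3 ≤ a := by
      rcases (by omega : a = 1 ∨ a = 2 ∨ 3 ≤ a) with rfl | rfl | h
      · exact absurd (by norm_num) h3
      · exact absurd (by norm_num) h9
      · exact h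
    have h := three_save a ha3
    have hB := pow_V_le_B (3 ^ a)
    omega
  · by_cases hp5 : p = 5
    · subst hp5
      have ha2 : 2 ≤ a := by
        rcases (by omega : a = 1 ∨ 2 ≤ a) with rfl | h
        · exact absurd (by norm_num) h5
        · exact h
      exact le_trans (five_save a ha2) (pow_V_le_B _)
    · have hpk : p = 2 * (p / 2) + 1 := by omega
      exact le_trans (big_save p (p / 2) hpk (by omega) a ha) (pow_V_le_B _)

theorem num_bound_T (m n : ℕ) (hm0 : m ≠ 0) (hn0 : n ≠ 0)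
    (h : ∀ p : ℕ, p.Prime →
      m.factorization p ≤ ((p ^ n.factorization p).factorial).factorization p) :
    m.primeFactors ⊆ n.primeFactors ∧
    m ≤ ∏ p ∈ m.primeFactors, p ^ padicValNat p (p ^ n.factorization p).factorial := by
  refine ⟨?_, ?_⟩
  · intro p hp
    have hpp := Nat.prime_of_mem_primeFactors hp
    by_contra hnot
    have hnd : ¬ p ∣ n := fun hd => hnot (Nat.mem_primeFactors.2 ⟨hpp, hd, hn0⟩)
    have h0 : n.factorization p = 0 := Nat.factorization_eq_zero_of_not_dvd hnd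
    have h1 := h p hpp
    rw [h0] at h1
    have h2 : ((p ^ 0).factorial).factorization p = 0 := by simp
    rw [h2] at h1
    have h3 : 0 < m.factorization p :=
      hpp.factorization_pos_of_dvd hm0 (Nat.dvd_of_mem_primeFactors hp)
    omega
  · have hm : m = ∏ p ∈ m.primeFactors, p ^ m.factorization p :=
      (Nat.prod_factorization_pow_eq_self hm0).symm
    calc m = ∏ p ∈ m.primeFactors, p ^ m.factorization p := hm
      _ ≤ ∏ p ∈ m.primeFactors, p ^ padicValNat p (p ^ n.factorization p).factorial :=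
        Finset.prod_le_prod (fun _ _ => Nat.zero_le _) (fun p hp => by
          have hpp := Nat.prime_of_mem_primeFactors hp
          have h1 := h p hpp
          have h2 : ((p ^ n.factorization p).factorial).factorization p
              = padicValNat p (p ^ n.factorization p).factorial :=
            Nat.factorization_def _ hpp
          rw [h2] at h1
          exact Nat.pow_le_pow_right hpp.pos h1)

theorem pp_bound (m k p a : ℕ) (hk : k = p ^ a) (hp : p.Prime) (ha : a ≠ 0) (hm0 : m ≠ 0)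
    (h : ∀ q : ℕ, q.Prime →
      m.factorization q ≤ ((q ^ k.factorization q).factorial).factorization q) :
    m ≤ p ^ padicValNat p (p ^ a).factorial := by
  subst hk
  obtain ⟨hsub, hle⟩ := num_bound_T m (p ^ a) hm0 (pow_ne_zero _ hp.ne_zero) h
  rw [Nat.primeFactors_prime_pow ha hp] at hsub
  have hfa : (p ^ a).factorization p = a := by
    rw [hp.factorization_pow]; simp
  rcases Finset.subset_singleton_iff.1 hsub with h0 | h1
  · rw [h0, Finset.prod_empty] at hle
    exact le_trans hle (Nat.one_le_pow _ _ hp.pos)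
  · rw [h1, Finset.prod_singleton, hfa] at hle
    exact hle

theorem sum_add_two_le (s : Finset ℕ) (f : ℕ → ℕ) (h : ∀ i ∈ s, 2 ≤ f i) (p : ℕ) (hp : p ∈ s)
    (hp4 : 4 ≤ f p) (hne : (s.erase p).Nonempty) :
    ∑ i ∈ s, f i + 2 ≤ ∏ i ∈ s, f i := by
  have h' : ∀ i ∈ s.erase p, 2 ≤ f i := fun i hi => h i (Finset.mem_of_mem_erase hi)
  obtain ⟨h1, h2⟩ := sum_le_prod_aux (s.erase p) f h'
  have h3 := h2 hne
  rw [← Finset.add_sum_erase s f hp, ← Finset.mul_prod_erase s f hp]
  obtain ⟨c, hc⟩ : ∃ c, f p = 4 + c := ⟨f p - 4, by omega⟩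
  obtain ⟨d, hd⟩ : ∃ d, ∏ i ∈ s.erase p, f i = 2 + d := ⟨_, (Nat.add_sub_of_le h3).symm⟩
  rw [hd] at h1
  rw [hc, hd]
  nlinarith [Nat.zero_le (c * d), h1]

theorem pow_small (b e : ℕ) (hb : 2 ≤ b) (h1 : 2 ≤ b ^ e) (h2 : b ^ e < 4) : b ^ e = b := by
  rcases (by omega : e = 0 ∨ e = 1 ∨ 2 ≤ e) with rfl | rfl | h
  · simp at h1
  · exact pow_one b
  · have h3 : b ^ 2 ≤ b ^ e := Nat.pow_le_pow_right (by omega) h
    have h4 : 2 * 2 ≤ b * b := Nat.mul_le_mul hb hb
    rw [pow_two] at h3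
    omega

theorem sum_case (k : ℕ) (hk0 : k ≠ 0) (hcard : 2 ≤ k.primeFactors.card) :
    2 * B (∑ p ∈ k.primeFactors, p ^ k.factorization p) ≤ B k := by
  have hprod : ∏ p ∈ k.primeFactors, p ^ k.factorization p = k :=
    Nat.prod_factorization_pow_eq_self hk0
  have hf2 : ∀ p ∈ k.primeFactors, 2 ≤ p ^ k.factorization p := by
    intro p hp
    have hpp := Nat.prime_of_mem_primeFactors hp
    have h3 : 0 < k.factorization p :=
      hpp.factorization_pos_of_dvd hk0 (Nat.dvd_of_mem_primeFactors hp)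
    calc 2 ≤ p := hpp.two_le
      _ = p ^ 1 := (pow_one p).symm
      _ ≤ p ^ k.factorization p := Nat.pow_le_pow_right hpp.pos h3
  by_cases hex : ∃ p ∈ k.primeFactors, 4 ≤ p ^ k.factorization p
  · obtain ⟨p, hp, hp4⟩ := hex
    have hne : (k.primeFactors.erase p).Nonempty := by
      rw [← Finset.card_pos, Finset.card_erase_of_mem hp]; omega
    have h1 := sum_add_two_le k.primeFactors (fun p => p ^ k.factorization p) hf2 p hp hp4 hne
    rw [hprod] at h1
    calc 2 * B (∑ p ∈ k.primeFactors, p ^ k.factorization p)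
        = B 2 * B (∑ p ∈ k.primeFactors, p ^ k.factorization p) := by rw [Bt_2]
      _ ≤ B (2 + ∑ p ∈ k.primeFactors, p ^ k.factorization p) := B_mul_le _ _
      _ ≤ B k := B_mono (by omega)
  · push_neg at hex
    have hsub : k.primeFactors ⊆ {2, 3} := by
      intro p hp
      have hpp := Nat.prime_of_mem_primeFactors hp
      have h1 := hex p hp
      have h3 : 0 < k.factorization p :=
        hpp.factorization_pos_of_dvd hk0 (Nat.dvd_of_mem_primeFactors hp)
      have h4 : p ^ 1 ≤ p ^ k.factorization p := Nat.pow_le_pow_right hpp.pos h3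
      rw [pow_one] at h4
      have h5 := hpp.two_le
      rw [Finset.mem_insert, Finset.mem_singleton]
      omega
    have hc2 : ({2, 3} : Finset ℕ).card = 2 := by decide
    have heq : k.primeFactors = {2, 3} :=
      Finset.eq_of_subset_of_card_le hsub (by rw [hc2]; exact hcard)
    have h2m : 2 ∈ k.primeFactors := by rw [heq]; simp
    have h3m : 3 ∈ k.primeFactors := by rw [heq]; simp
    have e2 : 2 ^ k.factorization 2 = 2 :=
      pow_small 2 _ (by norm_num) (hf2 2 h2m) (hex 2 h2m)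
    have e3 : 3 ^ k.factorization 3 = 3 :=
      pow_small 3 _ (by norm_num) (hf2 3 h3m) (hex 3 h3m)
    have hs : ∑ p ∈ k.primeFactors, p ^ k.factorization p = 5 := by
      rw [heq, Finset.sum_pair (show (2:ℕ) ≠ 3 by norm_num), e2, e3]
    have hk6 : k = 6 := by
      rw [heq, Finset.prod_pair (show (2:ℕ) ≠ 3 by norm_num), e2, e3] at hprod
      omega
    rw [hs, hk6, Bt_5, Bt_6]

theorem trans_even_num (m k : ℕ) (hm0 : m ≠ 0) (hk0 : k ≠ 0)
    (h : ∀ p : ℕ, p.Prime →
      m.factorization p ≤ ((p ^ k.factorization p).factorial).factorization p)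
    (heven : 2 ≤ k → 2 * m ∣ k.factorial) :
    2 * m ≤ B k ∨ (k = 1 ∧ m ≤ 1) ∨ (k = 3 ∧ m ≤ 3) ∨ (k = 5 ∧ m ≤ 5) ∨ (k = 9 ∧ m ≤ 81) := by
  obtain ⟨hsub, hle⟩ := num_bound_T m k hm0 hk0 h
  by_cases hk1 : k = 1
  · right; left
    refine ⟨hk1, ?_⟩
    subst hk1
    have h0 : m.primeFactors = ∅ := by
      rw [Nat.primeFactors_one] at hsub
      exact Finset.subset_empty.1 hsub
    rw [h0, Finset.prod_empty] at hle
    exact hle
  by_cases hk3 : k = 3
  · right; right; left
    refine ⟨hk3, ?_⟩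
    have hb := pp_bound m k 3 1 (by rw [hk3]; norm_num) Nat.prime_three (by norm_num) hm0 h
    have hU : padicValNat 3 (3 ^ 1).factorial = 1 := U_one 3
    rw [hU] at hb
    simpa using hb
  by_cases hk5 : k = 5
  · right; right; right; left
    refine ⟨hk5, ?_⟩
    have : Fact (Nat.Prime 5) := ⟨by norm_num⟩
    have hb := pp_bound m k 5 1 (by rw [hk5]; norm_num) (by norm_num) (by norm_num) hm0 h
    have hU : padicValNat 5 (5 ^ 1).factorial = 1 := U_one 5
    rw [hU] at hb
    simpa using hb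
  by_cases hk9 : k = 9
  · right; right; right; right
    refine ⟨hk9, ?_⟩
    have hb := pp_bound m k 3 2 (by rw [hk9]; norm_num) Nat.prime_three (by norm_num) hm0 h
    rw [U3_two] at hb
    simpa using hb
  left
  have hk2 : 2 ≤ k := by omega
  rcases Nat.lt_or_ge k.primeFactors.card 2 with hc | hc
  · have hc1 : k.primeFactors.card = 1 := by
      have hne : k.primeFactors.card ≠ 0 := by
        rw [Ne, Finset.card_eq_zero, Nat.primeFactors_eq_empty]
        omega
      omega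
    obtain ⟨p, hp⟩ := Finset.card_eq_one.1 hc1
    have hpm : p ∈ k.primeFactors := by rw [hp]; exact Finset.mem_singleton_self p
    have hpp := Nat.prime_of_mem_primeFactors hpm
    have : Fact p.Prime := ⟨hpp⟩
    have hkp : p ^ k.factorization p = k := by
      have h1 : ∏ q ∈ k.primeFactors, q ^ k.factorization q = k :=
        Nat.prod_factorization_pow_eq_self hk0
      rw [hp, Finset.prod_singleton] at h1
      exact h1
    have hapos : 0 < k.factorization p :=
      hpp.factorization_pos_of_dvd hk0 (Nat.dvd_of_mem_primeFactors hpm)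
    have hm_le : m ≤ p ^ padicValNat p (p ^ k.factorization p).factorial :=
      pp_bound m k p (k.factorization p) hkp.symm hpp hapos.ne' hm0 h
    by_cases hp2 : p = 2
    · subst hp2
      have hm2 : m = 2 ^ m.factorization 2 := by
        have h1 : ∏ q ∈ m.primeFactors, q ^ m.factorization q = m :=
          Nat.prod_factorization_pow_eq_self hm0
        rw [hp] at hsub
        rcases Finset.subset_singleton_iff.1 hsub with h0 | h1'
        · rw [h0, Finset.prod_empty] at h1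
          rw [← h1]; simp
        · rw [h1', Finset.prod_singleton] at h1
          exact h1.symm
      have hd := heven hk2
      rw [hm2, ← pow_succ'] at hd
      have hV : m.factorization 2 + 1 ≤ V k := by
        unfold V
        exact (padicValNat_dvd_iff_le (Nat.factorial_ne_zero _)).1 hd
      calc 2 * m = 2 ^ (m.factorization 2 + 1) := by rw [pow_succ', ← hm2]
        _ ≤ 2 ^ V k := Nat.pow_le_pow_right (by norm_num) hV
        _ ≤ B k := pow_V_le_B k
    · have hs := pp_save p (k.factorization p) hp2 (by rw [hkp]; exact hk1)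
        (by rw [hkp]; exact hk3) (by rw [hkp]; exact hk5) (by rw [hkp]; exact hk9)
      rw [hkp] at hs hm_le
      exact le_trans (Nat.mul_le_mul_left 2 hm_le) hs
  · have hsum := sum_case k hk0 hc
    have hmB : m ≤ B (∑ p ∈ k.primeFactors, p ^ k.factorization p) := by
      calc m ≤ ∏ p ∈ m.primeFactors, p ^ padicValNat p (p ^ k.factorization p).factorial := hle
        _ ≤ ∏ p ∈ m.primeFactors, B (p ^ k.factorization p) :=
            Finset.prod_le_prod (fun _ _ => Nat.zero_le _) (fun p hp => by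
              have : Fact p.Prime := ⟨Nat.prime_of_mem_primeFactors hp⟩
              exact syl_le_B p _)
        _ ≤ B (∑ p ∈ m.primeFactors, p ^ k.factorization p) :=
            prod_B_le _ (fun p => p ^ k.factorization p)
        _ ≤ B (∑ p ∈ k.primeFactors, p ^ k.factorization p) :=
            B_mono (Finset.sum_le_sum_of_subset hsub)
    omega

end Cfsg.Agent.Helper28.NilNum
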