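import Mathlib
import Cfsg.Agent.Helper28.NilGrp
import Cfsg.Agent.Helper28.NilNum2

namespace Cfsg.Agent.Helper28.NilAlt

/-- Sign character, stated with `Finite` only. -/
noncomputable def sgn {β : Type} [Finite β] : Equiv.Perm β →* ℤˣ :=
  @Equiv.Perm.sign β (Classical.decEq β) (Fintype.ofFinite β)

theorem sgn_eq_sign {β : Type} [Fintype β] [DecidableEq β] (g : Equiv.Perm β) :
    sgn g = Equiv.Perm.sign g := by
  unfold sgn
  have h1 : Classical.decEq β = ‹DecidableEq β› := Subsingleton.elim _ _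
  have h2 : Fintype.ofFinite β = ‹Fintype β› := Subsingleton.elim _ _
  rw [h1, h2]

theorem sgn_split {β : Type} [Finite β] (p : β → Prop)
    (g : Equiv.Perm β) (g₁ : Equiv.Perm {a // p a}) (g₂ : Equiv.Perm {a // ¬ p a})
    (h₁ : ∀ a : {a // p a}, (g₁ a : β) = g a) (h₂ : ∀ a : {a // ¬ p a}, (g₂ a : β) = g a) :
    sgn g = sgn g₁ * sgn g₂ := by
  classical
  have : Fintype β := Fintype.ofFinite β
  have e : g = Equiv.Perm.subtypeCongr g₁ g₂ := by
    ext y
    by_cases hy : p y
    · rw [Equiv.Perm.subtypeCongr.left_apply _ _ hy]; exact (h₁ ⟨y, hy⟩).symm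
    · rw [Equiv.Perm.subtypeCongr.right_apply _ _ hy]; exact (h₂ ⟨y, hy⟩).symm
  rw [sgn_eq_sign g, e, Equiv.Perm.sign_subtypeCongr,
    ← @sgn_eq_sign _ _ _ g₁, ← @sgn_eq_sign _ _ _ g₂]

theorem half_card {A : Type} [Group A] [Finite A] (s : A →* ℤˣ) (a : A) (ha : s a ≠ 1)
    {S : Type} [Finite S] (ι : S → A) (hι : Function.Injective ι) (h1 : ∀ x, s (ι x) = 1) :
    2 * Nat.card S ≤ Nat.card A := by
  have hinj : Function.Injective (Sum.elim ι (fun x => ι x * a)) := by
    rintro (x | x) (y | y) hxy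
    · have h' : ι x = ι y := hxy
      rw [hι h']
    · exfalso
      have h' : ι x = ι y * a := hxy
      have h2 := congrArg s h'
      rw [map_mul, h1, h1, one_mul] at h2
      exact ha h2.symm
    · exfalso
      have h' : ι x * a = ι y := hxy
      have h2 := congrArg s h'
      rw [map_mul, h1, h1, one_mul] at h2
      exact ha h2
    · have h' : ι x * a = ι y * a := hxy
      rw [hι (mul_right_cancel h')]
  have h3 := Nat.card_le_card_of_injective _ hinj
  rw [Nat.card_sum] at h3
  omega

theorem trans_even {β : Type} [Finite β] (G : Subgroup (Equiv.Perm β))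
    (hG : Group.IsNilpotent G) (x : β) (htr : ∀ y : β, ∃ g : G, g • x = y)
    (hev : ∀ g ∈ G, sgn g = 1) (n : ℕ) (hkn : Nat.card β ≤ n) :
    Nat.card G * NilNum.D (n - Nat.card β) ≤ NilNum.D n := by
  classical
  have : Fintype β := Fintype.ofFinite β
  have : Nonempty β := ⟨x⟩
  have hm0 : Nat.card G ≠ 0 := Nat.card_pos.ne'
  have hk0 : Nat.card β ≠ 0 := Nat.card_pos.ne'
  have hyp : ∀ p : ℕ, p.Prime → (Nat.card G).factorization p
      ≤ ((p ^ (Nat.card β).factorization p).factorial).factorization p := by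
    intro p hp
    have : Fact p.Prime := ⟨hp⟩
    exact NilGrp.sylow_bound hG x htr p
  have heven : 2 ≤ Nat.card β → 2 * Nat.card G ∣ (Nat.card β).factorial := by
    intro h2
    have : Nontrivial β := Finite.one_lt_card_iff_nontrivial.1 (by omega)
    have hle : G ≤ alternatingGroup β := by
      intro g hg
      rw [Equiv.Perm.mem_alternatingGroup, ← sgn_eq_sign]
      exact hev g hg
    have h1 : Nat.card G ∣ Nat.card (alternatingGroup β) := Subgroup.card_dvd_of_le hle
    have h3 : 2 * Nat.card (alternatingGroup β) = Nat.card (Equiv.Perm β) :=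
      two_mul_nat_card_alternatingGroup
    rw [← Nat.card_perm, ← h3]
    exact Nat.mul_dvd_mul_left 2 h1
  rcases NilNum.trans_even_num _ _ hm0 hk0 hyp heven with
    h | ⟨hk, hm⟩ | ⟨hk, hm⟩ | ⟨hk, hm⟩ | ⟨hk, hm⟩
  · exact NilNum.save _ _ n h hkn
  · rw [hk] at hkn ⊢
    exact le_trans (Nat.mul_le_mul_right _ hm) (NilNum.req 1 1 n (Or.inl ⟨rfl, rfl⟩) hkn)
  · rw [hk] at hkn ⊢
    exact le_trans (Nat.mul_le_mul_right _ hm)
      (NilNum.req 3 3 n (Or.inr (Or.inl ⟨rfl, rfl⟩)) hkn)
  · rw [hk] at hkn ⊢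
    exact le_trans (Nat.mul_le_mul_right _ hm)
      (NilNum.req 5 5 n (Or.inr (Or.inr (Or.inl ⟨rfl, rfl⟩))) hkn)
  · rw [hk] at hkn ⊢
    exact le_trans (Nat.mul_le_mul_right _ hm)
      (NilNum.req 9 81 n (Or.inr (Or.inr (Or.inr ⟨rfl, rfl⟩))) hkn)

theorem mainA : ∀ (n : ℕ) (β : Type) [Finite β] (M : Subgroup (Equiv.Perm β)),
    Nat.card β = n → Group.IsNilpotent M → (∀ g ∈ M, sgn g = 1) →
    2 * Nat.card M ≤ NilNum.D n := by
  intro n
  induction n using Nat.strong_induction_on with
  | _ n ih =>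
    intro β hfin M hcard hM hev
    have := hfin
    have := hM
    classical
    rcases isEmpty_or_nonempty β with hβ | ⟨⟨x⟩⟩
    · have h1 : Nat.card M ≤ Nat.card (Equiv.Perm β) := Subgroup.card_le_card_group M
      have hb0 : Nat.card β = 0 := Nat.card_of_isEmpty
      rw [Nat.card_perm, hb0, Nat.factorial_zero] at h1
      have hn0 : n = 0 := by omega
      have hD : NilNum.D n = 2 := by rw [hn0]; simp [NilNum.D]
      omega
    · let φ₁ : M →* Equiv.Perm ↥(MulAction.orbit M x) :=
        MulAction.toPermHom M ↥(MulAction.orbit M x)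
      let φ₂ : M →* Equiv.Perm ↥(NilGrp.compl M x) :=
        MulAction.toPermHom M ↥(NilGrp.compl M x)
      have hM1 : Group.IsNilpotent φ₁.range :=
        Group.nilpotent_of_surjective φ₁.rangeRestrict φ₁.rangeRestrict_surjective
      have hM2 : Group.IsNilpotent φ₂.range :=
        Group.nilpotent_of_surjective φ₂.rangeRestrict φ₂.rangeRestrict_surjective
      have hinj : Function.Injective
          (fun g : M => (φ₁.rangeRestrict g, φ₂.rangeRestrict g)) := by
        intro g g' hgg
        have e1 : φ₁ g = φ₁ g' := congrArg Subtype.val (congrArg Prod.fst hgg)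
        have e2 : φ₂ g = φ₂ g' := congrArg Subtype.val (congrArg Prod.snd hgg)
        apply Subtype.ext
        apply Equiv.ext
        intro y
        by_cases hy : y ∈ MulAction.orbit M x
        · have h := congrArg (fun σ : Equiv.Perm ↥(MulAction.orbit M x) =>
            ((σ ⟨y, hy⟩ : ↥(MulAction.orbit M x)) : β)) e1
          exact h
        · have h := congrArg (fun σ : Equiv.Perm ↥(NilGrp.compl M x) =>
            ((σ ⟨y, hy⟩ : ↥(NilGrp.compl M x)) : β)) e2
          exact h
      have hle : Nat.card M ≤ Nat.card φ₁.range * Nat.card φ₂.range := by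
        rw [← Nat.card_prod]
        exact Nat.card_le_card_of_injective _ hinj
      have htr : ∀ y : ↥(MulAction.orbit M x), ∃ g : ↥φ₁.range,
          g • (⟨x, MulAction.mem_orbit_self x⟩ : ↥(MulAction.orbit M x)) = y := by
        rintro ⟨y, ⟨m, rfl⟩⟩
        exact ⟨⟨φ₁ m, ⟨m, rfl⟩⟩, Subtype.ext rfl⟩
      have hb1 : Nat.card φ₁.range ≤ NilNum.B (Nat.card ↥(MulAction.orbit M x)) :=
        NilGrp.trans_bound hM1 ⟨x, MulAction.mem_orbit_self x⟩ htr
      have hsum : Nat.card ↥(MulAction.orbit M x) + Nat.card ↥(NilGrp.compl M x)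
          = Nat.card β := by
        have e : ↥(MulAction.orbit M x) ⊕ ↥(NilGrp.compl M x) ≃ β :=
          Equiv.Set.sumCompl (MulAction.orbit M x)
        rw [← Nat.card_congr e, Nat.card_sum]
      have hpos : 0 < Nat.card ↥(MulAction.orbit M x) := by
        have : Nonempty ↥(MulAction.orbit M x) := ⟨⟨x, MulAction.mem_orbit_self x⟩⟩
        exact Nat.card_pos
      have hlt : Nat.card ↥(NilGrp.compl M x) < n := by omega
      have hsplit : ∀ g : M, sgn (φ₁ g) * sgn (φ₂ g) = 1 := fun g =>
        (sgn_split (fun a => a ∈ MulAction.orbit M x) (g : Equiv.Perm β) (φ₁ g) (φ₂ g)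
          (fun a => rfl) (fun a => rfl)).symm.trans (hev g g.2)
      by_cases hA : (∀ a ∈ φ₁.range, sgn a = 1) ∧ (∀ b ∈ φ₂.range, sgn b = 1)
      · have hb2 : 2 * Nat.card φ₂.range ≤ NilNum.D (Nat.card ↥(NilGrp.compl M x)) :=
          ih (Nat.card ↥(NilGrp.compl M x)) hlt ↥(NilGrp.compl M x) φ₂.range rfl hM2 hA.2
        have hte := trans_even φ₁.range hM1 ⟨x, MulAction.mem_orbit_self x⟩ htr hA.1 n
          (by omega)
        have e : n - Nat.card ↥(MulAction.orbit M x) = Nat.card ↥(NilGrp.compl M x) := by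
          omega
        rw [e] at hte
        calc 2 * Nat.card M ≤ 2 * (Nat.card φ₁.range * Nat.card φ₂.range) :=
              Nat.mul_le_mul_left 2 hle
          _ = Nat.card φ₁.range * (2 * Nat.card φ₂.range) := by ring
          _ ≤ Nat.card φ₁.range * NilNum.D (Nat.card ↥(NilGrp.compl M x)) :=
              Nat.mul_le_mul_left _ hb2
          _ ≤ NilNum.D n := hte
      · have hex : ∃ a : ↥φ₁.range × ↥φ₂.range,
            ((sgn.comp φ₁.range.subtype).coprod (sgn.comp φ₂.range.subtype)) a ≠ 1 := by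
          by_contra hcon
          push Not at hcon
          apply hA
          constructor
          · intro a ha
            have h := hcon (⟨a, ha⟩, 1)
            simpa [MonoidHom.coprod_apply] using h
          · intro b hb
            have h := hcon (1, ⟨b, hb⟩)
            simpa [MonoidHom.coprod_apply] using h
        obtain ⟨a, ha⟩ := hex
        have hhalf := half_card
          ((sgn.comp φ₁.range.subtype).coprod (sgn.comp φ₂.range.subtype)) a ha
          (fun g : M => (φ₁.rangeRestrict g, φ₂.rangeRestrict g)) hinj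
          (fun g => by
            rw [MonoidHom.coprod_apply]
            exact hsplit g)
        rw [Nat.card_prod] at hhalf
        have hb2 : Nat.card φ₂.range ≤ NilNum.B (Nat.card ↥(NilGrp.compl M x)) :=
          NilGrp.main (Nat.card ↥(NilGrp.compl M x)) ↥(NilGrp.compl M x) φ₂.range rfl hM2
        calc 2 * Nat.card M ≤ Nat.card φ₁.range * Nat.card φ₂.range := hhalf
          _ ≤ NilNum.B (Nat.card ↥(MulAction.orbit M x))
              * NilNum.B (Nat.card ↥(NilGrp.compl M x)) := Nat.mul_le_mul hb1 hb2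
          _ ≤ NilNum.B (Nat.card ↥(MulAction.orbit M x) + Nat.card ↥(NilGrp.compl M x)) :=
              NilNum.B_mul_le _ _
          _ = NilNum.B n := by rw [hsum, hcard]
          _ ≤ NilNum.D n := NilNum.B_le_D n

end Cfsg.Agent.Helper28.NilAlt
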