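import Mathlib

/-!
An abelian `p`-group of rank `k` acting faithfully on `n` points has order at most `(n/k)^k`.
-/

namespace Cfsg.Agent.Helper28.AbPerm

open Finset

lemma exists_weights {ι : Type*} (T : Finset ι) (e : ι → ℕ) (he : ∀ i ∈ T, 1 ≤ e i) :
    ∀ k : ℕ, T.card ≤ k → k ≤ ∑ i ∈ T, e i →
      ∃ w : ι → ℕ, (∀ i ∈ T, 1 ≤ w i ∧ w i ≤ e i) ∧ ∑ i ∈ T, w i = k := by
  classical
  induction T using Finset.induction_on with
  | empty =>
    intro k _ hk
    simp at hk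
    exact ⟨fun _ => 0, by simp, by simp [hk]⟩
  | insert a T ha ih =>
    intro k hk1 hk2
    rw [Finset.card_insert_of_notMem ha] at hk1
    rw [Finset.sum_insert ha] at hk2
    have hea : 1 ≤ e a := he a (Finset.mem_insert_self a T)
    have heT : ∀ i ∈ T, 1 ≤ e i := fun i hi => he i (Finset.mem_insert_of_mem hi)
    have hcs : T.card ≤ ∑ i ∈ T, e i := by
      calc T.card = ∑ i ∈ T, 1 := by simp
        _ ≤ ∑ i ∈ T, e i := Finset.sum_le_sum heT
    have hm1 : min (e a) (k - T.card) ≤ e a := Nat.min_le_left _ _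
    have hm2 : min (e a) (k - T.card) ≤ k - T.card := Nat.min_le_right _ _
    have hm3 : min (e a) (k - T.card) = e a ∨ min (e a) (k - T.card) = k - T.card := by
      rcases Nat.le_total (e a) (k - T.card) with h | h
      · left; exact Nat.min_eq_left h
      · right; exact Nat.min_eq_right h
    have hm4 : 1 ≤ min (e a) (k - T.card) := by
      rcases hm3 with h | h <;> rw [h] <;> omega
    obtain ⟨w', hw', hs'⟩ := ih heT (k - min (e a) (k - T.card)) (by omega)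
      (by rcases hm3 with h | h <;> rw [h] <;> omega)
    refine ⟨Function.update w' a (min (e a) (k - T.card)), ?_, ?_⟩
    · intro i hi
      rcases Finset.mem_insert.1 hi with rfl | hi
      · simp only [Function.update_self]; exact ⟨hm4, hm1⟩
      · have hia : i ≠ a := fun h => ha (h ▸ hi)
        simp only [Function.update_of_ne hia]; exact hw' i hi
    · rw [Finset.sum_insert ha, Function.update_self]
      have h0 : ∑ i ∈ T, Function.update w' a (min (e a) (k - T.card)) i = ∑ i ∈ T, w' i := by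
        apply Finset.sum_congr rfl
        intro i hi
        have hia : i ≠ a := fun h => ha (h ▸ hi)
        simp only [Function.update_of_ne hia]
      rw [h0, hs']; omega

lemma pow_weight (p e w : ℕ) (hp : 2 ≤ p) (hw1 : 1 ≤ w) (hwe : w ≤ e) :
    p ^ e * w ^ w ≤ (p ^ e) ^ w := by
  obtain ⟨v, rfl⟩ : ∃ v, w = v + 1 := ⟨w - 1, by omega⟩
  have h1 : v + 1 ≤ p ^ v := by
    calc v + 1 ≤ 2 ^ v := Nat.lt_two_pow_self
      _ ≤ p ^ v := Nat.pow_le_pow_left hp _
  have h2 : (v + 1) ^ (v + 1) ≤ p ^ (e * v) := by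
    calc (v + 1) ^ (v + 1) ≤ (p ^ v) ^ (v + 1) := Nat.pow_le_pow_left h1 _
      _ = p ^ ((v + 1) * v) := by rw [← pow_mul, mul_comm]
      _ ≤ p ^ (e * v) := Nat.pow_le_pow_right (by omega) (Nat.mul_le_mul_right _ hwe)
  calc p ^ e * (v + 1) ^ (v + 1) ≤ p ^ e * p ^ (e * v) := Nat.mul_le_mul_left _ h2
    _ = (p ^ e) ^ (v + 1) := by rw [← pow_add, ← pow_mul]; congr 1; ring

lemma amgm_nat {ι : Type*} (T : Finset ι) (s w : ι → ℕ) (hw : ∀ i ∈ T, 1 ≤ w i)
    (hT : T.Nonempty) :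
    (∏ i ∈ T, s i ^ w i) * (∑ i ∈ T, w i) ^ (∑ i ∈ T, w i) ≤
      (∑ i ∈ T, s i) ^ (∑ i ∈ T, w i) * ∏ i ∈ T, w i ^ w i := by
  have hkpos : 0 < ∑ i ∈ T, w i := by
    obtain ⟨i, hi⟩ := hT
    calc 0 < w i := hw i hi
      _ ≤ ∑ i ∈ T, w i := Finset.single_le_sum (fun j _ => Nat.zero_le (w j)) hi
  have hkpos' : (0 : ℝ) < ∑ i ∈ T, (w i : ℝ) := by exact_mod_cast hkpos
  have key := Real.geom_mean_le_arith_mean T (fun i => (w i : ℝ))
    (fun i => (s i : ℝ) / (w i : ℝ)) (fun i _ => Nat.cast_nonneg _) hkpos'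
    (fun i _ => by positivity)
  beta_reduce at key
  have h1 : ∑ i ∈ T, (w i : ℝ) * ((s i : ℝ) / (w i : ℝ)) = ∑ i ∈ T, (s i : ℝ) := by
    apply Finset.sum_congr rfl
    intro i hi
    have hne : (w i : ℝ) ≠ 0 := by
      have := hw i hi
      positivity
    field_simp
  have h2 : ∑ i ∈ T, (w i : ℝ) = ((∑ i ∈ T, w i : ℕ) : ℝ) := by push_cast; rfl
  have h3 : ∏ i ∈ T, ((s i : ℝ) / (w i : ℝ)) ^ (w i : ℝ) =
      (∏ i ∈ T, (s i : ℝ) ^ w i) / ∏ i ∈ T, (w i : ℝ) ^ w i := by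
    rw [← Finset.prod_div_distrib]
    apply Finset.prod_congr rfl
    intro i _
    rw [Real.rpow_natCast, div_pow]
  rw [h1, h2, h3] at key
  have hW : (0 : ℝ) < ∏ i ∈ T, (w i : ℝ) ^ w i :=
    Finset.prod_pos fun i hi => pow_pos (Nat.cast_pos.2 (hw i hi)) _
  have hPW : 0 ≤ (∏ i ∈ T, (s i : ℝ) ^ w i) / ∏ i ∈ T, (w i : ℝ) ^ w i := by positivity
  have key2 := pow_le_pow_left₀ (Real.rpow_nonneg hPW _) key (∑ i ∈ T, w i)
  rw [Real.rpow_inv_natCast_pow hPW hkpos.ne'] at key2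
  have hkk : (0 : ℝ) < ((∑ i ∈ T, w i : ℕ) : ℝ) ^ (∑ i ∈ T, w i) :=
    pow_pos (Nat.cast_pos.2 hkpos) _
  rw [div_pow, div_le_div_iff₀ hW hkk] at key2
  exact_mod_cast key2

lemma numeric {ι : Type*} (T : Finset ι) (e : ι → ℕ) (p k : ℕ) (hp : 2 ≤ p)
    (he : ∀ i ∈ T, 1 ≤ e i) (h1 : T.card ≤ k) (h2 : k ≤ ∑ i ∈ T, e i) :
    (∏ i ∈ T, p ^ e i) * k ^ k ≤ (∑ i ∈ T, p ^ e i) ^ k := by
  rcases Nat.eq_zero_or_pos k with rfl | hk
  · have h0 : T = ∅ := Finset.card_eq_zero.1 (by omega)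
    subst h0; simp
  have hT : T.Nonempty := by
    rw [Finset.nonempty_iff_ne_empty]
    rintro rfl
    simp at h2; omega
  obtain ⟨w, hw, hws⟩ := exists_weights T e he k h1 h2
  have hA := amgm_nat T (fun i => p ^ e i) w (fun i hi => (hw i hi).1) hT
  beta_reduce at hA
  rw [hws] at hA
  have hB : (∏ i ∈ T, p ^ e i) * ∏ i ∈ T, w i ^ w i ≤ ∏ i ∈ T, (p ^ e i) ^ w i := by
    rw [← Finset.prod_mul_distrib]
    exact Finset.prod_le_prod (fun i _ => Nat.zero_le _)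
      (fun i hi => pow_weight p (e i) (w i) hp (hw i hi).1 (hw i hi).2)
  have hW : 0 < ∏ i ∈ T, w i ^ w i := Finset.prod_pos fun i hi => pow_pos (hw i hi).1 _
  have h3 : (∏ i ∈ T, p ^ e i) * k ^ k * ∏ i ∈ T, w i ^ w i ≤
      (∑ i ∈ T, p ^ e i) ^ k * ∏ i ∈ T, w i ^ w i := by
    calc (∏ i ∈ T, p ^ e i) * k ^ k * ∏ i ∈ T, w i ^ w i
        = ((∏ i ∈ T, p ^ e i) * ∏ i ∈ T, w i ^ w i) * k ^ k := by ring
      _ ≤ (∏ i ∈ T, (p ^ e i) ^ w i) * k ^ k := Nat.mul_le_mul_right _ hB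
      _ ≤ _ := hA
  exact Nat.le_of_mul_le_mul_right h3 hW

lemma perm_pow_inj {Ω : Type*} (σ : Equiv.Perm Ω) {p : ℕ} (hp : p.Prime) (hσ : σ ^ p = 1)
    {i j : ℕ} (hi : i < p) (hj : j < p) (hij : i ≠ j) (ω : Ω) (h : (σ ^ i) ω = (σ ^ j) ω) :
    σ ω = ω := by
  wlog hlt : i < j generalizing i j
  · exact this hj hi (Ne.symm hij) h.symm (by omega)
  have h1 : (σ ^ (j - i)) ω = ω := by
    have h0 : σ ^ j = σ ^ i * σ ^ (j - i) := by rw [← pow_add]; congr 1; omega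
    rw [h0, Equiv.Perm.mul_apply] at h
    exact ((σ ^ i).injective h).symm
  have hcop : Nat.Coprime (j - i) p := by
    rw [Nat.coprime_comm, Nat.Prime.coprime_iff_not_dvd hp]
    intro hd
    have := Nat.le_of_dvd (by omega) hd
    omega
  obtain ⟨m, -, hm⟩ := Nat.exists_mul_mod_eq_one_of_coprime hcop hp.one_lt
  have h2 : (σ ^ (j - i)) ^ m = σ := by
    rw [← pow_mul, pow_eq_pow_mod ((j - i) * m) hσ, hm, pow_one]
  rw [← h2]
  exact Equiv.Perm.pow_apply_eq_self_of_apply_eq_self h1 m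

lemma prod_fix {Ω M ι : Type*} [CommMonoid M] (φ : M →* Equiv.Perm Ω) (f : ι → M) (s : Finset ι)
    (ω : Ω) (h : ∀ i ∈ s, φ (f i) ω = ω) : φ (∏ i ∈ s, f i) ω = ω := by
  classical
  induction s using Finset.induction_on with
  | empty => simp
  | insert a s ha ih =>
    rw [Finset.prod_insert ha, map_mul, Equiv.Perm.mul_apply,
      ih (fun i hi => h i (Finset.mem_insert_of_mem hi)), h a (Finset.mem_insert_self a s)]

theorem main {Ω : Type*} [Fintype Ω] [DecidableEq Ω] {M : Type*} [CommGroup M] (p : ℕ)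
    (hp : p.Prime) (hM : IsPGroup p M) (φ : M →* Equiv.Perm Ω) (hφ : Function.Injective φ)
    (k : ℕ) (hk : Nat.card {x : M // x ^ p = 1} = p ^ k) :
    Nat.card M * k ^ k ≤ Fintype.card Ω ^ k := by
  classical
  have : Fact p.Prime := ⟨hp⟩
  have : Finite M := Finite.of_injective φ hφ
  have hkM : p ^ k ≤ Nat.card M := by
    rw [← hk]
    exact Nat.card_le_card_of_injective (fun x : {x : M // x ^ p = 1} => x.1) Subtype.val_injective
  have hex : ∃ T : Finset Ω, ∀ a : M, (∀ ω ∈ T, φ a ω = ω) → a = 1 :=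
    ⟨Finset.univ, fun a ha => hφ (by
      rw [map_one]; exact Equiv.ext fun ω => ha ω (Finset.mem_univ ω))⟩
  obtain ⟨T, hT, hTmin⟩ : ∃ T : Finset Ω, (∀ a : M, (∀ ω ∈ T, φ a ω = ω) → a = 1) ∧
      ∀ T' : Finset Ω, (∀ a : M, (∀ ω ∈ T', φ a ω = ω) → a = 1) → T.card ≤ T'.card := by
    obtain ⟨T, hTm, hTmin⟩ := Finset.exists_min_image
      (Finset.univ.filter fun T : Finset Ω => ∀ a : M, (∀ ω ∈ T, φ a ω = ω) → a = 1)
      Finset.card (by obtain ⟨T, hT⟩ := hex; exact ⟨T, by simpa using hT⟩)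
    exact ⟨T, by simpa using hTm, fun T' hT' => hTmin T' (by simpa using hT')⟩
  have hpowfix : ∀ (a : M) (m : ℕ) (ω' : Ω), φ a ω' = ω' → φ (a ^ m) ω' = ω' := by
    intro a m ω' h
    rw [map_pow]
    exact Equiv.Perm.pow_apply_eq_self_of_apply_eq_self h m
  have hx : ∀ ω ∈ T, ∃ x : M, x ^ p = 1 ∧ (∀ ω' ∈ T, ω' ≠ ω → φ x ω' = ω') ∧ φ x ω ≠ ω := by
    intro ω hω
    have hlt : (T.erase ω).card < T.card := Finset.card_erase_lt_of_mem hω
    have hnot : ¬ ∀ a : M, (∀ ω' ∈ T.erase ω, φ a ω' = ω') → a = 1 := fun h =>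
      absurd (hTmin _ h) (by omega)
    push Not at hnot
    obtain ⟨a, ha, ha1⟩ := hnot
    obtain ⟨j, hj⟩ := (exists_orderOf_eq_prime_pow_iff (p := p)).2 (hM a)
    have hj0 : j ≠ 0 := by
      rintro rfl
      rw [pow_zero, orderOf_eq_one_iff] at hj
      exact ha1 hj
    obtain ⟨i, rfl⟩ : ∃ i, j = i + 1 := ⟨j - 1, by omega⟩
    have hfixes : ∀ ω' ∈ T, ω' ≠ ω → φ (a ^ p ^ i) ω' = ω' := fun ω' hω' hne =>
      hpowfix a _ ω' (ha ω' (Finset.mem_erase.2 ⟨hne, hω'⟩))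
    refine ⟨a ^ (p ^ i), ?_, hfixes, ?_⟩
    · rw [← pow_mul, ← pow_succ, ← hj, pow_orderOf_eq_one]
    · intro hfix
      have h2 : a ^ (p ^ i) = 1 := hT _ (by
        intro ω' hω'
        by_cases hne : ω' = ω
        · rw [hne]; exact hfix
        · exact hfixes ω' hω' hne)
      have h3 := orderOf_dvd_of_pow_eq_one h2
      rw [hj] at h3
      have h4 := Nat.le_of_dvd (pow_pos hp.pos i) h3
      have h5 : p ^ i < p ^ (i + 1) := Nat.pow_lt_pow_right hp.one_lt (Nat.lt_succ_self i)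
      omega
  choose! x hx1 hx2 hx3 using hx
  -- the number of chosen points is at most the rank
  have hTk : T.card ≤ k := by
    have hmem : ∀ c : T → Fin p, (∏ ω : T, x ω.1 ^ (c ω : ℕ)) ^ p = 1 := by
      intro c
      rw [← Finset.prod_pow]
      apply Finset.prod_eq_one
      intro ω _
      rw [← pow_mul, mul_comm, pow_mul, hx1 ω.1 ω.2, one_pow]
    have hinj : Function.Injective (fun c : T → Fin p =>
        (⟨∏ ω : T, x ω.1 ^ (c ω : ℕ), hmem c⟩ : {x : M // x ^ p = 1})) := by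
      intro c c' hcc
      have hcc' : ∏ ω : T, x ω.1 ^ (c ω : ℕ) = ∏ ω : T, x ω.1 ^ (c' ω : ℕ) :=
        congrArg Subtype.val hcc
      funext ω₀
      have hev : ∀ d : T → Fin p, φ (∏ ω : T, x ω.1 ^ (d ω : ℕ)) ω₀.1 =
          (φ (x ω₀.1) ^ (d ω₀ : ℕ)) ω₀.1 := by
        intro d
        rw [← Finset.mul_prod_erase Finset.univ (fun ω : T => x ω.1 ^ (d ω : ℕ))
          (Finset.mem_univ ω₀), map_mul, Equiv.Perm.mul_apply, prod_fix φ _ _ ω₀.1, map_pow]
        intro ω hω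
        have hne : ω₀.1 ≠ ω.1 := fun h => (Finset.mem_erase.1 hω).1 (Subtype.ext h.symm)
        exact hpowfix _ _ _ (hx2 ω.1 ω.2 ω₀.1 ω₀.2 hne)
      have h1 := hev c
      rw [hcc', hev c'] at h1
      by_contra hne
      exact hx3 ω₀.1 ω₀.2 (perm_pow_inj (φ (x ω₀.1)) hp
        (by rw [← map_pow, hx1 ω₀.1 ω₀.2, map_one]) (c' ω₀).2 (c ω₀).2
        (fun h => hne (Fin.ext h.symm)) ω₀.1 h1)
    have h0 := Nat.card_le_card_of_injective _ hinj
    rw [Nat.card_fun, hk, Nat.card_eq_fintype_card, Nat.card_eq_fintype_card, Fintype.card_fin,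
      Fintype.card_coe] at h0
    exact (Nat.pow_le_pow_iff_right hp.one_lt).1 h0
  -- the action
  let _ : MulAction M Ω := MulAction.compHom Ω φ
  have hsm : ∀ (a : M) (ω : Ω), a • ω = φ a ω := fun a ω => rfl
  have horb : ∀ ω : Ω, ∃ e : ℕ, Nat.card (MulAction.orbit M ω) = p ^ e := fun ω => hM.card_orbit ω
  choose e he using horb
  -- distinct chosen points lie in distinct orbits
  have hdist : ∀ ω ∈ T, ∀ ω' ∈ T, ω ≠ ω' → ∀ a : M, φ a ω ≠ ω' := by
    intro ω hω ω' hω' hne a hEq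
    have h1 := hx2 ω hω ω' hω' (Ne.symm hne)
    rw [← hEq] at h1
    have h2 : φ (x ω * a) ω = φ a ω := by rw [map_mul, Equiv.Perm.mul_apply]; exact h1
    rw [mul_comm, map_mul, Equiv.Perm.mul_apply] at h2
    exact hx3 ω hω ((φ a).injective h2)
  have heT : ∀ ω ∈ T, 1 ≤ e ω := by
    intro ω hω
    by_contra h0
    have h1 : e ω = 0 := by omega
    have h2 := he ω
    rw [h1, pow_zero] at h2
    have hss : Subsingleton (MulAction.orbit M ω) :=
      Finite.card_le_one_iff_subsingleton.1 (le_of_eq h2)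
    have h3 : (⟨x ω • ω, MulAction.mem_orbit ω (x ω)⟩ : MulAction.orbit M ω) =
        ⟨ω, MulAction.mem_orbit_self ω⟩ := Subsingleton.elim _ _
    exact hx3 ω hω (congrArg Subtype.val h3)
  -- |M| ≤ product of the orbit sizes
  have hMle : Nat.card M ≤ ∏ ω ∈ T, p ^ e ω := by
    have hinj : Function.Injective (fun a : M => fun ω : T =>
        (⟨a • ω.1, MulAction.mem_orbit ω.1 a⟩ : MulAction.orbit M ω.1)) := by
      intro a b hab
      have h1 : ∀ ω ∈ T, φ a ω = φ b ω := fun ω hω =>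
        congrArg Subtype.val (congrFun hab ⟨ω, hω⟩)
      have h2 : b⁻¹ * a = 1 := hT _ (by
        intro ω hω
        rw [map_mul, Equiv.Perm.mul_apply, h1 ω hω, ← Equiv.Perm.mul_apply, ← map_mul,
          inv_mul_cancel, map_one]
        rfl)
      exact (inv_mul_eq_one.1 h2).symm
    have h0 := Nat.card_le_card_of_injective _ hinj
    rw [Nat.card_pi] at h0
    have h1 : ∏ ω : T, Nat.card (MulAction.orbit M ω.1) = ∏ ω ∈ T, p ^ e ω := by
      rw [← Finset.prod_coe_sort T (fun ω => p ^ e ω)]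
      exact Finset.prod_congr rfl fun ω _ => he ω.1
    rw [h1] at h0
    exact h0
  have hkE : k ≤ ∑ ω ∈ T, e ω := by
    have h0 := hkM.trans hMle
    rw [Finset.prod_pow_eq_pow_sum] at h0
    exact (Nat.pow_le_pow_iff_right hp.one_lt).1 h0
  -- the orbits are disjoint, so their sizes add up to at most `n`
  have hsum : ∑ ω ∈ T, p ^ e ω ≤ Fintype.card Ω := by
    have hc : ∀ ω : Ω, (Finset.univ.filter (fun y => y ∈ MulAction.orbit M ω)).card = p ^ e ω := by
      intro ω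
      rw [← he ω, Nat.card_eq_fintype_card, Fintype.card_subtype]
    have hdisj : ∀ ω ∈ T, ∀ ω' ∈ T, ω ≠ ω' →
        Disjoint (Finset.univ.filter (fun y => y ∈ MulAction.orbit M ω))
          (Finset.univ.filter (fun y => y ∈ MulAction.orbit M ω')) := by
      intro ω hω ω' hω' hne
      rw [Finset.disjoint_left]
      intro y hy hy'
      simp only [Finset.mem_filter, Finset.mem_univ, true_and, MulAction.mem_orbit_iff] at hy hy'
      obtain ⟨a, ha⟩ := hy
      obtain ⟨b, hb⟩ := hy'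
      apply hdist ω hω ω' hω' hne (b⁻¹ * a)
      rw [map_mul, Equiv.Perm.mul_apply, ← hsm a ω, ha, ← hb, hsm b ω', ← Equiv.Perm.mul_apply,
        ← map_mul, inv_mul_cancel, map_one]
      rfl
    have h0 := Finset.card_biUnion hdisj
    calc ∑ ω ∈ T, p ^ e ω = ∑ ω ∈ T, (Finset.univ.filter (fun y => y ∈ MulAction.orbit M ω)).card :=
          Finset.sum_congr rfl fun ω _ => (hc ω).symm
      _ = (T.biUnion fun ω => Finset.univ.filter (fun y => y ∈ MulAction.orbit M ω)).card := h0.symm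
      _ ≤ Fintype.card Ω := Finset.card_le_univ _
  have hfin := numeric T e p k hp.two_le heT hTk hkE
  calc Nat.card M * k ^ k ≤ (∏ ω ∈ T, p ^ e ω) * k ^ k := Nat.mul_le_mul_right _ hMle
    _ ≤ (∑ ω ∈ T, p ^ e ω) ^ k := hfin
    _ ≤ Fintype.card Ω ^ k := Nat.pow_le_pow_left hsum k

end Cfsg.Agent.Helper28.AbPerm
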