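import Mathlib

set_option autoImplicit false

namespace Cfsg.Agent.Helper28
namespace SL52

open Matrix

/-! ### The centraliser of a transvection in the special linear group of degree 5 over the
field of order 2 -/

/-- the transvection -/
def sT : Matrix.SpecialLinearGroup (Fin 5) (ZMod 2) :=
  ⟨Matrix.transvection 0 1 1, Matrix.det_transvection_of_ne 0 1 (by decide) 1⟩

/-- the last three indices -/
def emb : Fin 3 → Fin 5 := ![2, 3, 4]

theorem zmod2_ne : ∀ x : ZMod 2, x ≠ 0 → x = 1 := by decide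

/-- the shape of the elements of the centraliser -/
theorem cent_shape (A : Matrix.SpecialLinearGroup (Fin 5) (ZMod 2))
    (hA : A ∈ Subgroup.centralizer ({sT} : Set (Matrix.SpecialLinearGroup (Fin 5) (ZMod 2)))) :
    (∀ j : Fin 5, j ≠ 1 → A.1 1 j = 0) ∧ (∀ i : Fin 5, i ≠ 0 → A.1 i 0 = 0) ∧
      A.1 0 0 = 1 ∧ A.1 1 1 = 1 := by
  have h := Subgroup.mem_centralizer_iff.1 hA sT rfl
  have h1 : (Matrix.transvection 0 1 1 : Matrix (Fin 5) (Fin 5) (ZMod 2)) * A.1 =
      A.1 * Matrix.transvection 0 1 1 := congrArg Subtype.val h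
  rw [Matrix.transvection, add_mul, mul_add, one_mul, mul_one] at h1
  have h2 : (Matrix.single 0 1 1 : Matrix (Fin 5) (Fin 5) (ZMod 2)) * A.1 =
      A.1 * Matrix.single 0 1 1 := add_left_cancel h1
  have r1 : ∀ j : Fin 5, j ≠ 1 → A.1 1 j = 0 := by
    intro j hj
    have e := congrFun (congrFun h2 0) j
    rw [Matrix.single_mul_apply_same, Matrix.mul_single_apply_of_ne _ _ _ _ _ hj, one_mul] at e
    exact e
  have c0 : ∀ i : Fin 5, i ≠ 0 → A.1 i 0 = 0 := by
    intro i hi
    have e := congrFun (congrFun h2 i) 1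
    rw [Matrix.single_mul_apply_of_ne _ _ _ _ _ hi, Matrix.mul_single_apply_same, mul_one] at e
    exact e.symm
  have d : A.1 1 1 = A.1 0 0 := by
    have e := congrFun (congrFun h2 0) 1
    rw [Matrix.single_mul_apply_same, Matrix.mul_single_apply_same, one_mul, mul_one] at e
    exact e
  have a00 : A.1 0 0 = 1 := by
    apply zmod2_ne
    intro h0
    have hdet : A.1.det = 0 := by
      apply Matrix.det_eq_zero_of_column_eq_zero 0
      intro i
      by_cases hi : i = 0
      · rw [hi, h0]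
      · exact c0 i hi
    rw [A.2] at hdet
    exact absurd hdet (by decide)
  exact ⟨r1, c0, a00, by rw [d, a00]⟩

/-- the block of the last three rows and columns -/
def blk3 (A : Matrix (Fin 5) (Fin 5) (ZMod 2)) : Matrix (Fin 3) (Fin 3) (ZMod 2) :=
  Matrix.of fun i j => A (emb i) (emb j)

theorem emb_inj : ∀ i j : Fin 3, emb i = emb j ↔ i = j := by decide

theorem blk3_one : blk3 1 = 1 := by
  ext i j
  simp only [blk3, Matrix.of_apply, Matrix.one_apply, emb_inj]

theorem blk3_mul (A B : Matrix (Fin 5) (Fin 5) (ZMod 2)) (hA : ∀ i : Fin 5, i ≠ 0 → A i 0 = 0)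
    (hB : ∀ j : Fin 5, j ≠ 1 → B 1 j = 0) : blk3 (A * B) = blk3 A * blk3 B := by
  ext i j
  simp only [blk3, Matrix.of_apply, Matrix.mul_apply, Fin.sum_univ_five, Fin.sum_univ_three]
  have n1 : ∀ i : Fin 3, emb i ≠ 0 := by decide
  have n2 : ∀ j : Fin 3, emb j ≠ 1 := by decide
  have e1 : A (emb i) 0 = 0 := hA _ (n1 i)
  have e2 : B 1 (emb j) = 0 := hB _ (n2 j)
  have e3 : emb 0 = 2 := rfl
  have e4 : emb 1 = 3 := rfl
  have e5 : emb 2 = 4 := rfl
  rw [e1, e2, e3, e4, e5]
  ring

/-- the block as an invertible matrix -/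
noncomputable def blkU (A : ↥(Subgroup.centralizer ({sT} : Set (Matrix.SpecialLinearGroup (Fin 5)
    (ZMod 2))))) : GL (Fin 3) (ZMod 2) :=
  ⟨blk3 A.1.1, blk3 (A⁻¹).1.1, by
    rw [← blk3_mul _ _ (cent_shape A.1 A.2).2.1 (cent_shape (A⁻¹).1 (A⁻¹).2).1]
    have e : A.1.1 * (A⁻¹).1.1 = 1 := by
      have h : A * A⁻¹ = 1 := mul_inv_cancel A
      have h' : A.1 * (A⁻¹).1 = 1 := by rw [← Subgroup.coe_mul, h, Subgroup.coe_one]
      rw [← Matrix.SpecialLinearGroup.coe_mul, h', Matrix.SpecialLinearGroup.coe_one]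
    rw [e, blk3_one], by
    rw [← blk3_mul _ _ (cent_shape (A⁻¹).1 (A⁻¹).2).2.1 (cent_shape A.1 A.2).1]
    have e : (A⁻¹).1.1 * A.1.1 = 1 := by
      have h : A⁻¹ * A = 1 := inv_mul_cancel A
      have h' : (A⁻¹).1 * A.1 = 1 := by rw [← Subgroup.coe_mul, h, Subgroup.coe_one]
      rw [← Matrix.SpecialLinearGroup.coe_mul, h', Matrix.SpecialLinearGroup.coe_one]
    rw [e, blk3_one]⟩

/-- the data of an element of the centraliser -/
noncomputable def centData (A : ↥(Subgroup.centralizer ({sT} : Set (Matrix.SpecialLinearGroup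
    (Fin 5) (ZMod 2))))) : (Fin 4 → ZMod 2) × (Fin 3 → ZMod 2) × GL (Fin 3) (ZMod 2) :=
  (fun j => A.1.1 0 j.succ, fun i => A.1.1 (emb i) 1, blkU A)

theorem centData_inj : Function.Injective centData := by
  intro A B h
  apply Subtype.ext
  apply Subtype.ext
  obtain ⟨a1, a2, a3, a4⟩ := cent_shape A.1 A.2
  obtain ⟨b1, b2, b3, b4⟩ := cent_shape B.1 B.2
  have h1 : ∀ j : Fin 4, A.1.1 0 j.succ = B.1.1 0 j.succ := fun j =>
    congrFun (congrArg Prod.fst h) j
  have h2 : ∀ i : Fin 3, A.1.1 (emb i) 1 = B.1.1 (emb i) 1 := fun i =>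
    congrFun (congrArg (fun x => x.2.1) h) i
  have h3 : ∀ i j : Fin 3, A.1.1 (emb i) (emb j) = B.1.1 (emb i) (emb j) := fun i j =>
    congrFun (congrFun (congrArg (fun x => (x.2.2 : Matrix (Fin 3) (Fin 3) (ZMod 2))) h) i) j
  ext i j
  fin_cases i
  · fin_cases j
    · exact a3.trans b3.symm
    · exact h1 0
    · exact h1 1
    · exact h1 2
    · exact h1 3
  · by_cases hj : j = 1
    · rw [hj]
      exact a4.trans b4.symm
    · exact (a1 j hj).trans (b1 j hj).symm
  · fin_cases j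
    · exact (a2 2 (by decide)).trans (b2 2 (by decide)).symm
    · exact h2 0
    · exact h3 0 0
    · exact h3 0 1
    · exact h3 0 2
  · fin_cases j
    · exact (a2 3 (by decide)).trans (b2 3 (by decide)).symm
    · exact h2 1
    · exact h3 1 0
    · exact h3 1 1
    · exact h3 1 2
  · fin_cases j
    · exact (a2 4 (by decide)).trans (b2 4 (by decide)).symm
    · exact h2 2
    · exact h3 2 0
    · exact h3 2 1
    · exact h3 2 2

theorem card_gl32 : Nat.card (GL (Fin 3) (ZMod 2)) = 168 := by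
  have : Fact (Nat.Prime 2) := ⟨by norm_num⟩
  rw [Matrix.card_GL_field, Fin.prod_univ_three, ZMod.card]
  rfl

/-- the order of the centraliser is at most 21504 -/
theorem card_cent_le : Nat.card ↥(Subgroup.centralizer ({sT} : Set (Matrix.SpecialLinearGroup
    (Fin 5) (ZMod 2)))) ≤ 21504 := by
  have h := Nat.card_le_card_of_injective centData centData_inj
  rw [Nat.card_prod, Nat.card_prod, Nat.card_fun, Nat.card_fun, card_gl32, Nat.card_zmod,
    Nat.card_fin, Nat.card_fin] at h
  exact h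

end SL52
end Cfsg.Agent.Helper28
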