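import Mathlib
import Cfsg.Agent.Helper28.C2Ab
import Cfsg.Agent.Helper28.C2Ad

set_option autoImplicit false

namespace Cfsg.Agent.Helper28
namespace Golay

open Cfsg

/-! ### Facts on the list of the elements of the centraliser -/

theorem U1D_inj : ∀ t ∈ U1D, ∀ t' ∈ U1D, dg t 23 = dg t' 23 → t = t' := by decide +kernel

theorem U1D_pw : U1D.Pairwise fun t t' => dg t 23 ≠ dg t' 23 := by decide +kernel

theorem part_spec {t : Nat} (ht : t ∈ U1D) :
    (partZ t).length = cntZ t ∧ (∀ n ∈ partZ t, dg n 23 = dg t 23 ∧ leafOK n = true) ∧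
      ((partZ t).map keyN).Nodup := by
  obtain ⟨h1, h2, h3⟩ := chk_sound _ _ _ _ (parts_ok t ht)
  exact ⟨h1, fun n hn => ⟨(h2 n hn).1, (h2 n hn).2.1⟩, h3⟩

theorem CZN_leaf {n : Nat} (hn : n ∈ CZN) : leafOK n = true := by
  rw [CZN_eq, List.mem_flatMap] at hn
  obtain ⟨t, ht, hn⟩ := hn
  exact ((part_spec ht).2.1 n hn).2

theorem CZN_key_inj {n n' : Nat} (hn : n ∈ CZN) (hn' : n' ∈ CZN) (h1 : dg n 23 = dg n' 23)
    (h2 : keyN n = keyN n') : n = n' := by
  rw [CZN_eq, List.mem_flatMap] at hn hn'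
  obtain ⟨t, ht, hn⟩ := hn
  obtain ⟨t', ht', hn'⟩ := hn'
  have e : t = t' := U1D_inj t ht t' ht' (by
    rw [← ((part_spec ht).2.1 n hn).1, ← ((part_spec ht').2.1 n' hn').1, h1])
  subst e
  exact List.inj_on_of_nodup_map (part_spec ht).2.2 hn hn' h2

theorem CZN_nodup : CZN.Nodup := by
  rw [CZN_eq, List.nodup_flatMap]
  refine ⟨fun t ht => (part_spec ht).2.2.of_map, ?_⟩
  refine List.Pairwise.imp_of_mem ?_ U1D_pw
  intro t t' ht ht' hne n hn hn'
  exact hne (by rw [← ((part_spec ht).2.1 n hn).1, ← ((part_spec ht').2.1 n hn').1])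

theorem cnt_sum : (U1D.map cntZ).sum = 21504 := by decide +kernel

theorem CZN_length : CZN.length = 21504 := by
  have h : CZN.length = (U1D.map cntZ).sum := by
    refine (congrArg List.length CZN_eq).trans (List.length_flatMap.trans ?_)
    exact congrArg List.sum (List.map_congr_left fun t ht => (part_spec ht).1)
  exact h.trans cnt_sum

theorem CZ_mem {T : List Nat} (hT : T ∈ CZ) : ∃ n ∈ CZN, decD n = T := by
  rw [CZ, List.mem_map] at hT
  exact hT

theorem dig_lt {n : Nat} (hn : n ∈ CZN) {i : Nat} (hi : i < 24) : dg n i < 24 := by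
  have h := (CZ_mem0 (List.mem_map_of_mem hn : decD n ∈ CZ)).1
  have h2 := tf_lt h hi
  rwa [tf_decD n hi] at h2

theorem zN_dig : ∀ i < 24, dg zN i < 24 := by decide +kernel

theorem CZN_comm {n : Nat} (hn : n ∈ CZN) : comp (decD n) zT = comp zT (decD n) := by
  have h := CZN_leaf hn
  rw [leafOK, Bool.and_eq_true, nbeq_iff] at h
  have e := congrArg decD h.1
  rw [decD_compD n zN zN_dig, decD_compD zN n (fun i hi => dig_lt hn hi), zN_eq] at e
  exact e

theorem CZN_aff {n : Nat} (hn : n ∈ CZN) {p : Nat} (hp : p ∈ pts16) :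
    (vN (dg n p)).testBit 1 = true ∧
      vN (dg n p) = mulV (colN n 0) (colN n 1) (colN n 2) (colN n 3) (colN n 4) (vN p) := by
  have h := CZN_leaf hn
  rw [leafOK, Bool.and_eq_true, affOK] at h
  have h2 := List.all_eq_true.1 h.2 p hp
  rw [Bool.and_eq_true, nbeq_iff] at h2
  exact h2

/-! ### The matrices of the elements -/

/-- a truth value as an element of the field of order 2 -/
def bz (b : Bool) : ZMod 2 := bif b then 1 else 0

theorem bz_xor (a b : Bool) : bz (a ^^ b) = bz a + bz b := by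
  cases a <;> cases b <;> decide

theorem bz_and (a b : Bool) : bz (a && b) = bz a * bz b := by
  cases a <;> cases b <;> decide

theorem testBit_cond (c : Bool) (x i : Nat) :
    (bif c then x else 0).testBit i = (c && x.testBit i) := by
  cases c <;> simp

/-- the vector with given coordinates -/
def vz (v : Nat) : Fin 5 → ZMod 2 := fun i => bz (v.testBit i.val)

/-- the matrix of a packed element -/
def matN (n : Nat) : Matrix (Fin 5) (Fin 5) (ZMod 2) :=
  Matrix.of fun i j => bz ((colN n j.val).testBit i.val)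

theorem matN_mulVec (n v : Nat) : (matN n).mulVec (vz v) =
    vz (mulV (colN n 0) (colN n 1) (colN n 2) (colN n 3) (colN n 4) v) := by
  funext i
  have e0 : ((0 : Fin 5) : ℕ) = 0 := rfl
  have e1 : ((1 : Fin 5) : ℕ) = 1 := rfl
  have e2 : ((2 : Fin 5) : ℕ) = 2 := rfl
  have e3 : ((3 : Fin 5) : ℕ) = 3 := rfl
  have e4 : ((4 : Fin 5) : ℕ) = 4 := rfl
  simp only [Matrix.mulVec, dotProduct, Fin.sum_univ_five, matN, Matrix.of_apply, vz, mulV,
    Nat.testBit_xor, testBit_cond, bz_xor, bz_and, e0, e1, e2, e3, e4]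
  ring

theorem vz_inj : ∀ v < 32, ∀ v' < 32, vz v = vz v' → v = v' := by decide +kernel

theorem vN_lt (q : Nat) : vN q < 32 := Nat.mod_lt _ (by norm_num)

theorem vN_moved : ∀ q < 32, (vN q).testBit 1 = true → q ∈ pts16 := by decide +kernel

theorem pts16_lt : ∀ p ∈ pts16, p < 24 := by decide

theorem vN_inj : ∀ q ∈ pts16, ∀ q' ∈ pts16, vN q = vN q' → q = q' := by decide +kernel

theorem mat_pt {n : Nat} (hn : n ∈ CZN) {p : Nat} (hp : p ∈ pts16) :
    (matN n).mulVec (vz (vN p)) = vz (vN (dg n p)) ∧ dg n p ∈ pts16 := by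
  obtain ⟨h1, h2⟩ := CZN_aff hn hp
  exact ⟨by rw [matN_mulVec, ← h2], vN_moved _ (Nat.mod_lt _ (by norm_num)) h1⟩

theorem v23 : vz (vN 23) = ![0, 1, 0, 0, 0] := by decide +kernel

theorem v0 : vz (vN 0) = ![1, 1, 0, 0, 0] := by decide +kernel

theorem v1 : vz (vN 1) = ![0, 1, 1, 0, 0] := by decide +kernel

theorem v2 : vz (vN 2) = ![0, 1, 0, 1, 0] := by decide +kernel

theorem v5 : vz (vN 5) = ![0, 1, 0, 0, 1] := by decide +kernel

/-- two matrices agreeing on the vectors of five points are equal -/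
theorem mat_ext (M M' : Matrix (Fin 5) (Fin 5) (ZMod 2))
    (h : ∀ p ∈ [23, 0, 1, 2, 5], M.mulVec (vz (vN p)) = M'.mulVec (vz (vN p))) : M = M' := by
  have h23 := h 23 (by simp)
  have h0 := h 0 (by simp)
  have h1 := h 1 (by simp)
  have h2 := h 2 (by simp)
  have h5 := h 5 (by simp)
  rw [v23] at h23
  rw [v0] at h0
  rw [v1] at h1
  rw [v2] at h2
  rw [v5] at h5
  ext i j
  have a := congrFun h23 i
  have b := congrFun h0 i
  have c := congrFun h1 i
  have d := congrFun h2 i
  have e := congrFun h5 i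
  simp [Matrix.mulVec, dotProduct, Fin.sum_univ_five] at a b c d e
  fin_cases j
  · show M i 0 = M' i 0
    linear_combination b - a
  · exact a
  · show M i 2 = M' i 2
    linear_combination c - a
  · show M i 3 = M' i 3
    linear_combination d - a
  · show M i 4 = M' i 4
    linear_combination e - a

/-! ### The isomorphism -/

/-- the involution as an element of the group -/
noncomputable def zM : ↥M24 := ⟨permOf zT, permOf_mem_M24 in_zT⟩

theorem mem_cent_zM (c : ↥M24) : c ∈ Subgroup.centralizer ({zM} : Set ↥M24) ↔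
    (c : Equiv.Perm GolayPt) * permOf zT = permOf zT * (c : Equiv.Perm GolayPt) := by
  rw [Subgroup.mem_centralizer_iff]
  constructor
  · intro h
    exact (congrArg Subtype.val (h zM rfl)).symm
  · intro h x hx
    rw [Set.mem_singleton_iff] at hx
    subst hx
    exact Subtype.ext h.symm

theorem exists_nOf (c : ↥(Subgroup.centralizer ({zM} : Set ↥M24))) : ∃ n ∈ CZN,
    isPerm (decD n) = true ∧ ((c : ↥M24) : Equiv.Perm GolayPt) = permOf (decD n) := by
  obtain ⟨T, hT, hp, e⟩ := CZ_enum c.1.1 c.1.2 ((mem_cent_zM c.1).1 c.2)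
  obtain ⟨n, hn, rfl⟩ := CZ_mem hT
  exact ⟨n, hn, hp, e⟩

/-- the packed table of an element of the centraliser -/
noncomputable def nOf (c : ↥(Subgroup.centralizer ({zM} : Set ↥M24))) : Nat :=
  Classical.choose (exists_nOf c)

theorem nOf_mem (c : ↥(Subgroup.centralizer ({zM} : Set ↥M24))) : nOf c ∈ CZN :=
  (Classical.choose_spec (exists_nOf c)).1

theorem nOf_perm (c : ↥(Subgroup.centralizer ({zM} : Set ↥M24))) :
    isPerm (decD (nOf c)) = true := (Classical.choose_spec (exists_nOf c)).2.1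

theorem nOf_eq (c : ↥(Subgroup.centralizer ({zM} : Set ↥M24))) :
    ((c : ↥M24) : Equiv.Perm GolayPt) = permOf (decD (nOf c)) :=
  (Classical.choose_spec (exists_nOf c)).2.2

theorem dg_nOf (c : ↥(Subgroup.centralizer ({zM} : Set ↥M24))) {i : Nat} (hi : i < 24) :
    dg (nOf c) i = idx (((c : ↥M24) : Equiv.Perm GolayPt) (pt i)) := by
  rw [nOf_eq c, permOf_pt (nOf_perm c) hi, idx_pt _ (tf_lt (nOf_perm c) hi), tf_decD _ hi]

/-- the matrix of an element of the centraliser -/
noncomputable def matC (c : ↥(Subgroup.centralizer ({zM} : Set ↥M24))) :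
    Matrix (Fin 5) (Fin 5) (ZMod 2) := matN (nOf c)

theorem matC_pt (c : ↥(Subgroup.centralizer ({zM} : Set ↥M24))) {p : Nat} (hp : p ∈ pts16) :
    (matC c).mulVec (vz (vN p)) = vz (vN (idx (((c : ↥M24) : Equiv.Perm GolayPt) (pt p)))) ∧
      idx (((c : ↥M24) : Equiv.Perm GolayPt) (pt p)) ∈ pts16 := by
  have h := mat_pt (nOf_mem c) hp
  rw [dg_nOf c (pts16_lt p hp)] at h
  exact h

theorem frame_sub : ∀ p ∈ [23, 0, 1, 2, 5], p ∈ pts16 := by decide

theorem matC_mul (c c' : ↥(Subgroup.centralizer ({zM} : Set ↥M24))) :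
    matC (c * c') = matC c * matC c' := by
  apply mat_ext
  intro p hp
  have hp16 := frame_sub p hp
  obtain ⟨h1, h2⟩ := matC_pt c' hp16
  rw [(matC_pt (c * c') hp16).1, ← Matrix.mulVec_mulVec, h1, (matC_pt c h2).1, pt_idx]
  rfl

theorem matC_one : matC 1 = 1 := by
  apply mat_ext
  intro p hp
  have hp16 := frame_sub p hp
  rw [(matC_pt 1 hp16).1, Matrix.one_mulVec]
  show vz (vN (idx (pt p))) = vz (vN p)
  rw [idx_pt p (pts16_lt p hp16)]

theorem zm2 : ∀ a b : ZMod 2, a * b = 1 → a = 1 := by decide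

theorem det_matC (c : ↥(Subgroup.centralizer ({zM} : Set ↥M24))) : (matC c).det = 1 := by
  have h : matC c * matC c⁻¹ = 1 := by rw [← matC_mul, mul_inv_cancel, matC_one]
  have h2 := congrArg Matrix.det h
  rw [Matrix.det_mul, Matrix.det_one] at h2
  exact zm2 _ _ h2

/-- the homomorphism to the special linear group -/
noncomputable def slHom : ↥(Subgroup.centralizer ({zM} : Set ↥M24)) →*
    Matrix.SpecialLinearGroup (Fin 5) (ZMod 2) :=
  MonoidHom.mk' (fun c => ⟨matC c, det_matC c⟩) fun a b => Subtype.ext (matC_mul a b)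

/-- the involution as an element of its centraliser -/
noncomputable def zC : ↥(Subgroup.centralizer ({zM} : Set ↥M24)) :=
  ⟨zM, (mem_cent_zM zM).2 rfl⟩

theorem tv_frame : ∀ p ∈ [23, 0, 1, 2, 5],
    (Matrix.transvection 0 1 1 : Matrix (Fin 5) (Fin 5) (ZMod 2)).mulVec (vz (vN p)) =
      vz (vN (tf zT p)) := by decide +kernel

theorem matC_zC : matC zC = Matrix.transvection 0 1 1 := by
  apply mat_ext
  intro p hp
  have hp16 := frame_sub p hp
  rw [(matC_pt zC hp16).1, tv_frame p hp]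
  show vz (vN (idx (permOf zT (pt p)))) = _
  rw [permOf_pt zT_perm (pts16_lt p hp16), idx_pt _ (tf_lt zT_perm (pts16_lt p hp16))]

theorem slHom_zC : slHom zC = SL52.sT := Subtype.ext matC_zC

theorem slHom_mem (c : ↥(Subgroup.centralizer ({zM} : Set ↥M24))) :
    slHom c ∈ Subgroup.centralizer ({SL52.sT} : Set (Matrix.SpecialLinearGroup (Fin 5)
      (ZMod 2))) := by
  rw [Subgroup.mem_centralizer_iff]
  intro h hh
  rw [Set.mem_singleton_iff] at hh
  subst hh
  rw [← slHom_zC, ← map_mul, ← map_mul]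
  congr 1
  apply Subtype.ext
  exact Subgroup.mem_centralizer_iff.1 c.2 zM rfl

/-- the homomorphism between the centralisers -/
noncomputable def centHom : ↥(Subgroup.centralizer ({zM} : Set ↥M24)) →*
    ↥(Subgroup.centralizer ({SL52.sT} : Set (Matrix.SpecialLinearGroup (Fin 5) (ZMod 2)))) :=
  slHom.codRestrict _ slHom_mem

theorem centHom_inj : Function.Injective centHom := by
  intro c c' h
  have hm : matC c = matC c' :=
    congrArg (fun x : ↥(Subgroup.centralizer ({SL52.sT} : Set (Matrix.SpecialLinearGroup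
      (Fin 5) (ZMod 2)))) => x.1.1) h
  have key : ∀ p ∈ [23, 0, 1, 2, 5], vN (dg (nOf c) p) = vN (dg (nOf c') p) := by
    intro p hp
    have hp16 := frame_sub p hp
    have h1 := (mat_pt (nOf_mem c) hp16).1
    have h2 := (mat_pt (nOf_mem c') hp16).1
    rw [show matN (nOf c) = matC c from rfl, hm] at h1
    exact vz_inj _ (vN_lt _) _ (vN_lt _) (h1.symm.trans h2)
  have e23 : dg (nOf c) 23 = dg (nOf c') 23 :=
    vN_inj _ (mat_pt (nOf_mem c) (frame_sub 23 (by simp))).2 _
      (mat_pt (nOf_mem c') (frame_sub 23 (by simp))).2 (key 23 (by simp))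
  have ek : keyN (nOf c) = keyN (nOf c') := by
    rw [keyN, keyN, key 1 (by simp), key 2 (by simp), key 5 (by simp)]
  have en := CZN_key_inj (nOf_mem c) (nOf_mem c') e23 ek
  apply Subtype.ext
  apply Subtype.ext
  rw [nOf_eq c, nOf_eq c', en]

theorem card_cent_zM : Nat.card ↥(Subgroup.centralizer ({zM} : Set ↥M24)) = 21504 := by
  have hnd : CZ.Nodup := by
    rw [CZ]
    refine List.Nodup.map_on ?_ CZN_nodup
    intro n hn n' hn' e
    have d : ∀ i < 24, dg n i = dg n' i := fun i hi => by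
      rw [← tf_decD n hi, ← tf_decD n' hi, e]
    exact CZN_key_inj hn hn' (d 23 (by norm_num)) (by
      rw [keyN, keyN, d 1 (by norm_num), d 2 (by norm_num), d 5 (by norm_num)])
  have hinj : ∀ T ∈ CZ, ∀ T' ∈ CZ, permOf T = permOf T' → T = T' := fun T hT T' hT' e =>
    permOf_inj_norm (CZ_mem0 hT).1 (CZ_mem0 hT').1 (CZ_mem0 hT).2.2 (CZ_mem0 hT').2.2 e
  rw [card_sub_list2 M24 (Subgroup.centralizer ({zM} : Set ↥M24)) CZ (fun _ => true) hnd hinj,
    List.filter_true, CZ, List.length_map, CZN_length]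
  · intro x hx
    obtain ⟨T, hT, -, e⟩ := CZ_enum x.1 x.2 ((mem_cent_zM x).1 hx)
    exact ⟨T, hT, rfl, e⟩
  · intro T hT _
    obtain ⟨n, hn, rfl⟩ := CZ_mem hT
    obtain ⟨hp, hM, -⟩ := CZ_mem0 hT
    refine ⟨hM, (mem_cent_zM _).2 ?_⟩
    show permOf (decD n) * permOf zT = permOf zT * permOf (decD n)
    exact mul_of_comp_eq hp zT_perm zT_perm hp (CZN_comm hn)

theorem zM_order : orderOf zM = 2 := by
  have : Fact (Nat.Prime 2) := ⟨Nat.prime_two⟩
  refine orderOf_eq_prime ?_ ?_
  · apply Subtype.ext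
    show permOf zT ^ 2 = 1
    rw [pow_two, permOf_mul zT_perm zT_perm, zT_sq, permOf_idT]
  · intro h
    have h1 : permOf zT (pt 23) = pt 23 :=
      congrArg (fun x : ↥M24 => (x : Equiv.Perm GolayPt) (pt 23)) h
    rw [permOf_pt zT_perm (by norm_num)] at h1
    have h2 := congrArg idx h1
    rw [idx_pt _ (tf_lt zT_perm (by norm_num)), idx_pt 23 (by norm_num)] at h2
    exact absurd h2 (by decide)

/-- the centraliser of the involution is the centraliser of the transvection -/
theorem cent_iso : Nonempty (↥(Subgroup.centralizer ({zM} : Set ↥M24)) ≃*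
    ↥(Subgroup.centralizer ({SL52.sT} : Set (Matrix.SpecialLinearGroup (Fin 5) (ZMod 2))))) := by
  have hb : Function.Bijective centHom := centHom_inj.bijective_of_nat_card_le (by
    rw [card_cent_zM]
    exact SL52.card_cent_le)
  exact ⟨MulEquiv.ofBijective centHom hb⟩

end Golay
end Cfsg.Agent.Helper28
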