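import Mathlib

/-!
Extraspecial-type groups of automorphisms acting on an abelian group with a fixed-point-free
central element: class-2 commutator calculus, norm operators, and the reduction step.
-/

namespace Cfsg.Agent.Helper28.ExtA

open Finset

section C2
variable {M : Type*} [Group M]

/-- `g x = z^a x g` -/
def Rel (z g x : M) (a : ℕ) : Prop := g * x = z ^ a * (x * g)

lemma rel_mul_left {z g h x : M} {a c : ℕ} (hzg : Commute z g) (h1 : Rel z g x a) (h2 : Rel z h x c) :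
    Rel z (g * h) x (a + c) := by
  unfold Rel at *
  have hc : Commute (z ^ c) g := hzg.pow_left c
  calc g * h * x = g * (h * x) := mul_assoc _ _ _
    _ = g * (z ^ c * (x * h)) := by rw [h2]
    _ = (g * z ^ c) * (x * h) := (mul_assoc _ _ _).symm
    _ = (z ^ c * g) * (x * h) := by rw [hc.eq]
    _ = z ^ c * ((g * x) * h) := by simp only [mul_assoc]
    _ = z ^ c * ((z ^ a * (x * g)) * h) := by rw [h1]
    _ = z ^ (a + c) * (x * (g * h)) := by rw [add_comm a c, pow_add]; simp only [mul_assoc]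

lemma rel_pow_left {z g x : M} {a : ℕ} (hzg : Commute z g) (h1 : Rel z g x a) (m : ℕ) :
    Rel z (g ^ m) x (a * m) := by
  induction m with
  | zero => simp [Rel]
  | succ m ih =>
    rw [pow_succ, Nat.mul_succ]
    exact rel_mul_left (hzg.pow_right m) ih h1

lemma rel_mul_right {z g x y : M} {a c : ℕ} (hzx : Commute z x) (h1 : Rel z g x a) (h2 : Rel z g y c) :
    Rel z g (x * y) (a + c) := by
  unfold Rel at *
  have hc : Commute (z ^ c) x := hzx.pow_left c
  calc g * (x * y) = (g * x) * y := (mul_assoc _ _ _).symm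
    _ = (z ^ a * (x * g)) * y := by rw [h1]
    _ = z ^ a * (x * (g * y)) := by simp only [mul_assoc]
    _ = z ^ a * (x * (z ^ c * (y * g))) := by rw [h2]
    _ = z ^ a * ((x * z ^ c) * (y * g)) := by simp only [mul_assoc]
    _ = z ^ a * ((z ^ c * x) * (y * g)) := by rw [hc.eq]
    _ = z ^ (a + c) * (x * y * g) := by rw [pow_add]; simp only [mul_assoc]

lemma rel_pow_right {z g x : M} {a : ℕ} (hzx : Commute z x) (h1 : Rel z g x a) (m : ℕ) :
    Rel z g (x ^ m) (a * m) := by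
  induction m with
  | zero => simp [Rel]
  | succ m ih =>
    rw [pow_succ, Nat.mul_succ]
    exact rel_mul_right (hzx.pow_right m) ih h1

lemma arith1 (p a : ℕ) (hp : 0 < p) : a + (0 + (p - 1) * a) = p * a := by
  obtain ⟨q, rfl⟩ : ∃ q, p = q + 1 := ⟨p - 1, by omega⟩
  rw [Nat.add_sub_cancel]; ring

lemma arith2 (p b : ℕ) (hp : 0 < p) : b + (1 * ((p - 1) * b) + 0) = p * b := by
  obtain ⟨q, rfl⟩ : ∃ q, p = q + 1 := ⟨p - 1, by omega⟩
  rw [Nat.add_sub_cancel]; ring

lemma rel_swap {z g x : M} {a p : ℕ} (hp : 0 < p) (hz : z ^ p = 1) (h1 : Rel z g x a) :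
    Rel z x g ((p - 1) * a) := by
  unfold Rel at *
  rw [h1, ← mul_assoc, ← pow_add]
  have : (p - 1) * a + a = p * a := by have := arith1 p a hp; omega
  rw [this, pow_mul, hz, one_pow, one_mul]

lemma rel_comm {z g x : M} {a p : ℕ} (hz : z ^ p = 1) (hpa : p ∣ a) (h1 : Rel z g x a) :
    g * x = x * g := by
  unfold Rel at h1
  obtain ⟨j, rfl⟩ := hpa
  rwa [pow_mul, hz, one_pow, one_mul] at h1

lemma rel_mod {z g x : M} {a p : ℕ} (hz : z ^ p = 1) (h1 : Rel z g x a) : Rel z g x (a % p) := by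
  unfold Rel at *
  rw [← pow_eq_pow_mod a hz]; exact h1

lemma mul_pow_rel {z u v : M} {k : ℕ} (hzu : Commute z u) (hzv : Commute z v) (h : Rel z v u k)
    (m : ℕ) : (u * v) ^ m = z ^ (k * ∑ i ∈ range m, i) * (u ^ m * v ^ m) := by
  induction m with
  | zero => simp
  | succ m ih =>
    have h2 : v ^ m * u = z ^ (k * m) * (u * v ^ m) := rel_pow_left hzv h m
    have hc : Commute (z ^ (k * m)) (u ^ m) := (hzu.pow_left _).pow_right _
    calc (u * v) ^ (m + 1) = (u * v) ^ m * (u * v) := pow_succ _ _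
      _ = z ^ (k * ∑ i ∈ range m, i) * (u ^ m * v ^ m) * (u * v) := by rw [ih]
      _ = z ^ (k * ∑ i ∈ range m, i) * (u ^ m * ((v ^ m * u) * v)) := by simp only [mul_assoc]
      _ = z ^ (k * ∑ i ∈ range m, i) * (u ^ m * ((z ^ (k * m) * (u * v ^ m)) * v)) := by rw [h2]
      _ = z ^ (k * ∑ i ∈ range m, i) * ((u ^ m * z ^ (k * m)) * (u * (v ^ m * v))) := by
        simp only [mul_assoc]
      _ = z ^ (k * ∑ i ∈ range m, i) * ((z ^ (k * m) * u ^ m) * (u * (v ^ m * v))) := by rw [hc.eq]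
      _ = z ^ (k * ∑ i ∈ range (m + 1), i) * (u ^ (m + 1) * v ^ (m + 1)) := by
        rw [Finset.sum_range_succ, mul_add, pow_add, pow_succ, pow_succ]; simp only [mul_assoc]

lemma card_le_of_cover (E E1 : Subgroup M) [Finite E1] {ι : Type*} [Finite ι] (c : ι → M)
    (h : ∀ g ∈ E, ∃ i, g * c i ∈ E1) : Nat.card E ≤ Nat.card ι * Nat.card E1 := by
  choose f hf using fun g : E => h g.1 g.2
  have hinj : Function.Injective (fun g : E => ((f g, ⟨g.1 * c (f g), hf g⟩) : ι × E1)) := by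
    intro g g' hgg
    simp only [Prod.mk.injEq, Subtype.mk.injEq] at hgg
    obtain ⟨h1, h2⟩ := hgg
    rw [h1] at h2
    exact Subtype.ext (mul_right_cancel h2)
  have := Nat.card_le_card_of_injective _ hinj
  rwa [Nat.card_prod] at this

end C2

section Nrm
variable {A : Type*} [CommGroup A]

/-- norm operator of an automorphism (product over the first `p` powers) -/
noncomputable def nrm (p : ℕ) (u : MulAut A) (a : A) : A := ∏ k ∈ range p, (u ^ k) a

lemma nrm_mul (p : ℕ) (u : MulAut A) (a b : A) : nrm p u (a * b) = nrm p u a * nrm p u b := by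
  simp [nrm, Finset.prod_mul_distrib]

lemma nrm_one (p : ℕ) (u : MulAut A) : nrm p u 1 = 1 := by simp [nrm]

lemma nrm_prod {ι : Type*} (p : ℕ) (u : MulAut A) (s : Finset ι) (f : ι → A) :
    nrm p u (∏ i ∈ s, f i) = ∏ i ∈ s, nrm p u (f i) := by
  classical
  induction s using Finset.induction_on with
  | empty => simp [nrm_one]
  | insert i s hi ih => rw [Finset.prod_insert hi, Finset.prod_insert hi, nrm_mul, ih]

lemma pow_fix (u : MulAut A) (a : A) (h : u a = a) (k : ℕ) : (u ^ k) a = a := by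
  induction k with
  | zero => simp
  | succ k ih => rw [pow_succ, MulAut.mul_apply, h, ih]

lemma nrm_fixed (p : ℕ) (u : MulAut A) (a : A) (h : u a = a) : nrm p u a = a ^ p := by
  simp [nrm, pow_fix u a h]

lemma nrm_shift (p : ℕ) (u : MulAut A) (hu : u ^ p = 1) (a : A) : u (nrm p u a) = nrm p u a := by
  unfold nrm
  rw [map_prod]
  have h1 : ∀ k, u ((u ^ k) a) = (u ^ (k + 1)) a := fun k => by
    rw [pow_succ', MulAut.mul_apply]
  simp only [h1]
  have h2 := Finset.prod_range_succ (fun k => (u ^ k) a) p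
  have h3 := Finset.prod_range_succ' (fun k => (u ^ k) a) p
  rw [h2] at h3
  simp only [hu, pow_zero, MulAut.one_apply] at h3
  exact (mul_right_cancel h3).symm

lemma nrm_comm (p : ℕ) (u v : MulAut A) (huv : Commute v u) (a : A) :
    v (nrm p u a) = nrm p u (v a) := by
  unfold nrm
  rw [map_prod]
  refine Finset.prod_congr rfl fun k _ => ?_
  have := (huv.pow_right k).eq
  calc v ((u ^ k) a) = (v * u ^ k) a := rfl
    _ = (u ^ k * v) a := by rw [this]
    _ = (u ^ k) (v a) := rfl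

lemma nrm_pow_coprime (p : ℕ) (hp : p.Prime) (z : MulAut A) (hz : z ^ p = 1) (c : ℕ)
    (hc : ¬ p ∣ c) (a : A) : nrm p (z ^ c) a = nrm p z a := by
  classical
  unfold nrm
  have h1 : ∀ k, ((z ^ c) ^ k) a = (z ^ ((c * k) % p)) a := fun k => by
    rw [← pow_mul, pow_eq_pow_mod (c * k) hz]
  simp only [h1]
  have hinj : Set.InjOn (fun k => (c * k) % p) (range p : Finset ℕ) := by
    intro i hi j hj hij
    simp only [coe_range, Set.mem_Iio] at hi hj
    have h2 : c * i ≡ c * j [MOD p] := hij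
    have hcop : Nat.gcd p c = 1 := (Nat.Prime.coprime_iff_not_dvd hp).2 hc
    exact Nat.ModEq.eq_of_lt_of_lt (Nat.ModEq.cancel_left_of_coprime hcop h2) hi hj
  have himg : (range p).image (fun k => (c * k) % p) = range p := by
    apply Finset.eq_of_subset_of_card_le
    · intro j hj
      simp only [mem_image, mem_range] at hj ⊢
      obtain ⟨k, _, rfl⟩ := hj
      exact Nat.mod_lt _ hp.pos
    · rw [Finset.card_image_of_injOn hinj]
  have := Finset.prod_image (s := range p) (g := fun k => (c * k) % p) (f := fun j => (z ^ j) a) hinj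
  rw [himg] at this
  exact this.symm

lemma nrm_mul_fixed (p : ℕ) (u v : MulAut A) (huv : Commute u v) (a : A) (h : u a = a) :
    nrm p (u * v) a = nrm p v a := by
  unfold nrm
  refine Finset.prod_congr rfl fun k _ => ?_
  rw [huv.eq, huv.symm.mul_pow, MulAut.mul_apply, pow_fix u a h]

lemma prod_nrm_eq (p : ℕ) (hp : p.Prime) (x z : MulAut A) (hxz : Commute x z) (hz : z ^ p = 1)
    (a : A) (ha : nrm p z a = 1) : ∏ i ∈ range p, nrm p (x * z ^ i) a = a ^ p := by
  have h1 : ∀ i k, ((x * z ^ i) ^ k) a = (x ^ k) (((z ^ k) ^ i) a) := fun i k => by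
    rw [(hxz.pow_right i).mul_pow, MulAut.mul_apply, ← pow_mul, ← pow_mul, mul_comm]
  unfold nrm
  simp only [h1]
  rw [Finset.prod_comm]
  simp only [← map_prod]
  rw [Finset.prod_eq_single_of_mem 0 (mem_range.2 hp.pos)]
  · simp
  · intro k hk hk0
    have h2 : ∏ i ∈ range p, ((z ^ k) ^ i) a = 1 := by
      have h3 := nrm_pow_coprime p hp z hz k
        (fun hd => hk0 (Nat.eq_zero_of_dvd_of_lt hd (mem_range.1 hk))) a
      unfold nrm at h3
      rw [h3]; exact ha
    rw [h2, map_one]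

lemma pow_mem_of_inv (B : Subgroup A) (u : MulAut A) (hu : ∀ b ∈ B, u b ∈ B) (k : ℕ) :
    ∀ b ∈ B, (u ^ k) b ∈ B := by
  induction k with
  | zero => intro b hb; simpa using hb
  | succ k ih => intro b hb; rw [pow_succ, MulAut.mul_apply]; exact ih _ (hu b hb)

lemma nrm_mem (p : ℕ) (B : Subgroup A) (u : MulAut A) (hu : ∀ b ∈ B, u b ∈ B) (b : A)
    (hb : b ∈ B) : nrm p u b ∈ B :=
  Subgroup.prod_mem B fun k _ => pow_mem_of_inv B u hu k b hb

lemma eq_one_of_pow {p r : ℕ} (hpr : Nat.Coprime p r) (a : A) (h1 : a ^ p = 1) (h2 : a ^ r = 1) :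
    a = 1 := by
  have h3 := Nat.dvd_gcd (orderOf_dvd_of_pow_eq_one h1) (orderOf_dvd_of_pow_eq_one h2)
  rw [Nat.Coprime.gcd_eq_one hpr] at h3
  exact orderOf_eq_one_iff.1 (Nat.dvd_one.1 h3)

lemma pow_inj_of_coprime {p r : ℕ} (hpr : Nat.Coprime p r) (hexp : ∀ a : A, a ^ r = 1) (a b : A)
    (h : a ^ p = b ^ p) : a = b := by
  have h1 : (a / b) ^ p = 1 := by rw [div_pow, h, div_self']
  exact div_eq_one.1 (eq_one_of_pow hpr _ h1 (hexp _))

/-- fixed points of an automorphism -/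
def fixS (u : MulAut A) : Subgroup A where
  carrier := {a | u a = a}
  mul_mem' := by
    intro a b ha hb
    simp only [Set.mem_ofPred_eq] at *
    rw [map_mul, ha, hb]
  one_mem' := by simp
  inv_mem' := by
    intro a ha
    simp only [Set.mem_ofPred_eq] at *
    rw [map_inv, ha]

lemma mem_fixS {u : MulAut A} {a : A} : a ∈ fixS u ↔ u a = a := Iff.rfl

/-- the hypotheses: `E` acts on `B`, is of class 2 with centre generated by the fixed-point-free `z` -/
structure Hyp (p : ℕ) (E : Subgroup (MulAut A)) (B : Subgroup A) (z : MulAut A) : Prop where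
  ne : B ≠ ⊥
  inv : ∀ e ∈ E, ∀ b ∈ B, e b ∈ B
  zE : z ∈ E
  zp : z ^ p = 1
  zc : ∀ g ∈ E, Commute z g
  fpf : ∀ b ∈ B, z b = b → b = 1
  comm : ∀ g ∈ E, ∀ h ∈ E, ∃ i : ℕ, Rel z g h i
  cen : ∀ g ∈ E, (∀ h ∈ E, g * h = h * g) → ∃ i : ℕ, g = z ^ i

variable {p : ℕ} {E : Subgroup (MulAut A)} {B : Subgroup A} {z : MulAut A}

lemma Hyp.nrmz (H : Hyp p E B z) (b : A) (hb : b ∈ B) : nrm p z b = 1 :=
  H.fpf _ (nrm_mem p B z (H.inv z H.zE) b hb) (nrm_shift p z H.zp b)

lemma Hyp.z_ne_one (H : Hyp p E B z) : z ≠ 1 := by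
  intro hz1
  apply H.ne
  rw [Subgroup.eq_bot_iff_forall]
  intro b hb
  exact H.fpf b hb (by rw [hz1]; rfl)

lemma Hyp.dvd_of_pow_eq_one (hp : p.Prime) (H : Hyp p E B z) (c : ℕ) (hc : z ^ c = 1) : p ∣ c := by
  have : Fact p.Prime := ⟨hp⟩
  have h1 := orderOf_eq_prime H.zp H.z_ne_one
  rw [← h1]; exact orderOf_dvd_of_pow_eq_one hc

lemma Hyp.exists_partner (hp : p.Prime) (H : Hyp p E B z) (x : MulAut A) (hxE : x ∈ E)
    (hxz : ∀ i : ℕ, x ≠ z ^ i) : ∃ y ∈ E, Rel z x y 1 := by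
  by_contra hcon
  push Not at hcon
  obtain ⟨i, hi⟩ := H.cen x hxE (fun h hh => by
    obtain ⟨j, hj⟩ := H.comm h hh x hxE
    by_cases hpj : p ∣ j
    · exact (rel_comm H.zp hpj hj).symm
    · exfalso
      have hcop : Nat.Coprime ((p - 1) * j) p := by
        rw [Nat.coprime_comm, Nat.Prime.coprime_iff_not_dvd hp]
        intro hd
        rcases (Nat.Prime.dvd_mul hp).1 hd with h1 | h1
        · have h2 := Nat.le_of_dvd (by have := hp.two_le; omega) h1
          have := hp.two_le; omega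
        · exact hpj h1
      obtain ⟨m, -, hm⟩ := Nat.exists_mul_mod_eq_one_of_coprime hcop hp.one_lt
      have h1 : Rel z (h ^ m) x (j * m) := rel_pow_left (H.zc h hh) hj m
      have h2 : Rel z x (h ^ m) ((p - 1) * (j * m)) := rel_swap hp.pos H.zp h1
      have h3 := rel_mod H.zp h2
      rw [← mul_assoc, hm] at h3
      exact hcon (h ^ m) (E.pow_mem hh m) h3)
  exact hxz i hi

theorem step [Finite A] {r : ℕ} (hp : p.Prime) (hpr : Nat.Coprime p r) (hexp : ∀ a : A, a ^ r = 1)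
    (H : Hyp p E B z) (x : MulAut A) (hxE : x ∈ E) (hxp : x ^ p = 1) (hxz : ∀ i : ℕ, x ≠ z ^ i) :
    ∃ (E1 : Subgroup (MulAut A)) (B1 : Subgroup A), Hyp p E1 B1 z ∧
      Nat.card E ≤ p * p * Nat.card E1 ∧ Nat.card B1 ^ p ≤ Nat.card B := by
  have : Finite (MulAut A) := Finite.of_injective (fun f : MulAut A => (f : A → A)) DFunLike.coe_injective
  obtain ⟨y, hyE, hxy⟩ := H.exists_partner hp x hxE hxz
  have hzx : Commute z x := H.zc x hxE
  have hzy : Commute z y := H.zc y hyE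
  have hyx : Rel z y x (p - 1) := by simpa using rel_swap hp.pos H.zp hxy
  have K : ∀ i : ℕ, x * y ^ i = y ^ i * (x * z ^ i) := by
    intro i
    have h1 : Rel z x (y ^ i) (1 * i) := rel_pow_right hzy hxy i
    unfold Rel at h1
    rw [one_mul] at h1
    rw [h1]
    have hc1 : Commute (z ^ i) (y ^ i) := (hzy.pow_left i).pow_right i
    have hc2 : Commute (z ^ i) x := hzx.pow_left i
    rw [← mul_assoc, hc1.eq, mul_assoc, hc2.eq]
  have K' : ∀ i : ℕ, (y ^ i)⁻¹ * x = (x * z ^ i) * (y ^ i)⁻¹ := by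
    intro i
    rw [eq_mul_inv_iff_mul_eq, mul_assoc, K, inv_mul_cancel_left]
  let E1 : Subgroup (MulAut A) := E ⊓ Subgroup.centralizer {x, y}
  let B1 : Subgroup A := B ⊓ fixS x
  have hE1 : ∀ g, g ∈ E1 ↔ g ∈ E ∧ x * g = g * x ∧ y * g = g * y := by
    intro g
    simp only [E1, Subgroup.mem_inf, Subgroup.mem_centralizer_iff, Set.mem_insert_iff,
      Set.mem_singleton_iff, forall_eq_or_imp, forall_eq]
  have hB1 : ∀ b, b ∈ B1 ↔ b ∈ B ∧ x b = b := by
    intro b; simp only [B1, Subgroup.mem_inf, mem_fixS]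
  have adj : ∀ h ∈ E, ∃ i : Fin p × Fin p,
      h * (x ^ ((p - 1) * (i.2 : ℕ)) * y ^ (i.1 : ℕ)) ∈ E1 := by
    intro h hh
    obtain ⟨a₀, ha₀⟩ := H.comm h hh x hxE
    obtain ⟨b₀, hb₀⟩ := H.comm h hh y hyE
    have ha := rel_mod H.zp ha₀
    have hb := rel_mod H.zp hb₀
    refine ⟨(⟨a₀ % p, Nat.mod_lt _ hp.pos⟩, ⟨b₀ % p, Nat.mod_lt _ hp.pos⟩), ?_⟩
    show h * (x ^ ((p - 1) * (b₀ % p)) * y ^ (a₀ % p)) ∈ E1
    have hzh : Commute z h := H.zc h hh
    rw [hE1]
    refine ⟨E.mul_mem hh (E.mul_mem (E.pow_mem hxE _) (E.pow_mem hyE _)), ?_, ?_⟩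
    · have r1 : Rel z (x ^ ((p - 1) * (b₀ % p))) x 0 := by
        unfold Rel; rw [pow_zero, one_mul]; exact pow_mul_comm' x _
      have r2 : Rel z (y ^ (a₀ % p)) x ((p - 1) * (a₀ % p)) := rel_pow_left hzy hyx _
      have r3 := rel_mul_left hzh ha (rel_mul_left (hzx.pow_right _) r1 r2)
      exact (rel_comm H.zp ⟨_, arith1 p _ hp.pos⟩ r3).symm
    · have r1 : Rel z (x ^ ((p - 1) * (b₀ % p))) y (1 * ((p - 1) * (b₀ % p))) :=
        rel_pow_left hzx hxy _
      have r2 : Rel z (y ^ (a₀ % p)) y 0 := by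
        unfold Rel; rw [pow_zero, one_mul]; exact pow_mul_comm' y _
      have r3 := rel_mul_left hzh hb (rel_mul_left (hzx.pow_right _) r1 r2)
      exact (rel_comm H.zp ⟨_, arith2 p _ hp.pos⟩ r3).symm
  have toB1 : ∀ i : ℕ, ∀ b ∈ B, (x * z ^ i) b = b → (y ^ i) b ∈ B1 := by
    intro i b hb hfix
    rw [hB1]
    refine ⟨H.inv _ (E.pow_mem hyE i) b hb, ?_⟩
    calc x ((y ^ i) b) = (x * y ^ i) b := rfl
      _ = (y ^ i * (x * z ^ i)) b := by rw [K]
      _ = (y ^ i) ((x * z ^ i) b) := rfl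
      _ = (y ^ i) b := by rw [hfix]
  have fromB1 : ∀ i : ℕ, ∀ c ∈ B1, ((y ^ i)⁻¹ : MulAut A) c ∈ B ∧
      (x * z ^ i) (((y ^ i)⁻¹ : MulAut A) c) = ((y ^ i)⁻¹ : MulAut A) c := by
    intro i c hc
    rw [hB1] at hc
    refine ⟨H.inv _ (E.inv_mem (E.pow_mem hyE i)) c hc.1, ?_⟩
    calc (x * z ^ i) (((y ^ i)⁻¹ : MulAut A) c) = ((x * z ^ i) * (y ^ i)⁻¹) c := rfl
      _ = ((y ^ i)⁻¹ * x) c := by rw [K']
      _ = ((y ^ i)⁻¹ : MulAut A) (x c) := rfl
      _ = ((y ^ i)⁻¹ : MulAut A) c := by rw [hc.2]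
  have hxzp : ∀ i : ℕ, (x * z ^ i) ^ p = 1 := by
    intro i
    rw [(hzx.symm.pow_right i).mul_pow, hxp, ← pow_mul, mul_comm, pow_mul, H.zp, one_pow, one_mul]
  have nrm_other : ∀ i j : ℕ, i < p → j < p → i ≠ j → ∀ b ∈ B, (x * z ^ i) b = b →
      nrm p (x * z ^ j) b = 1 := by
    intro i j hi hj hij b hb hfix
    have e1 : x * z ^ j = (x * z ^ i) * z ^ (j + (p - 1) * i) := by
      rw [mul_assoc, ← pow_add]
      have h0 : i + (j + (p - 1) * i) = j + p * i := by
        have := arith1 p i hp.pos; omega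
      rw [h0, pow_add, pow_mul, H.zp, one_pow, mul_one]
    have hc : Commute (x * z ^ i) (z ^ (j + (p - 1) * i)) :=
      (hzx.symm.pow_right _).mul_left ((Commute.refl z).pow_pow _ _)
    rw [e1, nrm_mul_fixed p _ _ hc b hfix, nrm_pow_coprime p hp z H.zp _ ?_ b]
    · exact H.nrmz b hb
    · intro hd
      apply hij
      have h2 : (j + (p - 1) * i) + i ≡ 0 + i [MOD p] :=
        Nat.ModEq.add_right i ((Nat.modEq_zero_iff_dvd).2 hd)
      have h3 : (j + (p - 1) * i) + i = j + p * i := by have := arith1 p i hp.pos; omega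
      rw [h3, zero_add] at h2
      have h4 : j + p * i ≡ j + 0 [MOD p] :=
        Nat.ModEq.add_left j ((Nat.modEq_zero_iff_dvd).2 (dvd_mul_right p i))
      rw [add_zero] at h4
      exact Nat.ModEq.eq_of_lt_of_lt (h4.symm.trans h2).symm hi hj
  have hB1ne : B1 ≠ ⊥ := by
    intro hbot
    apply H.ne
    rw [Subgroup.eq_bot_iff_forall]
    intro b hb
    have h1 : ∀ i ∈ range p, nrm p (x * z ^ i) b = 1 := by
      intro i _
      have hm : nrm p (x * z ^ i) b ∈ B :=
        nrm_mem p B _ (H.inv _ (E.mul_mem hxE (E.pow_mem H.zE i))) b hb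
      have hf : (x * z ^ i) (nrm p (x * z ^ i) b) = nrm p (x * z ^ i) b :=
        nrm_shift p _ (hxzp i) b
      have h2 := toB1 i _ hm hf
      rw [hbot, Subgroup.mem_bot] at h2
      exact EmbeddingLike.map_eq_one_iff.1 h2
    have h3 := prod_nrm_eq p hp x z hzx.symm H.zp b (H.nrmz b hb)
    rw [Finset.prod_eq_one h1] at h3
    exact eq_one_of_pow hpr b h3.symm (hexp b)
  have H1 : Hyp p E1 B1 z := by
    refine ⟨hB1ne, ?_, ?_, H.zp, ?_, ?_, ?_, ?_⟩
    · intro e he b hb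
      rw [hE1] at he
      rw [hB1] at hb ⊢
      refine ⟨H.inv e he.1 b hb.1, ?_⟩
      calc x (e b) = (x * e) b := rfl
        _ = (e * x) b := by rw [he.2.1]
        _ = e (x b) := rfl
        _ = e b := by rw [hb.2]
    · rw [hE1]; exact ⟨H.zE, hzx.eq.symm, hzy.eq.symm⟩
    · intro g hg; rw [hE1] at hg; exact H.zc g hg.1
    · intro b hb; rw [hB1] at hb; exact H.fpf b hb.1
    · intro g hg h hh; rw [hE1] at hg hh; exact H.comm g hg.1 h hh.1
    · intro g hg hcen
      have hg' := (hE1 g).1 hg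
      apply H.cen g hg'.1
      intro h hh
      obtain ⟨i, hi⟩ := adj h hh
      have c1 : Commute g (h * (x ^ ((p - 1) * (i.2 : ℕ)) * y ^ (i.1 : ℕ))) := hcen _ hi
      have cx : Commute g x := (show Commute x g from hg'.2.1).symm
      have cy : Commute g y := (show Commute y g from hg'.2.2).symm
      have cw : Commute g (x ^ ((p - 1) * (i.2 : ℕ)) * y ^ (i.1 : ℕ)) :=
        (cx.pow_right _).mul_right (cy.pow_right _)
      have c2 := c1.mul_right cw.inv_right
      rw [mul_inv_cancel_right] at c2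
      exact c2
  have hcard : Nat.card E ≤ p * p * Nat.card E1 := by
    have h0 := card_le_of_cover E E1
      (fun i : Fin p × Fin p => x ^ ((p - 1) * (i.2 : ℕ)) * y ^ (i.1 : ℕ)) adj
    simpa [Nat.card_prod] using h0
  have hpow : Nat.card B1 ^ p ≤ Nat.card B := by
    have hΨmem : ∀ c : Fin p → B1,
        ∏ i : Fin p, ((y ^ (i : ℕ))⁻¹ : MulAut A) (c i : A) ∈ B := fun c =>
      Subgroup.prod_mem B fun i _ => (fromB1 i _ (c i).2).1
    have hinj : Function.Injective (fun c : Fin p → B1 =>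
        (⟨∏ i : Fin p, ((y ^ (i : ℕ))⁻¹ : MulAut A) (c i : A), hΨmem c⟩ : B)) := by
      intro c c' hcc
      have hcc' : ∏ i : Fin p, ((y ^ (i : ℕ))⁻¹ : MulAut A) (c i : A) =
          ∏ i : Fin p, ((y ^ (i : ℕ))⁻¹ : MulAut A) (c' i : A) := congrArg Subtype.val hcc
      funext j
      have key : ∀ d : Fin p → B1,
          nrm p (x * z ^ (j : ℕ)) (∏ i : Fin p, ((y ^ (i : ℕ))⁻¹ : MulAut A) (d i : A)) =
            (((y ^ (j : ℕ))⁻¹ : MulAut A) (d j : A)) ^ p := by
        intro d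
        rw [nrm_prod, Finset.prod_eq_single j]
        · exact nrm_fixed p _ _ (fromB1 j _ (d j).2).2
        · intro i _ hij
          exact nrm_other i j i.2 j.2 (fun h => hij (Fin.ext h)) _ (fromB1 i _ (d i).2).1
            (fromB1 i _ (d i).2).2
        · intro h; exact absurd (Finset.mem_univ j) h
      have h1 := key c
      rw [hcc', key c'] at h1
      have h2 := pow_inj_of_coprime hpr hexp _ _ h1
      exact Subtype.ext (MulEquiv.injective _ h2).symm
    have h0 := Nat.card_le_card_of_injective _ hinj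
    rwa [Nat.card_fun, Nat.card_fin] at h0
  exact ⟨E1, B1, H1, hcard, hpow⟩

end Nrm

end Cfsg.Agent.Helper28.ExtA
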