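import Cfsg.Agent.Helper28.ExtA

/-!
Existence of noncentral elements of order `p`, the base cases, and the induction giving
`r ^ (n * p ^ w) ≤ |B|`.
-/

namespace Cfsg.Agent.Helper28.ExtA

open Finset

variable {A : Type*} [CommGroup A] {p : ℕ} {E : Subgroup (MulAut A)} {B : Subgroup A}
  {z : MulAut A}

lemma Hyp.exists_noncentral [Finite A] (hp : p.Prime) (H : Hyp p E B z) (hcard : p < Nat.card E) :
    ∃ x ∈ E, ∀ i : ℕ, x ≠ z ^ i := by
  have : Finite (MulAut A) :=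
    Finite.of_injective (fun f : MulAut A => (f : A → A)) DFunLike.coe_injective
  by_contra hcon
  push Not at hcon
  have h0 := card_le_of_cover E (⊥ : Subgroup (MulAut A)) (fun i : Fin p => (z ^ (i : ℕ))⁻¹) (by
    intro g hg
    obtain ⟨i, hi⟩ := hcon g hg
    refine ⟨⟨i % p, Nat.mod_lt _ hp.pos⟩, ?_⟩
    show g * (z ^ (i % p))⁻¹ ∈ (⊥ : Subgroup (MulAut A))
    rw [Subgroup.mem_bot, hi, ← pow_eq_pow_mod i H.zp, mul_inv_cancel])
  simp at h0
  omega

lemma Hyp.pow_p_central (H : Hyp p E B z) (g : MulAut A) (hg : g ∈ E) :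
    ∃ a : ℕ, g ^ p = z ^ a := by
  apply H.cen (g ^ p) (E.pow_mem hg p)
  intro h hh
  obtain ⟨i, hi⟩ := H.comm g hg h hh
  have h1 : Rel z (g ^ p) h (i * p) := rel_pow_left (H.zc g hg) hi p
  exact rel_comm H.zp (dvd_mul_left p i) h1

lemma Hyp.exists_order_p_odd [Finite A] (hp : p.Prime) (hp2 : p ≠ 2) (H : Hyp p E B z)
    (hcard : p < Nat.card E) : ∃ x ∈ E, x ^ p = 1 ∧ ∀ i : ℕ, x ≠ z ^ i := by
  obtain ⟨x₀, hx₀E, hx₀z⟩ := H.exists_noncentral hp hcard
  obtain ⟨y₀, hy₀E, hxy⟩ := H.exists_partner hp x₀ hx₀E hx₀z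
  obtain ⟨a, ha⟩ := H.pow_p_central x₀ hx₀E
  obtain ⟨b, hb⟩ := H.pow_p_central y₀ hy₀E
  by_cases hpa : p ∣ a
  · refine ⟨x₀, hx₀E, ?_, hx₀z⟩
    obtain ⟨j, rfl⟩ := hpa
    rw [ha, pow_mul, H.zp, one_pow]
  · have hzx : Commute z x₀ := H.zc x₀ hx₀E
    have hzy : Commute z y₀ := H.zc y₀ hy₀E
    have huE : x₀ ^ b ∈ E := E.pow_mem hx₀E _
    have hvE : y₀ ^ ((p - 1) * a) ∈ E := E.pow_mem hy₀E _
    have hnd : ¬ p ∣ (p - 1) * ((p - 1) * a) := by
      have h1 : ¬ p ∣ p - 1 := by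
        intro hd
        have h2 := Nat.le_of_dvd (by have := hp.two_le; omega) hd
        have := hp.two_le; omega
      intro hd
      rcases (Nat.Prime.dvd_mul hp).1 hd with h | h
      · exact h1 h
      · rcases (Nat.Prime.dvd_mul hp).1 h with h | h
        · exact h1 h
        · exact hpa h
    refine ⟨x₀ ^ b * y₀ ^ ((p - 1) * a), E.mul_mem huE hvE, ?_, ?_⟩
    · obtain ⟨k, hk⟩ := H.comm _ hvE _ huE
      rw [mul_pow_rel (H.zc _ huE) (H.zc _ hvE) hk p]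
      have hT : p ∣ ∑ i ∈ range p, i := by
        have h1 := Finset.sum_range_id_mul_two p
        have h2 : p ∣ (∑ i ∈ range p, i) * 2 := ⟨p - 1, h1⟩
        rcases (Nat.Prime.dvd_mul hp).1 h2 with h3 | h3
        · exact h3
        · exact absurd ((Nat.prime_dvd_prime_iff_eq hp Nat.prime_two).1 h3) hp2
      obtain ⟨t, ht⟩ := hT
      have e0 : z ^ (k * ∑ i ∈ range p, i) = 1 := by
        rw [ht, ← mul_assoc, mul_comm k p, mul_assoc, pow_mul, H.zp, one_pow]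
      have e1 : (x₀ ^ b) ^ p = z ^ (a * b) := by
        rw [← pow_mul, mul_comm, pow_mul, ha, ← pow_mul]
      have e2 : (y₀ ^ ((p - 1) * a)) ^ p = z ^ (b * ((p - 1) * a)) := by
        rw [← pow_mul, mul_comm, pow_mul, hb, ← pow_mul]
      have e3 : a * b + b * ((p - 1) * a) = p * (a * b) := by
        have e : b * ((p - 1) * a) = (p - 1) * (a * b) := by ring
        rw [e]
        have := arith1 p (a * b) hp.pos
        omega
      rw [e0, one_mul, e1, e2, ← pow_add, e3, pow_mul, H.zp, one_pow]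
    · intro i hi
      have hyx : Rel z y₀ x₀ (p - 1) := by simpa using rel_swap hp.pos H.zp hxy
      have r1 : Rel z (x₀ ^ b) x₀ 0 := by
        unfold Rel; rw [pow_zero, one_mul]; exact pow_mul_comm' x₀ _
      have r2 : Rel z (y₀ ^ ((p - 1) * a)) x₀ ((p - 1) * ((p - 1) * a)) := rel_pow_left hzy hyx _
      have r3 : Rel z (x₀ ^ b * y₀ ^ ((p - 1) * a)) x₀ (0 + (p - 1) * ((p - 1) * a)) :=
        rel_mul_left (hzx.pow_right _) r1 r2
      unfold Rel at r3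
      rw [hi, zero_add] at r3
      have hc : Commute (z ^ i) x₀ := hzx.pow_left i
      rw [← hc.eq] at r3
      have h5 : z ^ ((p - 1) * ((p - 1) * a)) = 1 :=
        (mul_right_cancel ((one_mul _).trans r3)).symm
      exact hnd (H.dvd_of_pow_eq_one hp _ h5)

lemma Hyp.exists_invol [Finite A] (H : Hyp 2 E B z) (hcard : 32 ≤ Nat.card E) :
    ∃ x ∈ E, x ^ 2 = 1 ∧ ∀ i : ℕ, x ≠ z ^ i := by
  have : Finite (MulAut A) :=
    Finite.of_injective (fun f : MulAut A => (f : A → A)) DFunLike.coe_injective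
  have hp : (2 : ℕ).Prime := Nat.prime_two
  obtain ⟨x₀, hx₀E, hx₀z⟩ := H.exists_noncentral hp (by omega)
  by_cases hx2 : x₀ ^ 2 = 1
  · exact ⟨x₀, hx₀E, hx2, hx₀z⟩
  obtain ⟨y₀, hy₀E, hxy⟩ := H.exists_partner hp x₀ hx₀E hx₀z
  have sq : ∀ g ∈ E, g ^ 2 ≠ 1 → g ^ 2 = z := by
    intro g hg hg2
    obtain ⟨a, ha⟩ := H.pow_p_central g hg
    rw [pow_eq_pow_mod a H.zp] at ha
    rcases Nat.mod_two_eq_zero_or_one a with h | h
    · rw [h, pow_zero] at ha; exact absurd ha hg2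
    · rw [h, pow_one] at ha; exact ha
  have hx2z : x₀ ^ 2 = z := sq x₀ hx₀E hx2
  have hx4 : x₀ ^ 4 = 1 := by
    have h4 : x₀ ^ 4 = (x₀ ^ 2) ^ 2 := by rw [← pow_mul]
    rw [h4, hx2z, H.zp]
  let C : Subgroup (MulAut A) := E ⊓ Subgroup.centralizer {x₀}
  have hC : ∀ g, g ∈ C ↔ g ∈ E ∧ x₀ * g = g * x₀ := by
    intro g
    simp only [C, Subgroup.mem_inf, Subgroup.mem_centralizer_iff, Set.mem_singleton_iff, forall_eq]
  have hzx : Commute z x₀ := H.zc x₀ hx₀E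
  have hyx : Rel z y₀ x₀ 1 := by simpa using rel_swap hp.pos H.zp hxy
  have h1 : Nat.card E ≤ 2 * Nat.card C := by
    have h0 := card_le_of_cover E C (fun i : Fin 2 => y₀ ^ (i : ℕ)) (by
      intro h hh
      obtain ⟨a, ha⟩ := H.comm h hh x₀ hx₀E
      have ha' := rel_mod H.zp ha
      rcases Nat.mod_two_eq_zero_or_one a with h2 | h2
      · refine ⟨0, ?_⟩
        show h * y₀ ^ 0 ∈ C
        rw [pow_zero, mul_one, hC]
        rw [h2] at ha'
        exact ⟨hh, (rel_comm H.zp (dvd_zero 2) ha').symm⟩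
      · refine ⟨1, ?_⟩
        show h * y₀ ^ 1 ∈ C
        rw [pow_one, hC]
        rw [h2] at ha'
        have r3 := rel_mul_left (H.zc h hh) ha' hyx
        exact ⟨E.mul_mem hh hy₀E, (rel_comm H.zp (by norm_num) r3).symm⟩)
    simpa using h0
  obtain ⟨y₁, hy₁C, hy₁⟩ : ∃ y₁ ∈ C, ∀ i : ℕ, y₁ ≠ x₀ ^ i := by
    by_contra hcon
    push Not at hcon
    have h0 := card_le_of_cover C (⊥ : Subgroup (MulAut A)) (fun i : Fin 4 => (x₀ ^ (i : ℕ))⁻¹) (by
      intro g hg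
      obtain ⟨i, hi⟩ := hcon g hg
      refine ⟨⟨i % 4, Nat.mod_lt _ (by norm_num)⟩, ?_⟩
      show g * (x₀ ^ (i % 4))⁻¹ ∈ (⊥ : Subgroup (MulAut A))
      rw [Subgroup.mem_bot, hi, ← pow_eq_pow_mod i hx4, mul_inv_cancel])
    simp at h0
    omega
  have hy₁' := (hC y₁).1 hy₁C
  have hy₁z : ∀ i : ℕ, y₁ ≠ z ^ i := by
    intro i hi
    apply hy₁ (2 * i)
    rw [hi, ← hx2z, ← pow_mul]
  by_cases hy2 : y₁ ^ 2 = 1
  · exact ⟨y₁, hy₁'.1, hy2, hy₁z⟩
  have hy2z : y₁ ^ 2 = z := sq y₁ hy₁'.1 hy2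
  refine ⟨x₀ * y₁, E.mul_mem hx₀E hy₁'.1, ?_, ?_⟩
  · have hcom : Commute x₀ y₁ := hy₁'.2
    rw [hcom.mul_pow, hx2z, hy2z, ← pow_two, H.zp]
  · intro i hi
    apply hy₁ (3 + 2 * i)
    have h3 : x₀⁻¹ = x₀ ^ 3 := inv_eq_of_mul_eq_one_right (by rw [← pow_succ']; exact hx4)
    have h4 : y₁ = x₀⁻¹ * z ^ i := by rw [← hi, inv_mul_cancel_left]
    rw [h4, h3, ← hx2z, ← pow_mul, ← pow_add]

lemma Hyp.card_pow [Finite A] {r : ℕ} (hr : r.Prime) (hexp : ∀ a : A, a ^ r = 1)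
    (H : Hyp p E B z) : ∃ k : ℕ, 1 ≤ k ∧ Nat.card B = r ^ k := by
  have : Fact r.Prime := ⟨hr⟩
  have hpg : IsPGroup r B := fun g => ⟨1, by rw [pow_one]; exact Subtype.ext (hexp g.1)⟩
  obtain ⟨k, hk⟩ := IsPGroup.iff_card.1 hpg
  refine ⟨k, ?_, hk⟩
  rcases Nat.eq_zero_or_pos k with h | h
  · subst h; rw [pow_zero] at hk; exact absurd (Subgroup.eq_bot_of_card_eq B hk) H.ne
  · exact h

lemma Hyp.small [Finite A] {r : ℕ} (hr : r.Prime) (H : Hyp 2 E B z) (hcard : 2 < Nat.card E)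
    (k : ℕ) (hk : Nat.card B = r ^ k) : 2 ≤ k := by
  by_contra hk2
  have hk1 : k = 1 := by
    have h0 : k ≠ 0 := by
      rintro rfl
      rw [pow_zero] at hk
      exact H.ne (Subgroup.eq_bot_of_card_eq B hk)
    omega
  subst hk1
  rw [pow_one] at hk
  have hp : (2 : ℕ).Prime := Nat.prime_two
  obtain ⟨x₀, hx₀E, hx₀z⟩ := H.exists_noncentral hp hcard
  obtain ⟨y₀, hy₀E, hxy⟩ := H.exists_partner hp x₀ hx₀E hx₀z
  obtain ⟨g, hgB, hg1⟩ : ∃ g ∈ B, g ≠ 1 := by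
    by_contra hcon
    push Not at hcon
    exact H.ne ((Subgroup.eq_bot_iff_forall B).2 hcon)
  have hgen : ∀ b ∈ B, ∃ m : ℕ, b = g ^ m := by
    have : Fact r.Prime := ⟨hr⟩
    intro b hb
    have h1 : Subgroup.zpowers (⟨g, hgB⟩ : B) = ⊤ := zpowers_eq_top_of_prime_card hk (by
      intro h; exact hg1 (congrArg Subtype.val h))
    have h2 : (⟨b, hb⟩ : B) ∈ Subgroup.zpowers (⟨g, hgB⟩ : B) := by
      rw [h1]; exact Subgroup.mem_top _
    rw [← mem_powers_iff_mem_zpowers, Submonoid.mem_powers_iff] at h2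
    obtain ⟨m, hm⟩ := h2
    exact ⟨m, (congrArg Subtype.val hm).symm⟩
  obtain ⟨s, hs⟩ := hgen _ (H.inv x₀ hx₀E g hgB)
  obtain ⟨t, ht⟩ := hgen _ (H.inv y₀ hy₀E g hgB)
  apply H.ne
  rw [Subgroup.eq_bot_iff_forall]
  intro b hb
  obtain ⟨m, rfl⟩ := hgen b hb
  have e1 : x₀ (y₀ (g ^ m)) = ((g ^ s) ^ t) ^ m := by rw [map_pow, map_pow, ht, map_pow, hs]
  have e2 : y₀ (x₀ (g ^ m)) = ((g ^ t) ^ s) ^ m := by rw [map_pow, map_pow, hs, map_pow, ht]
  have hcomm : x₀ (y₀ (g ^ m)) = y₀ (x₀ (g ^ m)) := by rw [e1, e2, pow_right_comm g s t]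
  have hxy' : x₀ * y₀ = z ^ 1 * (y₀ * x₀) := hxy
  rw [pow_one] at hxy'
  have h3 : x₀ (y₀ (g ^ m)) = z (y₀ (x₀ (g ^ m))) := DFunLike.congr_fun hxy' (g ^ m)
  rw [hcomm] at h3
  have hd : y₀ (x₀ (g ^ m)) ∈ B := H.inv _ hy₀E _ (H.inv _ hx₀E _ hb)
  have h4 := H.fpf _ hd h3.symm
  exact EmbeddingLike.map_eq_one_iff.1 (EmbeddingLike.map_eq_one_iff.1 h4)

lemma Hyp.base [Finite A] {r n : ℕ} (hp : p.Prime) (hr : r.Prime) (hexp : ∀ a : A, a ^ r = 1)
    (hmin : ∀ k : ℕ, 1 ≤ k → p ∣ r ^ k - 1 → n ≤ k) (H : Hyp p E B z) : r ^ n ≤ Nat.card B := by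
  obtain ⟨k, hk1, hk⟩ := H.card_pow hr hexp
  rw [hk]
  apply Nat.pow_le_pow_right hr.pos
  apply hmin k hk1
  have : Fact p.Prime := ⟨hp⟩
  letI : MulAction (Subgroup.zpowers z) B :=
    { smul := fun g b => ⟨g.1 b.1, H.inv g.1 ((Subgroup.zpowers_le.2 H.zE) g.2) b.1 b.2⟩
      one_smul := fun b => Subtype.ext rfl
      mul_smul := fun g h b => Subtype.ext rfl }
  have hpg : IsPGroup p (Subgroup.zpowers z) := by
    apply IsPGroup.of_card (n := 1)
    rw [pow_one, Nat.card_zpowers, orderOf_eq_prime H.zp H.z_ne_one]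
  have hfix : MulAction.fixedPoints (Subgroup.zpowers z) B = {1} := by
    ext b
    simp only [MulAction.mem_fixedPoints, Set.mem_singleton_iff]
    constructor
    · intro h
      have h1 := h ⟨z, Subgroup.mem_zpowers z⟩
      have h2 : z b.1 = b.1 := congrArg Subtype.val h1
      exact Subtype.ext (H.fpf b.1 b.2 h2)
    · rintro rfl g
      exact Subtype.ext (map_one g.1)
  have hc1 : Nat.card (MulAction.fixedPoints (Subgroup.zpowers z) B) = 1 := by
    rw [hfix]; simp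
  have h1 := hpg.card_modEq_card_fixedPoints B
  rw [hc1, hk] at h1
  exact (Nat.modEq_iff_dvd' (Nat.one_le_pow _ _ hr.pos)).1 h1.symm

theorem core [Finite A] {r n : ℕ} (hp : p.Prime) (hr : r.Prime) (hpr : p ≠ r)
    (hexp : ∀ a : A, a ^ r = 1)
    (hmin : ∀ k : ℕ, 1 ≤ k → p ∣ r ^ k - 1 → n ≤ k) (hn : 1 ≤ n) :
    ∀ (w : ℕ) (E : Subgroup (MulAut A)) (B : Subgroup A) (z : MulAut A), Hyp p E B z →
      p ^ (2 * w + 1) ≤ Nat.card E → r ^ (n * p ^ w) ≤ Nat.card B := by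
  have hcop : Nat.Coprime p r := (Nat.coprime_primes hp hr).2 hpr
  intro w
  induction w with
  | zero =>
    intro E B z H _
    simpa using H.base hp hr hexp hmin
  | succ w ih =>
    intro E B z H hcard
    by_cases hsmall : p = 2 ∧ w = 0
    · obtain ⟨rfl, rfl⟩ := hsmall
      obtain ⟨k, hk1, hk⟩ := H.card_pow hr hexp
      have hk2 := H.small hr (by norm_num at hcard; omega) k hk
      have hn1 : n = 1 := by
        have h2 : 2 ∣ r ^ 1 - 1 := by
          rw [pow_one]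
          have hodd : r % 2 = 1 := by
            rcases hr.eq_two_or_odd with h | h
            · exact absurd h.symm hpr
            · exact h
          omega
        have := hmin 1 le_rfl h2
        omega
      subst hn1
      rw [hk]
      simpa using Nat.pow_le_pow_right hr.pos hk2
    · have hx : ∃ x ∈ E, x ^ p = 1 ∧ ∀ i : ℕ, x ≠ z ^ i := by
        by_cases hp2 : p = 2
        · subst hp2
          have hw : 1 ≤ w := by
            rcases Nat.eq_zero_or_pos w with h | h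
            · exact absurd ⟨rfl, h⟩ hsmall
            · exact h
          apply H.exists_invol
          calc 32 = 2 ^ 5 := by norm_num
            _ ≤ 2 ^ (2 * (w + 1) + 1) := Nat.pow_le_pow_right (by norm_num) (by omega)
            _ ≤ Nat.card E := hcard
        · apply H.exists_order_p_odd hp hp2
          calc p = p ^ 1 := (pow_one p).symm
            _ < p ^ (2 * (w + 1) + 1) := Nat.pow_lt_pow_right hp.one_lt (by omega)
            _ ≤ Nat.card E := hcard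
      obtain ⟨x, hxE, hxp, hxz⟩ := hx
      obtain ⟨E1, B1, H1, hc1, hc2⟩ := step hp hcop hexp H x hxE hxp hxz
      have h1 : p ^ (2 * w + 1) ≤ Nat.card E1 := by
        have h2 : p ^ (2 * (w + 1) + 1) = p * p * p ^ (2 * w + 1) := by ring
        rw [h2] at hcard
        exact Nat.le_of_mul_le_mul_left (hcard.trans hc1) (Nat.mul_pos hp.pos hp.pos)
      have h3 := ih E1 B1 z H1 h1
      calc r ^ (n * p ^ (w + 1)) = (r ^ (n * p ^ w)) ^ p := by rw [← pow_mul, pow_succ, mul_assoc]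
        _ ≤ Nat.card B1 ^ p := Nat.pow_le_pow_left h3 p
        _ ≤ Nat.card B := hc2

end Cfsg.Agent.Helper28.ExtA
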