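import Cfsg.Agent.Helper28.ExtB
import Cfsg.Prelude.Def_Transfer

/-!
An extraspecial group of order `p^(2w+1)` acting faithfully on an elementary abelian `r`-group `A`
forces `r ^ (n * p ^ w) ≤ |A|`, where `n` is the order of `r` modulo `p`.
-/

namespace Cfsg.Agent.Helper28.ExtA

open Finset
open scoped commutatorElement

/-- commutative group structure on a commutative subgroup -/
@[reducible] def commGroupOf {G : Type*} [Group G] (A : Subgroup G) (h : IsMulCommutative A) :
    CommGroup A :=
  { (inferInstance : Group A) with mul_comm := fun a b => h.is_comm.comm a b }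

section Final
variable {G : Type*} [Group G] (E A : Subgroup G)

/-- conjugation by an element of the normalizer as an automorphism of `A` -/
def conjAut (e : G) (he : e ∈ Subgroup.normalizer (A : Set G)) : MulAut A where
  toFun a := ⟨e * a.1 * e⁻¹, (Subgroup.mem_normalizer_iff.1 he a.1).1 a.2⟩
  invFun a := ⟨e⁻¹ * a.1 * e, by
    have h := (Subgroup.mem_normalizer_iff.1 (Subgroup.inv_mem _ he) a.1).1 a.2
    simpa using h⟩
  left_inv a := Subtype.ext (by simp [mul_assoc])
  right_inv a := Subtype.ext (by simp [mul_assoc])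
  map_mul' a b := Subtype.ext (by simp [mul_assoc])

lemma conjAut_apply (e : G) (he : e ∈ Subgroup.normalizer (A : Set G)) (a : A) :
    ((conjAut A e he) a : G) = e * a.1 * e⁻¹ := rfl

/-- the action homomorphism -/
def actHom (hnorm : E ≤ Subgroup.normalizer (A : Set G)) : E →* MulAut A where
  toFun e := conjAut A e.1 (hnorm e.2)
  map_one' := by
    apply MulEquiv.ext
    intro a
    apply Subtype.ext
    simp [conjAut_apply]
  map_mul' e f := by
    apply MulEquiv.ext
    intro a
    apply Subtype.ext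
    simp [conjAut_apply, mul_assoc]

lemma actHom_apply (hnorm : E ≤ Subgroup.normalizer (A : Set G)) (e : E) (a : A) :
    ((actHom E A hnorm e) a : G) = e.1 * a.1 * e.1⁻¹ := rfl

theorem final [Finite G] {p r : ℕ} [Fact p.Prime] [hr : Fact r.Prime] (hpr : p ≠ r) (w : ℕ)
    (hE : Cfsg.IsExtraspecial p E) (hEcard : Nat.card E = p ^ (2 * w + 1))
    (hA : Cfsg.IsElementaryAbelian r A) (hnorm : E ≤ Subgroup.normalizer (A : Set G))
    (hfaith : E ⊓ Subgroup.centralizer (A : Set G) = ⊥)
    (n : ℕ) (hn : 1 ≤ n) (hmin : ∀ k : ℕ, 1 ≤ k → p ∣ r ^ k - 1 → n ≤ k) :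
    r ^ (n * p ^ w) ≤ Nat.card A := by
  have hp : p.Prime := Fact.out
  let cg : CommGroup A := commGroupOf A hA.1
  have hexp : ∀ a : A, a ^ r = 1 := fun a => Subtype.ext (hA.2 a.1 a.2)
  set φ := actHom E A hnorm with hφ
  have hφapp : ∀ (e : E) (a : A), ((φ e) a : G) = e.1 * a.1 * e.1⁻¹ := fun e a => rfl
  have hinj : Function.Injective φ := by
    rw [injective_iff_map_eq_one]
    intro e he
    have h1 : e.1 ∈ E ⊓ Subgroup.centralizer (A : Set G) := by
      rw [Subgroup.mem_inf]
      refine ⟨e.2, ?_⟩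
      rw [Subgroup.mem_centralizer_iff]
      intro a ha
      have h2 := hφapp e ⟨a, ha⟩
      rw [he] at h2
      have h3 : a = e.1 * a * e.1⁻¹ := h2
      exact eq_mul_inv_iff_mul_eq.1 h3
    rw [hfaith, Subgroup.mem_bot] at h1
    exact Subtype.ext h1
  have hZcard : Nat.card (Subgroup.center E) = p := hE.2
  obtain ⟨z₀, hz₀⟩ : ∃ z₀ : Subgroup.center E, z₀ ≠ 1 := by
    have hnt : Nontrivial (Subgroup.center E) := by
      rw [← Finite.one_lt_card_iff_nontrivial, hZcard]
      exact hp.one_lt
    exact exists_ne 1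
  have hZgen : ∀ c : E, c ∈ Subgroup.center E → ∃ i : ℕ, c = z₀.1 ^ i := by
    intro c hc
    have h1 : Subgroup.zpowers z₀ = ⊤ := zpowers_eq_top_of_prime_card hZcard hz₀
    have h2 : (⟨c, hc⟩ : Subgroup.center E) ∈ Subgroup.zpowers z₀ := by
      rw [h1]; exact Subgroup.mem_top _
    rw [← mem_powers_iff_mem_zpowers, Submonoid.mem_powers_iff] at h2
    obtain ⟨i, hi⟩ := h2
    have h3 := congrArg Subtype.val hi
    exact ⟨i, h3.symm⟩
  set z : MulAut A := φ z₀.1 with hz
  have hz0c : ∀ e : E, z₀.1 * e = e * z₀.1 := fun e => (Subgroup.mem_center_iff.1 z₀.2 e).symm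
  have hzp : z ^ p = 1 := by
    rw [hz, ← map_pow]
    have h1 : z₀ ^ p = 1 := by rw [← hZcard]; exact pow_card_eq_one'
    have h2 : z₀.1 ^ p = 1 := congrArg Subtype.val h1
    rw [h2, map_one]
  let N : A →* A := { toFun := nrm p z, map_one' := nrm_one p z, map_mul' := nrm_mul p z }
  let B : Subgroup A := N.ker
  have hB : ∀ b, b ∈ B ↔ nrm p z b = 1 := fun b => MonoidHom.mem_ker
  have hzc : ∀ g ∈ φ.range, Commute z g := by
    rintro g ⟨e, rfl⟩
    show φ z₀.1 * φ e = φ e * φ z₀.1
    rw [← map_mul, ← map_mul, hz0c e]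
  have hcop : Nat.Coprime p r := (Nat.coprime_primes hp hr.out).2 hpr
  have H : Hyp p φ.range B z := by
    refine ⟨?_, ?_, ⟨z₀.1, rfl⟩, hzp, hzc, ?_, ?_, ?_⟩
    · intro hbot
      apply hz₀
      have hz1 : z = 1 := by
        apply MulEquiv.ext
        intro a
        have hd : z a * a⁻¹ ∈ B := by
          rw [hB, nrm_mul, ← nrm_comm p z z (Commute.refl z) a, nrm_shift p z hzp a]
          have h5 : nrm p z a⁻¹ = (nrm p z a)⁻¹ := map_inv N a
          rw [h5, mul_inv_cancel]
        rw [hbot, Subgroup.mem_bot] at hd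
        exact mul_inv_eq_one.1 hd
      have h6 : z₀.1 = 1 := hinj (by rw [map_one]; exact hz1)
      exact Subtype.ext h6
    · rintro g hg b hb
      rw [hB] at hb ⊢
      rw [← nrm_comm p z g (hzc g hg).symm b, hb, map_one]
    · intro b hb hfix
      rw [hB] at hb
      rw [nrm_fixed p z b hfix] at hb
      exact eq_one_of_pow hcop b hb (hexp b)
    · rintro g ⟨e, rfl⟩ h ⟨f, rfl⟩
      have h1 : ⁅e, f⁆ ∈ Subgroup.center E := by
        rw [← hE.1.2.2]
        exact Subgroup.commutator_mem_commutator (Subgroup.mem_top e) (Subgroup.mem_top f)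
      obtain ⟨i, hi⟩ := hZgen _ h1
      refine ⟨i, ?_⟩
      show φ e * φ f = (φ z₀.1) ^ i * (φ f * φ e)
      rw [← map_pow, ← map_mul, ← map_mul, ← map_mul, ← hi, commutatorElement_def]
      congr 1
      group
    · rintro g ⟨e, rfl⟩ hcen
      have h1 : e ∈ Subgroup.center E := by
        rw [Subgroup.mem_center_iff]
        intro f
        have h2 := hcen (φ f) ⟨f, rfl⟩
        rw [← map_mul, ← map_mul] at h2
        exact (hinj h2).symm
      obtain ⟨i, hi⟩ := hZgen _ h1
      exact ⟨i, by rw [hi, map_pow]⟩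
  have hcard : p ^ (2 * w + 1) ≤ Nat.card φ.range := by
    rw [← hEcard]
    exact le_of_eq (Nat.card_congr (MonoidHom.ofInjective hinj).toEquiv)
  have h := core hp hr.out hpr hexp hmin hn w φ.range B z H hcard
  exact h.trans (Subgroup.card_le_card_group B)

end Final

end Cfsg.Agent.Helper28.ExtA
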