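import Mathlib

namespace Cfsg.Agent.Helper28.S4135x

/-- If `p` divides the index of `C` and `c ∈ C` is a `p`-element, then some `p`-element `g`
outside `C` conjugates `c` into `C`. -/
theorem lemC {G : Type*} [Group G] [Finite G] (C : Subgroup G) (p : ℕ) [Fact p.Prime]
    (hpm : p ∣ C.index) (c : G) (hc : c ∈ C) (hcp : ∃ k : ℕ, c ^ p ^ k = 1) :
    ∃ g, g ∉ C ∧ (∃ k : ℕ, g ^ p ^ k = 1) ∧ g * c * g⁻¹ ∈ C := by
  have hz : IsPGroup p (Subgroup.zpowers c) := by
    obtain ⟨k, hk⟩ := hcp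
    obtain ⟨j, -, hj⟩ :=
      (Nat.dvd_prime_pow (Fact.out : p.Prime)).1 (orderOf_dvd_of_pow_eq_one hk)
    exact IsPGroup.of_card (n := j) (by rw [Nat.card_zpowers, hj])
  obtain ⟨S, hS⟩ := hz.exists_le_sylow
  have hcS : c ∈ (S : Subgroup G) := hS (Subgroup.mem_zpowers c)
  have hnot : ¬ (S : Subgroup G) ≤ C := by
    intro hle
    have h1 : C.index ∣ (S : Subgroup G).index := Subgroup.index_dvd_of_le hle
    exact S.not_dvd_index (dvd_trans hpm h1)
  have hnil : Group.IsNilpotent ↥(S : Subgroup G) := S.isPGroup'.isNilpotent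
  have hK : C.subgroupOf (S : Subgroup G) < ⊤ := by
    rw [lt_top_iff_ne_top, Ne, Subgroup.subgroupOf_eq_top]
    exact hnot
  have hN := Group.normalizerCondition_of_isNilpotent (G := ↥(S : Subgroup G)) _ hK
  obtain ⟨g, hgN, hgK⟩ := SetLike.exists_of_lt hN
  refine ⟨(g : G), ?_, ?_, ?_⟩
  · intro hg
    exact hgK (Subgroup.mem_subgroupOf.2 hg)
  · obtain ⟨k, hk⟩ := S.isPGroup' g
    exact ⟨k, by have h := congrArg Subtype.val hk; simpa using h⟩
  · have h := (Subgroup.mem_normalizer_iff.1 hgN ⟨c, hcS⟩).1 (Subgroup.mem_subgroupOf.2 hc)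
    exact Subgroup.mem_subgroupOf.1 h

end Cfsg.Agent.Helper28.S4135x
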