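import Mathlib

namespace Cfsg.Agent.Helper28.S4135y

/-- Two elements with the same centralizer index, one a noncentral `r`-element: the centralizer
of the other contains a noncentral `r`-element. -/
theorem lemB {G : Type*} [Group G] [Finite G] (m : ℕ) (r : ℕ) [Fact r.Prime] (R : Sylow r G)
    (x₀ y : G) (hx₀R : x₀ ∈ (R : Subgroup G)) (hx₀Z : x₀ ∉ Subgroup.center G)
    (hx₀ : (Subgroup.centralizer ({x₀} : Set G)).index = m)
    (hy : (Subgroup.centralizer ({y} : Set G)).index = m) :
    ∃ w, w ∈ Subgroup.centralizer ({y} : Set G) ∧ w ∉ Subgroup.center G ∧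
      ∃ k : ℕ, w ^ r ^ k = 1 := by
  by_contra hcon
  have hcen : ∀ w ∈ Subgroup.centralizer ({y} : Set G), (∃ k : ℕ, w ^ r ^ k = 1) →
      w ∈ Subgroup.center G := by
    intro w hw hk
    by_contra hwZ
    exact hcon ⟨w, hw, hwZ, hk⟩
  have hr : r.Prime := Fact.out
  have hm0 : m ≠ 0 := by
    rw [← hy]; exact Subgroup.index_ne_zero_of_finite
  have hcard : Nat.card (Subgroup.centralizer ({x₀} : Set G))
      = Nat.card (Subgroup.centralizer ({y} : Set G)) := by
    have h1 := Subgroup.card_mul_index (Subgroup.centralizer ({x₀} : Set G))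
    have h2 := Subgroup.card_mul_index (Subgroup.centralizer ({y} : Set G))
    rw [hx₀] at h1
    rw [hy] at h2
    exact Nat.eq_of_mul_eq_mul_right (Nat.pos_of_ne_zero hm0) (h1.trans h2.symm)
  obtain ⟨P⟩ : Nonempty (Sylow r ↥(Subgroup.centralizer ({y} : Set G))) := inferInstance
  obtain ⟨P', hP'⟩ : ∃ P' : Subgroup G, P' = (P : Subgroup ↥(Subgroup.centralizer ({y} : Set G))).map
      (Subgroup.centralizer ({y} : Set G)).subtype := ⟨_, rfl⟩
  have hP'card : Nat.card P'
      = r ^ (Nat.card (Subgroup.centralizer ({y} : Set G))).factorization r := by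
    rw [hP', Subgroup.card_map_of_injective (Subgroup.subtype_injective _)]
    exact Sylow.card_eq_multiplicity P
  have hP'pg : IsPGroup r P' := IsPGroup.of_card hP'card
  have hP'cen : P' ≤ Subgroup.center G := by
    rw [hP']
    rintro _ ⟨w, hwP, rfl⟩
    obtain ⟨k, hk⟩ := P.isPGroup' ⟨w, hwP⟩
    exact hcen _ w.2 ⟨k, by
      have h := congrArg Subtype.val (congrArg Subtype.val hk)
      simpa using h⟩
  have hP'n : P'.Normal := by
    constructor
    intro n hn g
    have h := Subgroup.mem_center_iff.1 (hP'cen hn) g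
    rw [h, mul_inv_cancel_right]
    exact hn
  have hx0pg : IsPGroup r (Subgroup.zpowers x₀) := by
    obtain ⟨k, hk⟩ := R.isPGroup' ⟨x₀, hx₀R⟩
    have hk' : x₀ ^ r ^ k = 1 := by
      have h := congrArg Subtype.val hk
      simpa using h
    obtain ⟨j, -, hj⟩ := (Nat.dvd_prime_pow hr).1 (orderOf_dvd_of_pow_eq_one hk')
    exact IsPGroup.of_card (n := j) (by rw [Nat.card_zpowers, hj])
  have hHpg : IsPGroup r (Subgroup.zpowers x₀ ⊔ P' : Subgroup G) :=
    IsPGroup.to_sup_of_normal_right hx0pg hP'pg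
  have hHle : Subgroup.zpowers x₀ ⊔ P' ≤ Subgroup.centralizer ({x₀} : Set G) := by
    apply sup_le
    · rw [Subgroup.zpowers_le]
      exact Subgroup.mem_centralizer_iff.2 (fun h hh => by rw [Set.mem_singleton_iff.1 hh])
    · exact le_trans hP'cen (Subgroup.center_le_centralizer _)
  obtain ⟨e, he⟩ := hHpg.exists_card_eq
  have hdvd : r ^ e ∣ Nat.card (Subgroup.centralizer ({y} : Set G)) := by
    rw [← he, ← hcard]; exact Subgroup.card_dvd_of_le hHle
  have hev : e ≤ (Nat.card (Subgroup.centralizer ({y} : Set G))).factorization r :=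
    (hr.pow_dvd_iff_le_factorization Nat.card_pos.ne').1 hdvd
  have hHcard : Nat.card (Subgroup.zpowers x₀ ⊔ P' : Subgroup G) ≤ Nat.card P' := by
    rw [he, hP'card]; exact Nat.pow_le_pow_right hr.pos hev
  have heq : P' = Subgroup.zpowers x₀ ⊔ P' :=
    Subgroup.eq_of_le_of_card_ge le_sup_right hHcard
  have hx : x₀ ∈ Subgroup.zpowers x₀ ⊔ P' :=
    (le_sup_left : Subgroup.zpowers x₀ ≤ Subgroup.zpowers x₀ ⊔ P') (Subgroup.mem_zpowers x₀)
  rw [← heq] at hx
  exact hx₀Z (hP'cen hx)

end Cfsg.Agent.Helper28.S4135y
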