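import Mathlib
import Cfsg.Agent.Helper7.Components

set_option autoImplicit false

namespace Cfsg.Agent.Helper28.S4172e

open Subgroup

variable {G : Type*} [Group G]

theorem map_map_conj (H : Subgroup G) (a b : G) :
    (H.map (MulAut.conj a).toMonoidHom).map (MulAut.conj b).toMonoidHom =
      H.map (MulAut.conj (b * a)).toMonoidHom := by
  rw [Subgroup.map_map]
  congr 1
  ext x
  simp [MulAut.conj_apply, mul_assoc]

theorem map_conj_one (H : Subgroup G) : H.map (MulAut.conj (1 : G)).toMonoidHom = H := by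
  ext x
  simp

theorem le_normalizer_of_map_le (Q A : Subgroup G)
    (h : ∀ y ∈ Q, A.map (MulAut.conj y).toMonoidHom ≤ A) :
    Q ≤ Subgroup.normalizer (A : Set G) := by
  intro y hy
  rw [Subgroup.mem_normalizer_iff]
  intro a
  constructor
  · intro ha
    exact h y hy ⟨a, ha, by simp [MulAut.conj_apply]⟩
  · intro ha
    have := h y⁻¹ (Q.inv_mem hy) ⟨y * a * y⁻¹, ha, rfl⟩
    simpa [MulAut.conj_apply, mul_assoc] using this

/-- `[e]`: split the layer into the join of the `Q`-conjugates of a component `K` and the join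
of the other components. -/
theorem orbit_split [Finite G] (Q K L : Subgroup G) (hK : Cfsg.IsComponent K)
    (hL : Cfsg.IsComponent L) (hne : ∀ x ∈ Q, L ≠ K.map (MulAut.conj x).toMonoidHom) :
    ∃ A B : Subgroup G, K ≤ A ∧ L ≤ B ∧ Q ≤ Subgroup.normalizer (A : Set G) ∧
      Q ≤ Subgroup.normalizer (B : Set G) ∧ (∀ a ∈ A, ∀ b ∈ B, a * b = b * a) ∧
      A ⊔ B = Cfsg.layer G := by
  classical
  obtain ⟨SA, hSA⟩ : ∃ SA : Set (Subgroup G),
      SA = {M | ∃ x ∈ Q, M = K.map (MulAut.conj x).toMonoidHom} := ⟨_, rfl⟩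
  obtain ⟨SB, hSB⟩ : ∃ SB : Set (Subgroup G),
      SB = {M | Cfsg.IsComponent M ∧ ∀ x ∈ Q, M ≠ K.map (MulAut.conj x).toMonoidHom} :=
    ⟨_, rfl⟩
  have hSAc : ∀ M ∈ SA, Cfsg.IsComponent M := by
    intro M hM
    rw [hSA] at hM
    obtain ⟨x, -, rfl⟩ := hM
    exact Cfsg.Agent.Helper7.conj_isComponent hK x
  have hAmap : ∀ y ∈ Q, (sSup SA).map (MulAut.conj y).toMonoidHom ≤ sSup SA := by
    intro y hy
    rw [Subgroup.map_le_iff_le_comap]
    apply sSup_le
    intro M hM
    rw [← Subgroup.map_le_iff_le_comap]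
    apply le_sSup
    rw [hSA] at hM ⊢
    obtain ⟨x, hx, rfl⟩ := hM
    exact ⟨y * x, Q.mul_mem hy hx, map_map_conj K x y⟩
  have hBmap : ∀ y ∈ Q, (sSup SB).map (MulAut.conj y).toMonoidHom ≤ sSup SB := by
    intro y hy
    rw [Subgroup.map_le_iff_le_comap]
    apply sSup_le
    intro M hM
    rw [← Subgroup.map_le_iff_le_comap]
    apply le_sSup
    rw [hSB] at hM ⊢
    obtain ⟨hMc, hMne⟩ := hM
    refine ⟨Cfsg.Agent.Helper7.conj_isComponent hMc y, ?_⟩
    intro x hx heq
    apply hMne (y⁻¹ * x) (Q.mul_mem (Q.inv_mem hy) hx)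
    have h1 := congrArg (fun H : Subgroup G => H.map (MulAut.conj y⁻¹).toMonoidHom) heq
    simp only [map_map_conj] at h1
    rw [inv_mul_cancel, map_conj_one] at h1
    exact h1
  refine ⟨sSup SA, sSup SB, ?_, ?_, le_normalizer_of_map_le Q _ hAmap,
    le_normalizer_of_map_le Q _ hBmap, ?_, ?_⟩
  · apply le_sSup
    rw [hSA]
    exact ⟨1, Q.one_mem, (map_conj_one K).symm⟩
  · apply le_sSup
    rw [hSB]
    exact ⟨hL, hne⟩
  · have hle : sSup SA ≤ Subgroup.centralizer ((sSup SB : Subgroup G) : Set G) := by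
      apply sSup_le
      intro M hM
      rw [Subgroup.le_centralizer_iff]
      apply sSup_le
      intro N hN
      rw [Subgroup.le_centralizer_iff, ← Subgroup.commutator_eq_bot_iff_le_centralizer]
      have hNc : Cfsg.IsComponent N := by rw [hSB] at hN; exact hN.1
      apply Cfsg.Agent.Helper7.components_commute (hSAc M hM) hNc
      intro hMN
      rw [hSA] at hM
      rw [hSB] at hN
      obtain ⟨x, hx, rfl⟩ := hM
      exact hN.2 x hx hMN.symm
    intro a ha b hb
    exact ((Subgroup.mem_centralizer_iff.mp (hle ha)) b hb).symm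
  · apply le_antisymm
    · apply sup_le
      · apply sSup_le
        intro M hM
        exact Cfsg.Agent.Helper7.le_layer (hSAc M hM)
      · apply sSup_le
        intro M hM
        rw [hSB] at hM
        exact Cfsg.Agent.Helper7.le_layer hM.1
    · unfold Cfsg.layer
      apply sSup_le
      intro M hM
      by_cases hc : ∃ x ∈ Q, M = K.map (MulAut.conj x).toMonoidHom
      · exact le_trans (le_sSup (by rw [hSA]; exact hc)) le_sup_left
      · refine le_trans (le_sSup ?_) le_sup_right
        rw [hSB]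
        refine ⟨hM, ?_⟩
        intro x hx h
        exact hc ⟨x, hx, h⟩

end Cfsg.Agent.Helper28.S4172e
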