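import Mathlib

set_option autoImplicit false

namespace Cfsg.Agent.Helper28.S4172i

open Subgroup
open scoped IsMulCommutative

/-- `[i]`: relative Maschke / trace argument. -/
theorem trace {G : Type*} [Group G] [Finite G] (p : ℕ) [Fact p.Prime] (P : Sylow p G)
    (M N : Subgroup G) (hM : M.Normal) (hN : N.Normal) (hNM : N ≤ M)
    (hMc : ∀ a ∈ M, ∀ b ∈ M, a * b = b * a) (hMp : IsPGroup p ↥M) (w : G) (hwM : w ∈ M)
    (hwN : w ∉ N) (hwP : ∀ u ∈ (P : Subgroup G), u * w = w * u)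
    (hPM : ∀ u ∈ (P : Subgroup G), ∀ m ∈ M, u * m * u⁻¹ * m⁻¹ ∈ N) :
    ∃ c ∈ M, c ∉ N ∧ ∃ H : Subgroup G, H.Normal ∧ (P : Subgroup G) ≤ H ∧
      ∀ h ∈ H, h * c = c * h := by
  classical
  have hp : p.Prime := Fact.out
  obtain ⟨H, hHmem⟩ : ∃ H : Subgroup G, ∀ h, h ∈ H ↔ ∀ m ∈ M, h * m * h⁻¹ * m⁻¹ ∈ N := by
    refine ⟨{ carrier := {h | ∀ m ∈ M, h * m * h⁻¹ * m⁻¹ ∈ N}
              mul_mem' := ?_
              one_mem' := ?_
              inv_mem' := ?_ }, fun h => Iff.rfl⟩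
    · intro a b ha hb m hm
      have hm' : b * m * b⁻¹ ∈ M := hM.conj_mem m hm b
      have h1 := ha (b * m * b⁻¹) hm'
      have h2 := hb m hm
      have h3 := N.mul_mem h1 h2
      have e : a * b * m * (a * b)⁻¹ * m⁻¹ =
          a * (b * m * b⁻¹) * a⁻¹ * (b * m * b⁻¹)⁻¹ * (b * m * b⁻¹ * m⁻¹) := by group
      show a * b * m * (a * b)⁻¹ * m⁻¹ ∈ N
      rw [e]; exact h3
    · intro m hm
      show 1 * m * 1⁻¹ * m⁻¹ ∈ N
      have e : 1 * m * 1⁻¹ * m⁻¹ = 1 := by group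
      rw [e]; exact N.one_mem
    · intro a ha m hm
      have hm' : a⁻¹ * m * a ∈ M := by
        have := hM.conj_mem m hm a⁻¹
        simpa using this
      have h1 := ha (a⁻¹ * m * a) hm'
      have h2 := N.inv_mem h1
      have e : a⁻¹ * m * a⁻¹⁻¹ * m⁻¹ =
          (a * (a⁻¹ * m * a) * a⁻¹ * (a⁻¹ * m * a)⁻¹)⁻¹ := by group
      show a⁻¹ * m * a⁻¹⁻¹ * m⁻¹ ∈ N
      rw [e]; exact h2
  have hHn : H.Normal := by
    constructor
    intro h hh g
    rw [hHmem] at hh ⊢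
    intro m hm
    have hm' : g⁻¹ * m * g ∈ M := by
      have := hM.conj_mem m hm g⁻¹
      simpa using this
    have h1 := hN.conj_mem _ (hh _ hm') g
    have e : g * h * g⁻¹ * m * (g * h * g⁻¹)⁻¹ * m⁻¹ =
        g * (h * (g⁻¹ * m * g) * h⁻¹ * (g⁻¹ * m * g)⁻¹) * g⁻¹ := by group
    rw [e]; exact h1
  have hPH : (P : Subgroup G) ≤ H := fun u hu => (hHmem u).mpr (hPM u hu)
  have : IsMulCommutative ↥M := ⟨⟨fun a b => Subtype.ext (hMc a a.2 b b.2)⟩⟩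
  have : M.Normal := hM
  obtain ⟨K, hK⟩ : ∃ K : Subgroup ↥H, K = (P : Subgroup G).subgroupOf H := ⟨_, rfl⟩
  obtain ⟨φ, hφ⟩ : ∃ φ : (↥H ⧸ K) → ↥M, ∀ g : ↥H,
      ((φ (QuotientGroup.mk g) : ↥M) : G) = (g : G) * w * (g : G)⁻¹ := by
    refine ⟨fun q => ⟨(q.out : G) * w * (q.out : G)⁻¹, hM.conj_mem w hwM _⟩, ?_⟩
    intro g
    obtain ⟨u, hu⟩ := QuotientGroup.mk_out_eq_mul K g
    have hu' : ((u : ↥H) : G) ∈ (P : Subgroup G) := by
      have h0 : (u : ↥H) ∈ (P : Subgroup G).subgroupOf H := by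
        rw [← hK]; exact u.2
      exact Subgroup.mem_subgroupOf.mp h0
    have hc := hwP _ hu'
    show ((QuotientGroup.mk g : ↥H ⧸ K).out : G) * w *
      ((QuotientGroup.mk g : ↥H ⧸ K).out : G)⁻¹ = (g : G) * w * (g : G)⁻¹
    rw [hu, Subgroup.coe_mul, mul_inv_rev]
    calc (g : G) * ((u : ↥H) : G) * w * (((u : ↥H) : G)⁻¹ * (g : G)⁻¹)
        = (g : G) * (((u : ↥H) : G) * w) * ((u : ↥H) : G)⁻¹ * (g : G)⁻¹ := by group
      _ = (g : G) * (w * ((u : ↥H) : G)) * ((u : ↥H) : G)⁻¹ * (g : G)⁻¹ := by rw [hc]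
      _ = (g : G) * w * (g : G)⁻¹ := by group
  have hφN : ∀ q : ↥H ⧸ K,
      (QuotientGroup.mk ((φ q : ↥M) : G) : G ⧸ N) = QuotientGroup.mk w := by
    intro q
    obtain ⟨g, rfl⟩ := QuotientGroup.mk_surjective q
    rw [hφ, QuotientGroup.eq]
    have h1 := (hHmem g).mp g.2 w hwM
    have h2 := N.inv_mem h1
    have h3 := hN.conj_mem _ h2 w⁻¹
    have e : ((g : G) * w * (g : G)⁻¹)⁻¹ * w =
        w⁻¹ * ((g : G) * w * (g : G)⁻¹ * w⁻¹)⁻¹ * w⁻¹⁻¹ := by group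
    rw [e]; exact h3
  have hprod : ∀ s : Finset (↥H ⧸ K),
      (QuotientGroup.mk (((∏ q ∈ s, φ q : ↥M)) : G) : G ⧸ N) =
        (QuotientGroup.mk w : G ⧸ N) ^ s.card := by
    intro s
    induction s using Finset.induction_on with
    | empty => simp
    | insert a s ha ih =>
      rw [Finset.prod_insert ha, Subgroup.coe_mul, QuotientGroup.mk_mul, ih, hφN,
        Finset.card_insert_of_notMem ha, pow_succ']
  haveI : Fintype (↥H ⧸ K) := Fintype.ofFinite _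
  refine ⟨((∏ q : ↥H ⧸ K, φ q : ↥M) : G), (∏ q : ↥H ⧸ K, φ q : ↥M).2, ?_, H, hHn, hPH, ?_⟩
  · intro hcN
    have h1 : (QuotientGroup.mk w : G ⧸ N) ^ (Finset.univ : Finset (↥H ⧸ K)).card = 1 := by
      rw [← hprod]
      exact (QuotientGroup.eq_one_iff _).mpr hcN
    have hcard : (Finset.univ : Finset (↥H ⧸ K)).card = (P : Subgroup G).relIndex H := by
      rw [Finset.card_univ, ← Nat.card_eq_fintype_card, ← Subgroup.index_eq_card, hK]
      rfl
    have hdvd : (P : Subgroup G).relIndex H ∣ (P : Subgroup G).index :=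
      ⟨H.index, (Subgroup.relIndex_mul_index hPH).symm⟩
    have hnp : ¬ p ∣ (P : Subgroup G).relIndex H := fun h => P.not_dvd_index (h.trans hdvd)
    obtain ⟨j, hj⟩ := hMp ⟨w, hwM⟩
    have hj' : w ^ p ^ j = 1 := by
      have := congrArg (fun x : ↥M => (x : G)) hj
      simpa using this
    have h2 : (QuotientGroup.mk w : G ⧸ N) ^ p ^ j = 1 := by
      rw [← QuotientGroup.mk_pow, hj', QuotientGroup.mk_one]
    have h3 : orderOf (QuotientGroup.mk w : G ⧸ N) ∣ Nat.gcd ((P : Subgroup G).relIndex H) (p ^ j) :=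
      Nat.dvd_gcd (by rw [← hcard]; exact orderOf_dvd_of_pow_eq_one h1)
        (orderOf_dvd_of_pow_eq_one h2)
    have hcop : Nat.Coprime ((P : Subgroup G).relIndex H) (p ^ j) :=
      Nat.Coprime.pow_right j ((Nat.Prime.coprime_iff_not_dvd hp).mpr hnp).symm
    rw [hcop, Nat.dvd_one, orderOf_eq_one_iff, QuotientGroup.eq_one_iff] at h3
    exact hwN h3
  · intro h hh
    have hcomp : ∀ q : ↥H ⧸ K, (MulAut.conjNormal h : MulAut ↥M) (φ q) =
        φ ((⟨h, hh⟩ : ↥H) • q) := by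
      intro q
      obtain ⟨g, rfl⟩ := QuotientGroup.mk_surjective q
      apply Subtype.ext
      rw [MulAut.conjNormal_apply, hφ]
      have e : ((⟨h, hh⟩ : ↥H) • (QuotientGroup.mk g : ↥H ⧸ K)) =
          QuotientGroup.mk ((⟨h, hh⟩ : ↥H) * g) := rfl
      rw [e, hφ, Subgroup.coe_mul]
      show h * ((g : G) * w * (g : G)⁻¹) * h⁻¹ = h * (g : G) * w * (h * (g : G))⁻¹
      group
    have h1 : (MulAut.conjNormal h : MulAut ↥M) (∏ q : ↥H ⧸ K, φ q) = ∏ q : ↥H ⧸ K, φ q := by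
      rw [map_prod]
      simp only [hcomp]
      exact Function.Bijective.prod_comp (MulAction.bijective (⟨h, hh⟩ : ↥H)) φ
    have h2 := congrArg (fun x : ↥M => (x : G)) h1
    simp only [MulAut.conjNormal_apply] at h2
    calc h * ((∏ q : ↥H ⧸ K, φ q : ↥M) : G)
        = h * ((∏ q : ↥H ⧸ K, φ q : ↥M) : G) * h⁻¹ * h := by group
      _ = ((∏ q : ↥H ⧸ K, φ q : ↥M) : G) * h := by rw [h2]

end Cfsg.Agent.Helper28.S4172i
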