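import Mathlib

set_option autoImplicit false
set_option linter.unusedSectionVars false

namespace Cfsg.Agent.Helper28.SylG3

open Equiv

variable (p : ℕ) [Fact p.Prime] (m : ℕ)

/-- base: translate the second coordinate by `f j`. -/
def bP (f : Fin m → ZMod p) : Perm (Fin m × ZMod p) where
  toFun x := (x.1, x.2 + f x.1)
  invFun x := (x.1, x.2 - f x.1)
  left_inv x := by simp
  right_inv x := by simp

/-- top: permute the first coordinate. -/
def tP (σ : Perm (Fin m)) : Perm (Fin m × ZMod p) where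
  toFun x := (σ x.1, x.2)
  invFun x := (σ.symm x.1, x.2)
  left_inv x := by simp
  right_inv x := by simp

@[simp] theorem bP_apply (f : Fin m → ZMod p) (x : Fin m × ZMod p) :
    bP p m f x = (x.1, x.2 + f x.1) := rfl

@[simp] theorem tP_apply (σ : Perm (Fin m)) (x : Fin m × ZMod p) :
    tP p m σ x = (σ x.1, x.2) := rfl

theorem bP_add (f g : Fin m → ZMod p) : bP p m (f + g) = bP p m f * bP p m g := by
  ext x <;> simp [Perm.mul_apply]
  ring

theorem bP_zero : bP p m 0 = 1 := by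
  ext x <;> simp

theorem tP_mul (σ π : Perm (Fin m)) : tP p m (σ * π) = tP p m σ * tP p m π := by
  ext x <;> simp [Perm.mul_apply]

theorem tP_one : tP p m 1 = 1 := by
  ext x <;> simp

theorem tP_bP (σ : Perm (Fin m)) (f : Fin m → ZMod p) :
    tP p m σ * bP p m f = bP p m (fun j => f (σ.symm j)) * tP p m σ := by
  ext x <;> simp [Perm.mul_apply]

theorem bP_pow (f : Fin m → ZMod p) (k : ℕ) : bP p m f ^ k = bP p m (k • f) := by
  induction k with
  | zero => simp [bP_zero]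
  | succ k ih => rw [pow_succ, ih, ← bP_add, succ_nsmul]

theorem bP_pow_p (f : Fin m → ZMod p) : bP p m f ^ p = 1 := by
  rw [bP_pow]
  have : p • f = 0 := by
    ext j
    simp
  rw [this, bP_zero]

theorem tP_pow (σ : Perm (Fin m)) (k : ℕ) : tP p m σ ^ k = tP p m (σ ^ k) := by
  induction k with
  | zero => simp [tP_one]
  | succ k ih => rw [pow_succ, ih, ← tP_mul, pow_succ]

theorem tP_sign (σ : Perm (Fin m)) : Perm.sign (tP p m σ) = Perm.sign σ ^ p := by
  have h : tP p m σ = Equiv.prodCongrLeft (fun _ : ZMod p => σ) := by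
    ext x <;> simp [Equiv.prodCongrLeft]
  rw [h, Perm.sign_prodCongrLeft]
  simp [Finset.prod_const, Finset.card_univ, ZMod.card]

/-- the group `C_p^m ⋊ R`. -/
def KK (R : Subgroup (Perm (Fin m))) : Subgroup (Perm (Fin m × ZMod p)) where
  carrier := {x | ∃ f : Fin m → ZMod p, ∃ σ ∈ R, x = bP p m f * tP p m σ}
  one_mem' := ⟨0, 1, R.one_mem, by rw [bP_zero, tP_one, one_mul]⟩
  mul_mem' := by
    rintro _ _ ⟨f, σ, hσ, rfl⟩ ⟨g, π, hπ, rfl⟩
    refine ⟨f + fun j => g (σ.symm j), σ * π, R.mul_mem hσ hπ, ?_⟩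
    rw [bP_add, tP_mul, mul_assoc, ← mul_assoc (tP p m σ), tP_bP, mul_assoc, mul_assoc]
  inv_mem' := by
    rintro _ ⟨f, σ, hσ, rfl⟩
    refine ⟨fun j => (-f) (σ j), σ⁻¹, R.inv_mem hσ, ?_⟩
    have h1 := tP_bP p m σ⁻¹ (-f)
    have h2 : (fun j => (-f) ((σ⁻¹ : Perm (Fin m)).symm j)) = fun j => (-f) (σ j) := by
      ext j; rfl
    rw [h2] at h1
    have e1 : (tP p m σ)⁻¹ = tP p m σ⁻¹ := by
      rw [inv_eq_iff_mul_eq_one, ← tP_mul, mul_inv_cancel, tP_one]
    have e2 : (bP p m f)⁻¹ = bP p m (-f) := by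
      rw [inv_eq_iff_mul_eq_one, ← bP_add, add_neg_cancel, bP_zero]
    rw [← h1, mul_inv_rev, e1, e2]

theorem mem_KK (R : Subgroup (Perm (Fin m))) (x : Perm (Fin m × ZMod p)) :
    x ∈ KK p m R ↔ ∃ f : Fin m → ZMod p, ∃ σ ∈ R, x = bP p m f * tP p m σ := Iff.rfl

theorem card_KK (R : Subgroup (Perm (Fin m))) : Nat.card (KK p m R) = p ^ m * Nat.card R := by
  have e : ((Fin m → ZMod p) × ↥R) ≃ ↥(KK p m R) := by
    refine Equiv.ofBijective
      (fun a => ⟨bP p m a.1 * tP p m (a.2 : Perm (Fin m)), a.1, a.2, a.2.2, rfl⟩) ⟨?_, ?_⟩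
    · rintro ⟨f, σ⟩ ⟨g, π⟩ h
      have h' : bP p m f * tP p m (σ : Perm (Fin m)) = bP p m g * tP p m (π : Perm (Fin m)) :=
        congrArg Subtype.val h
      have key : ∀ j : Fin m, ((σ : Perm (Fin m)) j, f ((σ : Perm (Fin m)) j)) =
          ((π : Perm (Fin m)) j, g ((π : Perm (Fin m)) j)) := by
        intro j
        have := congrArg (fun e : Perm (Fin m × ZMod p) => e (j, 0)) h'
        simpa [Perm.mul_apply] using this
      have hσ : (σ : Perm (Fin m)) = π := by
        ext j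
        exact congrArg Fin.val (congrArg Prod.fst (key j))
      have hf : f = g := by
        ext j
        have := congrArg Prod.snd (key ((σ : Perm (Fin m)).symm j))
        simp only [Equiv.apply_symm_apply] at this
        rw [this, hσ]
        simp [← hσ]
      exact Prod.ext hf (Subtype.ext hσ)
    · rintro ⟨x, f, σ, hσ, rfl⟩
      exact ⟨(f, ⟨σ, hσ⟩), rfl⟩
  rw [← Nat.card_congr e, Nat.card_prod, Nat.card_fun, Nat.card_zmod, Nat.card_fin]

theorem bP_mem (R : Subgroup (Perm (Fin m))) (f : Fin m → ZMod p) : bP p m f ∈ KK p m R :=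
  ⟨f, 1, R.one_mem, by rw [tP_one, mul_one]⟩

theorem tP_mem (R : Subgroup (Perm (Fin m))) (σ : Perm (Fin m)) (hσ : σ ∈ R) :
    tP p m σ ∈ KK p m R :=
  ⟨0, σ, hσ, by rw [bP_zero, one_mul]⟩

/-- `Y3`. -/
theorem wreath_step (R : Subgroup (Equiv.Perm (Fin m)))
    (hR : R ≤ Subgroup.closure {x | x ∈ R ∧ x ^ p = 1}) :
    ∃ K : Subgroup (Equiv.Perm (Fin m × ZMod p)), Nat.card K = p ^ m * Nat.card R ∧
      K ≤ Subgroup.closure {x | x ∈ K ∧ x ^ p = 1} ∧
      (p = 2 → K ⊓ alternatingGroup (Fin m × ZMod p) ≤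
        Subgroup.closure {x | x ∈ K ⊓ alternatingGroup (Fin m × ZMod p) ∧ x ^ p = 1}) := by
  refine ⟨KK p m R, card_KK p m R, ?_, ?_⟩
  · rintro x ⟨f, σ, hσ, rfl⟩
    apply Subgroup.mul_mem
    · exact Subgroup.subset_closure ⟨bP_mem p m R f, bP_pow_p p m f⟩
    · have hle : R ≤ (Subgroup.closure {x | x ∈ KK p m R ∧ x ^ p = 1}).comap
          (MonoidHom.mk' (tP p m) (tP_mul p m)) := by
        refine hR.trans ((Subgroup.closure_le _).mpr ?_)
        rintro s ⟨hs, hsp⟩
        apply Subgroup.subset_closure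
        refine ⟨tP_mem p m R s hs, ?_⟩
        show tP p m s ^ p = 1
        rw [tP_pow, hsp, tP_one]
      exact hle hσ
  · intro hp2
    rintro x ⟨⟨f, σ, hσ, rfl⟩, hxA⟩
    have htA : ∀ s : Perm (Fin m), tP p m s ∈ alternatingGroup (Fin m × ZMod p) := by
      intro s
      rw [Equiv.Perm.mem_alternatingGroup, tP_sign]
      subst hp2
      exact Int.units_sq _
    have hbA : bP p m f ∈ alternatingGroup (Fin m × ZMod p) := by
      have h1 := Subgroup.mul_mem _ hxA (Subgroup.inv_mem _ (htA σ))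
      rwa [mul_inv_cancel_right] at h1
    apply Subgroup.mul_mem
    · exact Subgroup.subset_closure ⟨⟨bP_mem p m R f, hbA⟩, bP_pow_p p m f⟩
    · have hle : R ≤ (Subgroup.closure
          {x | x ∈ KK p m R ⊓ alternatingGroup (Fin m × ZMod p) ∧ x ^ p = 1}).comap
          (MonoidHom.mk' (tP p m) (tP_mul p m)) := by
        refine hR.trans ((Subgroup.closure_le _).mpr ?_)
        rintro s ⟨hs, hsp⟩
        apply Subgroup.subset_closure
        refine ⟨⟨tP_mem p m R s hs, htA s⟩, ?_⟩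
        show tP p m s ^ p = 1
        rw [tP_pow, hsp, tP_one]
      exact hle hσ

end Cfsg.Agent.Helper28.SylG3
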