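import Mathlib

set_option autoImplicit false

namespace Cfsg.Agent.Helper28.SylG4

open Equiv

/-- `Y4`. -/
theorem embed_step (p : ℕ) [Fact p.Prime] (m r n : ℕ) (hn : n = p * m + r)
    (K : Subgroup (Equiv.Perm (Fin m × ZMod p))) :
    ∃ H : Subgroup (Equiv.Perm (Fin n)), Nat.card H = Nat.card K ∧
      (K ≤ Subgroup.closure {x | x ∈ K ∧ x ^ p = 1} →
        H ≤ Subgroup.closure {x | x ∈ H ∧ x ^ p = 1}) ∧
      (K ⊓ alternatingGroup (Fin m × ZMod p) ≤
          Subgroup.closure {x | x ∈ K ⊓ alternatingGroup (Fin m × ZMod p) ∧ x ^ p = 1} →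
        H ⊓ alternatingGroup (Fin n) ≤
          Subgroup.closure {x | x ∈ H ⊓ alternatingGroup (Fin n) ∧ x ^ p = 1}) := by
  classical
  have hcard : Fintype.card ((Fin m × ZMod p) ⊕ Fin r) = n := by
    rw [Fintype.card_sum, Fintype.card_prod, Fintype.card_fin, Fintype.card_fin, ZMod.card, hn,
      mul_comm]
  obtain ⟨e⟩ : Nonempty (((Fin m × ZMod p) ⊕ Fin r) ≃ Fin n) := ⟨Fintype.equivFinOfCardEq hcard⟩
  obtain ⟨ι, hι⟩ : ∃ ι : Perm (Fin m × ZMod p) →* Perm (Fin n),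
      ∀ σ, ι σ = e.permCongr (Equiv.sumCongr σ (1 : Perm (Fin r))) := by
    refine ⟨e.permCongrHom.toMonoidHom.comp
      ((Equiv.Perm.sumCongrHom (Fin m × ZMod p) (Fin r)).comp (MonoidHom.inl _ _)), ?_⟩
    intro σ
    rfl
  have hinj : Function.Injective ι := by
    intro a b hab
    rw [hι, hι] at hab
    have h1 := e.permCongr.injective hab
    apply Equiv.ext
    intro x
    have h2 := congrArg (fun f : Perm ((Fin m × ZMod p) ⊕ Fin r) => f (Sum.inl x)) h1
    simpa using h2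
  have hsign : ∀ σ, Perm.sign (ι σ) = Perm.sign σ := by
    intro σ
    rw [hι, Perm.sign_permCongr, Perm.sign_sumCongr, Perm.sign_one, mul_one]
  refine ⟨K.map ι, ?_, ?_, ?_⟩
  · exact (Nat.card_congr (K.equivMapOfInjective ι hinj).toEquiv).symm
  · intro hK
    have h1 : K.map ι ≤ (Subgroup.closure {x | x ∈ K ∧ x ^ p = 1}).map ι := Subgroup.map_mono hK
    refine h1.trans ?_
    rw [MonoidHom.map_closure]
    apply Subgroup.closure_mono
    rintro _ ⟨x, ⟨hxK, hxp⟩, rfl⟩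
    exact ⟨Subgroup.mem_map_of_mem ι hxK, by rw [← map_pow, hxp, map_one]⟩
  · intro hK
    have h0 : K.map ι ⊓ alternatingGroup (Fin n) ≤
        (K ⊓ alternatingGroup (Fin m × ZMod p)).map ι := by
      rintro _ ⟨⟨x, hxK, rfl⟩, hxA⟩
      have hxA' : ι x ∈ alternatingGroup (Fin n) := hxA
      rw [Equiv.Perm.mem_alternatingGroup, hsign] at hxA'
      exact Subgroup.mem_map_of_mem ι ⟨hxK, Equiv.Perm.mem_alternatingGroup.mpr hxA'⟩
    refine h0.trans ((Subgroup.map_mono hK).trans ?_)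
    rw [MonoidHom.map_closure]
    apply Subgroup.closure_mono
    rintro _ ⟨x, ⟨⟨hxK, hxA⟩, hxp⟩, rfl⟩
    have hxA' : x ∈ alternatingGroup (Fin m × ZMod p) := hxA
    have hA2 : ι x ∈ alternatingGroup (Fin n) := by
      rw [Equiv.Perm.mem_alternatingGroup, hsign]
      exact Equiv.Perm.mem_alternatingGroup.mp hxA'
    exact ⟨⟨Subgroup.mem_map_of_mem ι hxK, hA2⟩, by rw [← map_pow, hxp, map_one]⟩

end Cfsg.Agent.Helper28.SylG4
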