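import Mathlib

set_option autoImplicit false

namespace Cfsg.Agent.Helper28.SylG5

/-- `Y5`. -/
theorem le_alt_of_odd (p : ℕ) [Fact p.Prime] (hp2 : p ≠ 2) {α : Type*} [Fintype α]
    [DecidableEq α] (K : Subgroup (Equiv.Perm α)) (hK : IsPGroup p K) :
    K ≤ alternatingGroup α := by
  have hp : p.Prime := Fact.out
  intro x hx
  rw [Equiv.Perm.mem_alternatingGroup]
  obtain ⟨k, hk⟩ := hK ⟨x, hx⟩
  have hk' : x ^ p ^ k = 1 := by
    have := congrArg (fun y : ↥K => (y : Equiv.Perm α)) hk
    simpa using this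
  have h1 : Equiv.Perm.sign x ^ p ^ k = 1 := by
    rw [← map_pow, hk', map_one]
  have hodd : Odd (p ^ k) := (hp.odd_of_ne_two hp2).pow
  rcases Int.units_eq_one_or (Equiv.Perm.sign x) with h | h
  · exact h
  · rw [h, Odd.neg_one_pow hodd] at h1
    exact absurd h1 (by decide)

/-- `Y6`. -/
theorem val_step (p : ℕ) [Fact p.Prime] (m r : ℕ) (hr : r < p) :
    padicValNat p (p * m + r).factorial = m + padicValNat p m.factorial := by
  rw [padicValNat_factorial_mul_add m hr, padicValNat_factorial_mul, add_comm]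

end Cfsg.Agent.Helper28.SylG5
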