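import Mathlib

set_option autoImplicit false

namespace Cfsg.Agent.Helper28.SylG7

/-- `Y1`. -/
theorem exp_of_gen {G : Type*} [Group G] (p : ℕ) (H : Subgroup G)
    (hgen : H ≤ Subgroup.closure {x | x ∈ H ∧ x ^ p = 1}) :
    ∀ x : ↥H, x ^ p ∈ commutator ↥H := by
  obtain ⟨T, hT⟩ : ∃ T : Subgroup ↥H, ∀ x : ↥H, x ∈ T ↔ x ^ p ∈ commutator ↥H := by
    refine ⟨((powMonoidHom p : Abelianization ↥H →* Abelianization ↥H).ker).comap
      Abelianization.of, ?_⟩
    intro x
    rw [Subgroup.mem_comap, MonoidHom.mem_ker, powMonoidHom_apply, ← map_pow,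
      ← MonoidHom.mem_ker, Abelianization.ker_of]
  have h1 : Subgroup.closure {x | x ∈ H ∧ x ^ p = 1} ≤ T.map H.subtype := by
    rw [Subgroup.closure_le]
    rintro g ⟨hg, hgp⟩
    refine ⟨⟨g, hg⟩, ?_, rfl⟩
    rw [SetLike.mem_coe, hT]
    have : (⟨g, hg⟩ : ↥H) ^ p = 1 := Subtype.ext (by simpa using hgp)
    rw [this]
    exact Subgroup.one_mem _
  intro x
  obtain ⟨t, ht, hxt⟩ := h1 (hgen x.2)
  have : t = x := Subtype.ext hxt
  rw [← hT, ← this]
  exact ht

/-- `Y2`. -/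
theorem exp_of_equiv {H K : Type*} [Group H] [Group K] (p : ℕ) (e : H ≃* K)
    (h : ∀ x : H, x ^ p ∈ commutator H) : ∀ y : K, y ^ p ∈ commutator K := by
  intro y
  have h1 := h (e.symm y)
  have h2 : e ((e.symm y) ^ p) ∈ (commutator H).map e.toMonoidHom :=
    Subgroup.mem_map_of_mem _ h1
  rw [map_pow, MulEquiv.apply_symm_apply, commutator_def, Subgroup.map_commutator] at h2
  rw [commutator_def]
  exact Subgroup.commutator_mono le_top le_top h2

/-- `Y7`. -/
theorem sym_part (p : ℕ) [Fact p.Prime] (n : ℕ) (H : Subgroup (Equiv.Perm (Fin n)))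
    (hcard : Nat.card H = p ^ padicValNat p n.factorial)
    (hgen : H ≤ Subgroup.closure {x | x ∈ H ∧ x ^ p = 1})
    (P : Sylow p (Equiv.Perm (Fin n))) :
    ∀ x : (P : Subgroup (Equiv.Perm (Fin n))),
      x ^ p ∈ commutator (P : Subgroup (Equiv.Perm (Fin n))) := by
  have hp : p.Prime := Fact.out
  have hH : Nat.card H = p ^ (Nat.card (Equiv.Perm (Fin n))).factorization p := by
    rw [hcard, Nat.card_perm, Nat.card_fin, Nat.factorization_def _ hp]
  exact exp_of_equiv p (P.equiv (Sylow.ofCard H hH)).symm (exp_of_gen p H hgen)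

end Cfsg.Agent.Helper28.SylG7
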