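import Mathlib
import Cfsg.Agent.Helper28.SylG7

set_option autoImplicit false

namespace Cfsg.Agent.Helper28.SylG8

open Cfsg.Agent.Helper28.SylG7

/-- `Y8`. -/
theorem alt_part (p : ℕ) [Fact p.Prime] (n : ℕ) (H : Subgroup (Equiv.Perm (Fin n)))
    (hcard : Nat.card H = p ^ padicValNat p n.factorial)
    (hgen : H ⊓ alternatingGroup (Fin n) ≤
      Subgroup.closure {x | x ∈ H ⊓ alternatingGroup (Fin n) ∧ x ^ p = 1})
    (Q : Sylow p (alternatingGroup (Fin n))) :
    ∀ x : (Q : Subgroup (alternatingGroup (Fin n))),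
      x ^ p ∈ commutator (Q : Subgroup (alternatingGroup (Fin n))) := by
  have hp : p.Prime := Fact.out
  have hH : Nat.card H = p ^ (Nat.card (Equiv.Perm (Fin n))).factorization p := by
    rw [hcard, Nat.card_perm, Nat.card_fin, Nat.factorization_def _ hp]
  -- a Sylow subgroup of `S_n` containing the image of `Q`
  have hQ' : IsPGroup p ((Q : Subgroup (alternatingGroup (Fin n))).map
      (alternatingGroup (Fin n)).subtype) := Q.isPGroup'.map _
  obtain ⟨P, hP⟩ := hQ'.exists_le_sylow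
  obtain ⟨g, hg⟩ := MulAction.exists_smul_eq (Equiv.Perm (Fin n)) (Sylow.ofCard H hH) P
  have hPH : ∀ x : Equiv.Perm (Fin n), x ∈ (P : Subgroup (Equiv.Perm (Fin n))) →
      g⁻¹ * x * g ∈ H := by
    intro x hx
    rw [← hg, Sylow.coe_subgroup_smul, Sylow.coe_ofCard,
      Subgroup.mem_pointwise_smul_iff_inv_smul_mem] at hx
    simpa [MulAut.smul_def, mul_assoc] using hx
  have hAn : ∀ (x : Equiv.Perm (Fin n)) (h : Equiv.Perm (Fin n)),
      x ∈ alternatingGroup (Fin n) → h * x * h⁻¹ ∈ alternatingGroup (Fin n) := by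
    intro x h hx
    exact (inferInstance : (alternatingGroup (Fin n)).Normal).conj_mem x hx h
  -- the embedding of `H ⊓ A_n` into `A_n` by conjugation with `g`
  obtain ⟨ψ, hψ⟩ : ∃ ψ : ↥(H ⊓ alternatingGroup (Fin n)) →* ↥(alternatingGroup (Fin n)),
      ∀ x, ((ψ x : ↥(alternatingGroup (Fin n))) : Equiv.Perm (Fin n)) =
        g * (x : Equiv.Perm (Fin n)) * g⁻¹ := by
    refine ⟨{ toFun := fun x => ⟨g * (x : Equiv.Perm (Fin n)) * g⁻¹, hAn _ g x.2.2⟩
              map_one' := ?_
              map_mul' := ?_ }, fun x => rfl⟩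
    · apply Subtype.ext
      simp
    · intro a b
      apply Subtype.ext
      simp [mul_assoc]
  have hψinj : Function.Injective ψ := by
    intro a b hab
    have h1 := congrArg (fun y : ↥(alternatingGroup (Fin n)) => (y : Equiv.Perm (Fin n))) hab
    simp only [hψ] at h1
    apply Subtype.ext
    have h2 := mul_right_cancel (mul_left_cancel h1)
    exact h2
  have hHp : IsPGroup p ↥(H ⊓ alternatingGroup (Fin n)) :=
    (IsPGroup.of_card hcard).to_le inf_le_left
  have hrange : IsPGroup p ψ.range := hHp.of_equiv (MonoidHom.ofInjective hψinj)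
  have hQle : (Q : Subgroup (alternatingGroup (Fin n))) ≤ ψ.range := by
    intro q hq
    have hq' : (q : Equiv.Perm (Fin n)) ∈ (P : Subgroup (Equiv.Perm (Fin n))) :=
      hP ⟨q, hq, rfl⟩
    have h1 := hPH _ hq'
    have h2 : g⁻¹ * (q : Equiv.Perm (Fin n)) * g ∈ alternatingGroup (Fin n) := by
      have := hAn _ g⁻¹ q.2
      simpa using this
    refine ⟨⟨g⁻¹ * (q : Equiv.Perm (Fin n)) * g, h1, h2⟩, ?_⟩
    apply Subtype.ext
    rw [hψ]
    simp [mul_assoc]
  have hQeq : ψ.range = (Q : Subgroup (alternatingGroup (Fin n))) := Q.is_maximal' hrange hQle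
  have e : ↥(H ⊓ alternatingGroup (Fin n)) ≃* ↥(Q : Subgroup (alternatingGroup (Fin n))) :=
    (MonoidHom.ofInjective hψinj).trans (MulEquiv.subgroupCongr hQeq)
  exact exp_of_equiv p e (exp_of_gen p (H ⊓ alternatingGroup (Fin n)) hgen)

end Cfsg.Agent.Helper28.SylG8
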