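import Mathlib
import Cfsg.Agent.Helper28.SylQa

set_option autoImplicit false

namespace Cfsg.Agent.Helper28
namespace Golay
namespace SylQ

/-! ### The quotient of a Sylow 2-subgroup of the group of the code by its centre: checks -/

set_option maxRecDepth 100000 in
theorem rows_0 : (List.range' 0 64).all rowOK = true := by decide +kernel

set_option maxRecDepth 100000 in
theorem rows_1 : (List.range' 64 64).all rowOK = true := by decide +kernel

set_option maxRecDepth 100000 in
theorem rows_2 : (List.range' 128 64).all rowOK = true := by decide +kernel

set_option maxRecDepth 100000 in
theorem rows_3 : (List.range' 192 64).all rowOK = true := by decide +kernel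

end SylQ
end Golay
end Cfsg.Agent.Helper28
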