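import Mathlib
import Cfsg.Agent.Helper28.SylQa

set_option autoImplicit false

namespace Cfsg.Agent.Helper28
namespace Golay
namespace SylQ

/-! ### The quotient of a Sylow 2-subgroup of the group of the code by its centre: checks -/

set_option maxRecDepth 100000 in
theorem rows_4 : (List.range' 256 64).all rowOK = true := by decide +kernel

set_option maxRecDepth 100000 in
theorem rows_5 : (List.range' 320 64).all rowOK = true := by decide +kernel

set_option maxRecDepth 100000 in
theorem rows_6 : (List.range' 384 64).all rowOK = true := by decide +kernel

set_option maxRecDepth 100000 in
theorem rows_7 : (List.range' 448 64).all rowOK = true := by decide +kernel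

set_option maxRecDepth 100000 in
theorem CMsym_0 : ((List.range' 0 256).all fun i => forceNat (cm i) fun mi =>
    (List.range 512).all fun j => !(Bool.xor (mi.testBit j) ((cm j).testBit i))) = true := by
  decide +kernel

set_option maxRecDepth 100000 in
theorem CMsym_1 : ((List.range' 256 256).all fun i => forceNat (cm i) fun mi =>
    (List.range 512).all fun j => !(Bool.xor (mi.testBit j) ((cm j).testBit i))) = true := by
  decide +kernel

set_option maxRecDepth 100000 in
theorem G1 : ((List.range 512).all fun i => SylN.contains (rn i)) = true := by
  decide +kernel

end SylQ
end Golay
end Cfsg.Agent.Helper28
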