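import Mathlib
import Cfsg.Agent.Helper28.SylQb1
import Cfsg.Agent.Helper28.SylQb2

set_option autoImplicit false

namespace Cfsg.Agent.Helper28
namespace Golay
namespace SylQ

/-! ### The quotient of a Sylow 2-subgroup of the group of the code by its centre: checks -/

theorem rows_all {i : Nat} (hi : i < 512) : rowOK i = true := by
  have h : i ∈ List.range' 0 64 ++ List.range' 64 64 ++ List.range' 128 64 ++ List.range' 192 64 ++
      List.range' 256 64 ++ List.range' 320 64 ++ List.range' 384 64 ++ List.range' 448 64 := by
    simp only [List.mem_append, List.mem_range'_1]
    omega
  simp only [List.mem_append] at h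
  rcases h with ((((((h | h) | h) | h) | h) | h) | h) | h
  · exact List.all_eq_true.1 rows_0 i h
  · exact List.all_eq_true.1 rows_1 i h
  · exact List.all_eq_true.1 rows_2 i h
  · exact List.all_eq_true.1 rows_3 i h
  · exact List.all_eq_true.1 rows_4 i h
  · exact List.all_eq_true.1 rows_5 i h
  · exact List.all_eq_true.1 rows_6 i h
  · exact List.all_eq_true.1 rows_7 i h

set_option maxRecDepth 100000 in
theorem CMlt : ((List.range 512).all fun x => decide (cm x < 2 ^ 512)) = true := by
  decide +kernel

set_option maxRecDepth 100000 in
theorem F1 : ((List.range 512).filter (fun i => A0m.testBit i)).length = 64 := by decide +kernel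

set_option maxRecDepth 100000 in
theorem F2a : ((List.range 512).all fun x => !A0m.testBit x || forceNat (cm x) fun mx =>
    (List.range 512).all fun y => !A0m.testBit y || mx.testBit y) = true := by
  decide +kernel

set_option maxRecDepth 100000 in
theorem F2b : ((List.range 512).all fun y => A0m.testBit y ||
    !((List.range 512).all fun x => !A0m.testBit x || (cm x).testBit y)) = true := by
  decide +kernel

set_option maxRecDepth 100000 in
theorem F3_0 : ((List.range' 0 128).all fun x => A0m.testBit x || forceNat (cm x) fun mx =>
    decide (((List.range 512).filter (fun y => mx.testBit y && forceNat (cm y) fun my =>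
      forceNat (mx &&& my) fun mz => decide (64 ≤ pop mz))).length < 64)) = true := by
  decide +kernel

set_option maxRecDepth 100000 in
theorem F3_1 : ((List.range' 128 128).all fun x => A0m.testBit x || forceNat (cm x) fun mx =>
    decide (((List.range 512).filter (fun y => mx.testBit y && forceNat (cm y) fun my =>
      forceNat (mx &&& my) fun mz => decide (64 ≤ pop mz))).length < 64)) = true := by
  decide +kernel

set_option maxRecDepth 100000 in
theorem F3_2 : ((List.range' 256 128).all fun x => A0m.testBit x || forceNat (cm x) fun mx =>
    decide (((List.range 512).filter (fun y => mx.testBit y && forceNat (cm y) fun my =>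
      forceNat (mx &&& my) fun mz => decide (64 ≤ pop mz))).length < 64)) = true := by
  decide +kernel

set_option maxRecDepth 100000 in
theorem F3_3 : ((List.range' 384 128).all fun x => A0m.testBit x || forceNat (cm x) fun mx =>
    decide (((List.range 512).filter (fun y => mx.testBit y && forceNat (cm y) fun my =>
      forceNat (mx &&& my) fun mz => decide (64 ≤ pop mz))).length < 64)) = true := by
  decide +kernel

set_option maxRecDepth 100000 in
theorem F4 : ((List.range 512).filter (fun y => forceNat (cm y) fun my =>
    decide (pop my = 512))).length ≤ 8 := by
  decide +kernel

set_option maxRecDepth 100000 in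
theorem F5 : ((List.range 512).all fun x => forceNat (cm x) fun mx =>
    !(decide (256 ≤ pop mx) && decide (pop mx < 512)) ||
      decide (((List.range 512).filter (fun y => decide (mx &&& cm y = mx))).length ≤ 8)) =
    true := by
  decide +kernel

set_option maxRecDepth 100000 in
theorem S0 : eqLL (SylN.map decD) SylL = true := by decide +kernel

set_option maxRecDepth 100000 in
theorem G2 : SylN.contains zQ = true := by decide +kernel

set_option maxRecDepth 100000 in
theorem G3 : (gensN.all fun g => SylN.contains g) = true := by decide +kernel

set_option maxRecDepth 100000 in
theorem G4 : (SylN.all fun a => Nat.beq (compD a zQ) (compD zQ a)) = true := by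
  decide +kernel

set_option maxRecDepth 100000 in
theorem G5 : (SylN.all fun a => !(gensN.all fun g => Nat.beq (compD a g) (compD g a)) ||
    (Nat.beq a idN || Nat.beq a zQ)) = true := by
  decide +kernel

set_option maxRecDepth 100000 in
theorem G6 : Nat.beq zQ idN = false := by decide +kernel

set_option maxRecDepth 100000 in
theorem G6' : Nat.beq (compD zQ zQ) idN = true := by decide +kernel

set_option maxRecDepth 100000 in
theorem G7a : eqNats ((List.range 512).map (fun i => key1 (rn i)) ++
    (List.range 512).map (fun i => key2 (rn i))) KN = true := by decide +kernel

set_option maxRecDepth 100000 in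
theorem G7b : nodupN KN = true := by decide +kernel

set_option maxRecDepth 100000 in
theorem G8 : ((List.range 512).all fun i => !A0m.testBit i || forceNat (rn i) sqB) = true := by
  decide +kernel

end SylQ
end Golay
end Cfsg.Agent.Helper28
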