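import Mathlib
import Cfsg.Prelude.Def_Transfer
import Cfsg.Agent.Helper28.SylQb

set_option autoImplicit false

namespace Cfsg.Agent.Helper28
namespace Golay
namespace SylQ

/-! ### A group of order 512 with the commutation table of the quotient -/

theorem cm_lt {x : Nat} (hx : x < 512) : cm x < 2 ^ 512 :=
  of_decide_eq_true (List.all_eq_true.1 CMlt x (List.mem_range.2 hx))

theorem F2a' {x : Nat} (hx : x < 512) (h : A0m.testBit x = true) {y : Nat} (hy : y < 512)
    (h' : A0m.testBit y = true) : (cm x).testBit y = true := by
  have h2 := List.all_eq_true.1 F2a x (List.mem_range.2 hx)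
  simp only [forceNat_eq] at h2
  rw [h, Bool.not_true, Bool.false_or, List.all_eq_true] at h2
  have h3 := h2 y (List.mem_range.2 hy)
  rw [h', Bool.not_true, Bool.false_or] at h3
  exact h3

theorem F3' {x : Nat} (hx : x < 512) (h : A0m.testBit x = false) :
    ((List.range 512).filter (fun y => (cm x).testBit y &&
      decide (64 ≤ pop (cm x &&& cm y)))).length < 64 := by
  have hmem : x ∈ List.range' 0 128 ++ List.range' 128 128 ++ List.range' 256 128 ++
      List.range' 384 128 := by
    simp only [List.mem_append, List.mem_range'_1]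
    omega
  simp only [List.mem_append] at hmem
  have key : (A0m.testBit x || forceNat (cm x) fun mx =>
      decide (((List.range 512).filter (fun y => mx.testBit y && forceNat (cm y) fun my =>
        forceNat (mx &&& my) fun mz => decide (64 ≤ pop mz))).length < 64)) = true := by
    rcases hmem with ((h0 | h0) | h0) | h0
    · exact List.all_eq_true.1 F3_0 x h0
    · exact List.all_eq_true.1 F3_1 x h0
    · exact List.all_eq_true.1 F3_2 x h0
    · exact List.all_eq_true.1 F3_3 x h0
  simp only [forceNat_eq] at key
  rw [h, Bool.false_or, decide_eq_true_eq] at key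
  exact key

theorem F4' : ((List.range 512).filter (fun y => decide (pop (cm y) = 512))).length ≤ 8 := by
  have h := F4
  simp only [forceNat_eq] at h
  exact h

theorem F5' {x : Nat} (hx : x < 512) (h1 : 256 ≤ pop (cm x)) (h2 : pop (cm x) < 512) :
    ((List.range 512).filter (fun y => decide (cm x &&& cm y = cm x))).length ≤ 8 := by
  have h := List.all_eq_true.1 F5 x (List.mem_range.2 hx)
  simp only [forceNat_eq] at h
  rw [decide_eq_true h1, decide_eq_true h2, Bool.and_self, Bool.not_true, Bool.false_or,
    decide_eq_true_eq] at h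
  exact h

theorem cardL {α : Type*} (f : α → ℕ) (hf : Function.Injective f) (l : List ℕ)
    (h : ∀ a, f a ∈ l) : Nat.card α ≤ l.length := by
  have h1 : Nat.card α ≤ Nat.card ↥l.toFinset :=
    Nat.card_le_card_of_injective (fun a => (⟨f a, List.mem_toFinset.2 (h a)⟩ : ↥l.toFinset))
      (fun a b e => hf (congrArg Subtype.val e))
  have hc : Nat.card ↥l.toFinset = l.toFinset.card := by
    rw [Nat.card_eq_fintype_card, Fintype.card_coe]
  rw [hc] at h1
  exact h1.trans (List.toFinset_card_le l)

theorem pop_ge {α : Type*} (f : α → ℕ) (hf : Function.Injective f) (m : ℕ)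
    (h : ∀ a, f a < 512 ∧ m.testBit (f a) = true) : Nat.card α ≤ pop m :=
  cardL f hf _ (fun a => List.mem_filter.2 ⟨List.mem_range.2 (h a).1, (h a).2⟩)

theorem coatom_card {S : Type*} [Group S] (hcard : Nat.card S = 512) (M : Subgroup S)
    (hM : IsCoatom M) : Nat.card ↥M = 256 := by
  have : Fact (Nat.Prime 2) := ⟨Nat.prime_two⟩
  have : Finite S := Nat.finite_of_card_ne_zero (by rw [hcard]; norm_num)
  have hp : IsPGroup 2 S := IsPGroup.of_card (n := 9) (by rw [hcard]; norm_num)
  have : Group.IsNilpotent S := hp.isNilpotent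
  have hN : M.Normal :=
    Subgroup.NormalizerCondition.normal_of_coatom M Group.normalizerCondition_of_isNilpotent hM
  have hmul := Subgroup.card_eq_card_quotient_mul_card_subgroup M
  have hne1 : Nat.card (S ⧸ M) ≠ 1 := by
    intro h1
    have h2 : M.index = 1 := by
      rw [Subgroup.index_eq_card]
      exact h1
    exact hM.1 (Subgroup.index_eq_one.1 h2)
  have hdvd : Nat.card (S ⧸ M) ∣ 2 ^ 9 := ⟨Nat.card M, by rw [← hmul, hcard]; norm_num⟩
  obtain ⟨k, -, hk2⟩ := (Nat.dvd_prime_pow Nat.prime_two).1 hdvd
  have h2 : 2 ∣ Nat.card (S ⧸ M) := by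
    rw [hk2]
    cases k with
    | zero =>
      rw [pow_zero] at hk2
      exact absurd hk2 hne1
    | succ k => exact ⟨2 ^ k, by rw [pow_succ]; ring⟩
  obtain ⟨x, hx⟩ := exists_prime_orderOf_dvd_card' (G := S ⧸ M) 2 h2
  have hK : Nat.card ↥(Subgroup.zpowers x) = 2 := by rw [Nat.card_zpowers, hx]
  have hle : M ≤ (Subgroup.zpowers x).comap (QuotientGroup.mk' M) := by
    intro m hm
    rw [Subgroup.mem_comap]
    have h3 : (QuotientGroup.mk' M) m = 1 := (QuotientGroup.eq_one_iff m).2 hm
    rw [h3]
    exact one_mem _
  have hq : Nat.card (S ⧸ M) = 2 := by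
    rcases hM.le_iff.1 hle with h | h
    · have h3 : Subgroup.zpowers x = ⊤ := by
        rw [← Subgroup.map_comap_eq_self_of_surjective (QuotientGroup.mk'_surjective M)
          (Subgroup.zpowers x), h, Subgroup.map_top_of_surjective _ (QuotientGroup.mk'_surjective M)]
      rw [← hK, h3, Subgroup.card_top]
    · exfalso
      have h3 : Subgroup.zpowers x = ⊥ := by
        rw [← Subgroup.map_comap_eq_self_of_surjective (QuotientGroup.mk'_surjective M)
          (Subgroup.zpowers x), h, QuotientGroup.map_mk'_self]
      rw [h3, Subgroup.card_bot] at hK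
      exact absurd hK (by norm_num)
  rw [hq, hcard] at hmul
  omega

theorem quot_main {S : Type*} [Group S] (r : ℕ → S) (hcard : Nat.card S = 512)
    (hinj : ∀ i < 512, ∀ j < 512, r i = r j → i = j)
    (hcomm : ∀ i < 512, ∀ j < 512, (r i * r j = r j * r i ↔ (cm i).testBit j = true))
    (hsq : ∀ i < 512, A0m.testBit i = true → r i * r i = 1) :
    (∀ M : Subgroup S, IsCoatom M → Nat.card ↥(Subgroup.center ↥M) ≤ 8) ∧
    (∃ A : Subgroup S, Cfsg.IsElementaryAbelian 2 A ∧ Nat.card ↥A = 64) ∧
    ∀ A B : Subgroup S, IsMulCommutative ↥A → Nat.card ↥A = 64 → IsMulCommutative ↥B →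
      Nat.card ↥B = 64 → A = B := by
  classical
  have hfin : Finite S := Nat.finite_of_card_ne_zero (by rw [hcard]; norm_num)
  have hbij : Function.Bijective (fun i : Fin 512 => r i.1) :=
    Function.Injective.bijective_of_nat_card_le
      (fun i j h => Fin.ext (hinj i.1 i.2 j.1 j.2 h)) (by rw [hcard, Nat.card_fin])
  have hsurj : ∀ s : S, ∃ i, i < 512 ∧ r i = s := fun s => by
    obtain ⟨i, hi⟩ := hbij.2 s
    exact ⟨i.1, i.2, hi⟩
  choose ι hι1 hι2 using hsurj
  have hι3 : ∀ i, i < 512 → ι (r i) = i := fun i hi => hinj _ (hι1 _) i hi (hι2 _)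
  have hιinj : Function.Injective ι := fun a b h => by rw [← hι2 a, ← hι2 b, h]
  have comm_iff : ∀ a b : S, a * b = b * a ↔ (cm (ι a)).testBit (ι b) = true := fun a b => by
    have h := hcomm (ι a) (hι1 a) (ι b) (hι1 b)
    rw [hι2, hι2] at h
    exact h
  have hA0card : Nat.card ↥{s : S | A0m.testBit (ι s) = true} ≤ 64 := by
    have h := cardL (fun s : ↥{s : S | A0m.testBit (ι s) = true} => ι s.1)
      (fun a b h => Subtype.ext (hιinj h)) ((List.range 512).filter (fun i => A0m.testBit i))
      (fun s => List.mem_filter.2 ⟨List.mem_range.2 (hι1 _), s.2⟩)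
    rw [F1] at h
    exact h
  have key3 : ∀ A : Subgroup S, IsMulCommutative ↥A → Nat.card ↥A = 64 →
      (A : Set S) = {s : S | A0m.testBit (ι s) = true} := by
    intro A hA hA64
    have hAc : ∀ a ∈ A, ∀ b ∈ A, a * b = b * a := fun a ha b hb =>
      congrArg Subtype.val (hA.is_comm.comm ⟨a, ha⟩ ⟨b, hb⟩)
    have hsub : (A : Set S) ⊆ {s : S | A0m.testBit (ι s) = true} := by
      intro a ha
      by_contra hbit
      have hbit' : A0m.testBit (ι a) = false := by
        rw [← Bool.not_eq_true]
        exact hbit
      have h3 := F3' (hι1 a) hbit'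
      have hb64 : ∀ b : ↥A, ((cm (ι a)).testBit (ι b.1) &&
          decide (64 ≤ pop (cm (ι a) &&& cm (ι b.1)))) = true := by
        intro b
        rw [Bool.and_eq_true, decide_eq_true_eq]
        refine ⟨(comm_iff a b.1).1 (hAc a ha b.1 b.2), ?_⟩
        rw [← hA64]
        exact pop_ge (fun c : ↥A => ι c.1) (fun c d h => Subtype.ext (hιinj h)) _
          (fun c => ⟨hι1 _, by
            rw [Nat.testBit_land, (comm_iff a c.1).1 (hAc a ha c.1 c.2),
              (comm_iff b.1 c.1).1 (hAc b.1 b.2 c.1 c.2)]
            rfl⟩)
      have hle := cardL (fun b : ↥A => ι b.1) (fun b c h => Subtype.ext (hιinj h))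
        ((List.range 512).filter (fun y => (cm (ι a)).testBit y &&
          decide (64 ≤ pop (cm (ι a) &&& cm y))))
        (fun b => List.mem_filter.2 ⟨List.mem_range.2 (hι1 _), hb64 b⟩)
      rw [hA64] at hle
      omega
    refine Set.eq_of_subset_of_ncard_le hsub ?_ (Set.toFinite _)
    rw [← Nat.card_coe_set_eq, ← Nat.card_coe_set_eq]
    exact hA0card.trans (le_of_eq hA64.symm)
  have part2 : ∃ A : Subgroup S, Cfsg.IsElementaryAbelian 2 A ∧ Nat.card ↥A = 64 := by
    have hAeq : ((Subgroup.centralizer {s : S | A0m.testBit (ι s) = true} : Subgroup S) : Set S) =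
        {s : S | A0m.testBit (ι s) = true} := by
      ext a
      constructor
      · intro ha
        have ha' := Subgroup.mem_centralizer_iff.1 ha
        have h2 := List.all_eq_true.1 F2b (ι a) (List.mem_range.2 (hι1 a))
        rcases Bool.or_eq_true_iff.1 h2 with h | h
        · exact h
        · exfalso
          rw [Bool.not_eq_true', ← Bool.not_eq_true] at h
          apply h
          rw [List.all_eq_true]
          intro x hx
          rw [List.mem_range] at hx
          by_cases hb : A0m.testBit x = true
          · have hmem : r x ∈ {s : S | A0m.testBit (ι s) = true} := by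
              show A0m.testBit (ι (r x)) = true
              rw [hι3 x hx]
              exact hb
            have hc := ha' (r x) hmem
            have h4 := (comm_iff (r x) a).1 hc
            rw [hι3 x hx] at h4
            rw [h4, Bool.or_true]
          · have hb' : A0m.testBit x = false := by
              rw [← Bool.not_eq_true]
              exact hb
            rw [hb']
            rfl
      · intro ha
        rw [SetLike.mem_coe, Subgroup.mem_centralizer_iff]
        intro t ht
        exact (comm_iff t a).2 (F2a' (hι1 t) ht (hι1 a) ha)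
    refine ⟨Subgroup.centralizer {s : S | A0m.testBit (ι s) = true},
      ⟨⟨⟨fun a b => Subtype.ext ?_⟩⟩, fun a ha => ?_⟩, ?_⟩
    · have hb : b.1 ∈ ((Subgroup.centralizer {s : S | A0m.testBit (ι s) = true} : Subgroup S) :
          Set S) := b.2
      rw [hAeq] at hb
      exact (Subgroup.mem_centralizer_iff.1 a.2 b.1 hb).symm
    · have ha' : a ∈ ((Subgroup.centralizer {s : S | A0m.testBit (ι s) = true} : Subgroup S) :
          Set S) := ha
      rw [hAeq] at ha'
      have h := hsq (ι a) (hι1 a) ha'
      rw [hι2] at h
      rw [pow_two]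
      exact h
    · have e1 : Nat.card ↥(Subgroup.centralizer {s : S | A0m.testBit (ι s) = true}) =
          ((Subgroup.centralizer {s : S | A0m.testBit (ι s) = true} : Subgroup S) : Set S).ncard :=
        Nat.card_coe_set_eq _
      rw [hAeq, ← Nat.card_coe_set_eq] at e1
      rw [e1]
      apply le_antisymm hA0card
      have hnd : ((List.range 512).filter (fun i => A0m.testBit i)).Nodup :=
        List.Nodup.filter _ List.nodup_range
      have hc : Nat.card ↥((List.range 512).filter (fun i => A0m.testBit i)).toFinset = 64 := by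
        rw [Nat.card_eq_fintype_card, Fintype.card_coe, List.toFinset_card_of_nodup hnd, F1]
      rw [← hc]
      exact Nat.card_le_card_of_injective
        (fun n => (⟨r n.1, by
          have hn := List.mem_toFinset.1 n.2
          rw [List.mem_filter, List.mem_range] at hn
          show A0m.testBit (ι (r n.1)) = true
          rw [hι3 _ hn.1]
          exact hn.2⟩ : ↥{s : S | A0m.testBit (ι s) = true}))
        (fun n m h => by
          have hn := List.mem_toFinset.1 n.2
          have hm := List.mem_toFinset.1 m.2
          rw [List.mem_filter, List.mem_range] at hn hm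
          exact Subtype.ext (hinj _ hn.1 _ hm.1 (congrArg Subtype.val h)))
  have part1 : ∀ M : Subgroup S, IsCoatom M → Nat.card ↥(Subgroup.center ↥M) ≤ 8 := by
    intro M hM
    have hM256 := coatom_card hcard M hM
    have hcz : ∀ c : ↥(Subgroup.center ↥M), ∀ m ∈ M, c.1.1 * m = m * c.1.1 := fun c m hm => by
      have h := Subgroup.mem_center_iff.1 c.2 ⟨m, hm⟩
      exact (congrArg Subtype.val h).symm
    have hfinj : Function.Injective (fun c : ↥(Subgroup.center ↥M) => ι c.1.1) :=
      fun c d h => Subtype.ext (Subtype.ext (hιinj h))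
    have hpop : ∀ c : ↥(Subgroup.center ↥M), 256 ≤ pop (cm (ι c.1.1)) := fun c => by
      rw [← hM256]
      exact pop_ge (fun m : ↥M => ι m.1) (fun m n h => Subtype.ext (hιinj h)) _
        (fun m => ⟨hι1 _, (comm_iff c.1.1 m.1).1 (hcz c m.1 m.2)⟩)
    by_cases hall : ∀ c : ↥(Subgroup.center ↥M), pop (cm (ι c.1.1)) = 512
    · have hmem : ∀ c : ↥(Subgroup.center ↥M), ι c.1.1 ∈
          (List.range 512).filter (fun y => decide (pop (cm y) = 512)) := fun c =>
        List.mem_filter.2 ⟨List.mem_range.2 (hι1 _), decide_eq_true (hall c)⟩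
      exact (cardL _ hfinj _ hmem).trans F4'
    · obtain ⟨c0, hc0⟩ := not_forall.1 hall
      have hlt : pop (cm (ι c0.1.1)) < 512 := by
        have hle : pop (cm (ι c0.1.1)) ≤ 512 := by
          have h := List.length_filter_le (fun i => (cm (ι c0.1.1)).testBit i) (List.range 512)
          rw [List.length_range] at h
          exact h
        omega
      have h5 := F5' (hι1 c0.1.1) (hpop c0) hlt
      have hMC : M ≤ Subgroup.centralizer {c0.1.1} := fun m hm => by
        rw [Subgroup.mem_centralizer_iff]
        intro h hh
        rw [Set.mem_singleton_iff.1 hh]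
        exact hcz c0 m hm
      have hCne : Subgroup.centralizer {c0.1.1} ≠ (⊤ : Subgroup S) := by
        intro htop
        apply hc0
        have hall' : ∀ i ∈ List.range 512, (cm (ι c0.1.1)).testBit i = true := by
          intro i hi
          rw [List.mem_range] at hi
          have hmem : r i ∈ Subgroup.centralizer {c0.1.1} := by
            rw [htop]
            exact Subgroup.mem_top _
          have hc := Subgroup.mem_centralizer_iff.1 hmem c0.1.1 rfl
          have h6 := (comm_iff c0.1.1 (r i)).1 hc
          rw [hι3 i hi] at h6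
          exact h6
        rw [pop, List.filter_eq_self.2 hall', List.length_range]
      have hCM : Subgroup.centralizer {c0.1.1} = M := by
        rcases hM.le_iff.1 hMC with h | h
        · exact absurd h hCne
        · exact h
      have hmem : ∀ c : ↥(Subgroup.center ↥M), cm (ι c0.1.1) &&& cm (ι c.1.1) = cm (ι c0.1.1) →
          ι c.1.1 ∈ (List.range 512).filter
            (fun y => decide (cm (ι c0.1.1) &&& cm y = cm (ι c0.1.1))) := fun c hc =>
        List.mem_filter.2 ⟨List.mem_range.2 (hι1 _), decide_eq_true hc⟩
      refine (cardL _ hfinj _ (fun c => hmem c ?_)).trans h5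
      apply Nat.eq_of_testBit_eq
      intro i
      rw [Nat.testBit_land]
      by_cases hi : i < 512
      · by_cases hb : (cm (ι c0.1.1)).testBit i = true
        · rw [hb, Bool.true_and]
          have hri : r i ∈ M := by
            rw [← hCM, Subgroup.mem_centralizer_iff]
            intro h hh
            rw [Set.mem_singleton_iff.1 hh]
            apply (comm_iff c0.1.1 (r i)).2
            rw [hι3 i hi]
            exact hb
          have h7 := (comm_iff c.1.1 (r i)).1 (hcz c (r i) hri)
          rw [hι3 i hi] at h7
          exact h7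
        · have hb' : (cm (ι c0.1.1)).testBit i = false := by
            rw [← Bool.not_eq_true]
            exact hb
          rw [hb', Bool.false_and]
      · have hb' : (cm (ι c0.1.1)).testBit i = false :=
          Nat.testBit_lt_two_pow (lt_of_lt_of_le (cm_lt (hι1 c0.1.1))
            (Nat.pow_le_pow_right Nat.two_pos (Nat.le_of_not_lt hi)))
        rw [hb', Bool.false_and]
  exact ⟨part1, part2, fun A B hA hA64 hB hB64 =>
    SetLike.coe_injective ((key3 A hA hA64).trans (key3 B hB hB64).symm)⟩

end SylQ
end Golay
end Cfsg.Agent.Helper28
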