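import Mathlib
import Cfsg.Agent.Helper28.SylQc
import Cfsg.Agent.Helper28.M24Data

set_option autoImplicit false

namespace Cfsg.Agent.Helper28
namespace Golay
namespace SylQ

open Cfsg

/-! ### The quotient of a Sylow 2-subgroup of the group of the code by its centre -/

theorem sylN_mem {a : Nat} (h : a ∈ SylN) : decD a ∈ SylL := by
  rw [← eqLL_sound _ _ S0]
  exact List.mem_map.2 ⟨a, h, rfl⟩

theorem rn_mem {i : Nat} (hi : i < 512) : decD (rn i) ∈ SylL :=
  sylN_mem (List.contains_iff_mem.1 (List.all_eq_true.1 G1 i (List.mem_range.2 hi)))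

theorem zQ_mem : decD zQ ∈ SylL := sylN_mem (List.contains_iff_mem.1 G2)

theorem gens_mem {g : Nat} (hg : g ∈ gensN) : decD g ∈ SylL :=
  sylN_mem (List.contains_iff_mem.1 (List.all_eq_true.1 G3 g hg))

theorem dg_lt {a : Nat} (ha : decD a ∈ SylL) {p : Nat} (hp : p < 24) : dg a p < 24 := by
  have h := tf_lt (Syl_mem0 ha).1 hp
  rwa [tf_decD a hp] at h

theorem perm_pt {a : Nat} (ha : decD a ∈ SylL) {p : Nat} (hp : p < 24) :
    permOf (decD a) (pt p) = pt (dg a p) := by
  rw [permOf_pt (Syl_mem0 ha).1 hp, tf_decD a hp]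

theorem pt_inj {i j : Nat} (hi : i < 24) (hj : j < 24) (h : pt i = pt j) : i = j := by
  have h2 := congrArg idx h
  rwa [idx_pt i hi, idx_pt j hj] at h2

theorem Bs_lt : ∀ b ∈ Bs, b < 24 := by decide

theorem keyT_inj : ∀ T ∈ SylL, ∀ T' ∈ SylL, keyT T = keyT T' → T = T' := by
  have hnd : (SylL.map keyT).Nodup := by
    rw [eqNats_sound _ _ SylK_eq]
    exact nodupN_sound _ SylK_nodup
  intro T hT T' hT' h
  exact List.inj_on_of_nodup_map hnd hT hT' h

theorem keyT_congr (T T' : List Nat) (h : ∀ b ∈ Bs, tf T b = tf T' b) : keyT T = keyT T' := by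
  unfold keyT
  simp only [List.foldl_cons, List.foldl_nil]
  rw [h 23 (by decide), h 0 (by decide), h 2 (by decide), h 4 (by decide), h 5 (by decide),
    h 1 (by decide), h 6 (by decide)]

theorem SylB_ext {g g' : Equiv.Perm GolayPt} (hg : g ∈ SylB) (hg' : g' ∈ SylB)
    (h : ∀ b ∈ Bs, g (pt b) = g' (pt b)) : g = g' := by
  obtain ⟨T, hT, hTp, rfl⟩ := Syl_enum g hg
  obtain ⟨T', hT', hTp', rfl⟩ := Syl_enum g' hg'
  have e : T = T' := keyT_inj T hT T' hT' (keyT_congr T T' (fun b hb => by
    have h1 := h b hb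
    rw [permOf_pt hTp (Bs_lt b hb), permOf_pt hTp' (Bs_lt b hb)] at h1
    exact pt_inj (tf_lt hTp (Bs_lt b hb)) (tf_lt hTp' (Bs_lt b hb)) h1))
  rw [e]

theorem zQ_perm : isPerm (decD zQ) = true := (Syl_mem0 zQ_mem).1

theorem comp_packed {a b : Nat} (hb : decD b ∈ SylL) :
    comp (decD a) (decD b) = decD (compD a b) :=
  (decD_compD a b (fun _ hi => dg_lt hb hi)).symm

theorem encF_congr (f g : Nat → Nat) : ∀ n, (∀ i < n, f i = g i) → encF f n = encF g n
  | 0, _ => rfl
  | n + 1, h => by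
    rw [encF, encF, encF_congr f g n (fun i hi => h i (Nat.lt_succ_of_lt hi)), h n (Nat.lt_succ_self n)]

theorem compD_eq_of_perm {a b c d : Nat} (ha : decD a ∈ SylL) (hb : decD b ∈ SylL)
    (hc : decD c ∈ SylL) (hd : decD d ∈ SylL)
    (h : permOf (decD a) * permOf (decD b) = permOf (decD c) * permOf (decD d)) :
    compD a b = compD c d := by
  rw [compD_eq, compD_eq]
  apply encF_congr
  intro i hi
  have h1 : (permOf (decD a) * permOf (decD b)) (pt i) = (permOf (decD c) * permOf (decD d)) (pt i) := by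
    rw [h]
  rw [Equiv.Perm.mul_apply, Equiv.Perm.mul_apply, perm_pt hb hi, perm_pt ha (dg_lt hb hi),
    perm_pt hd hi, perm_pt hc (dg_lt hd hi)] at h1
  exact pt_inj (dg_lt ha (dg_lt hb hi)) (dg_lt hc (dg_lt hd hi)) h1

theorem z_central {g : Equiv.Perm GolayPt} (hg : g ∈ SylB) :
    g * permOf (decD zQ) = permOf (decD zQ) * g := by
  obtain ⟨T, hT, hTp, rfl⟩ := Syl_enum g hg
  rw [← eqLL_sound _ _ S0, List.mem_map] at hT
  obtain ⟨a, ha, rfl⟩ := hT
  have ha' : decD a ∈ SylL := sylN_mem ha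
  rw [permOf_mul hTp zQ_perm, permOf_mul zQ_perm hTp, comp_packed zQ_mem, comp_packed ha',
    (nbeq_iff _ _).1 (List.all_eq_true.1 G4 a ha)]

theorem center_sub {g : Equiv.Perm GolayPt} (hg : g ∈ SylB) (hc : ∀ h ∈ SylB, g * h = h * g) :
    g = 1 ∨ g = permOf (decD zQ) := by
  obtain ⟨T, hT, hTp, rfl⟩ := Syl_enum g hg
  rw [← eqLL_sound _ _ S0, List.mem_map] at hT
  obtain ⟨a, ha, rfl⟩ := hT
  have ha' : decD a ∈ SylL := sylN_mem ha
  have h5 := List.all_eq_true.1 G5 a ha
  have hall : (gensN.all fun g => Nat.beq (compD a g) (compD g a)) = true := by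
    rw [List.all_eq_true]
    intro b hb
    have hb' := gens_mem hb
    exact (nbeq_iff _ _).2 (compD_eq_of_perm ha' hb' hb' ha' (hc _ (Syl_mem hb')))
  rw [hall, Bool.not_true, Bool.false_or, Bool.or_eq_true, nbeq_iff, nbeq_iff] at h5
  rcases h5 with h | h
  · left
    rw [h, idN_eq, permOf_idT]
  · right
    rw [h]

theorem z_ne_one : permOf (decD zQ) ≠ 1 := by
  intro h
  have h1 : permOf (decD zQ) (pt 1) = (1 : Equiv.Perm GolayPt) (pt 1) := by rw [h]
  rw [perm_pt zQ_mem (by norm_num), Equiv.Perm.one_apply] at h1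
  have h2 := pt_inj (dg_lt zQ_mem (by norm_num)) (by norm_num) h1
  exact absurd h2 (by decide)

theorem z_sq : permOf (decD zQ) * permOf (decD zQ) = 1 := by
  rw [permOf_mul zQ_perm zQ_perm, comp_packed zQ_mem, (nbeq_iff _ _).1 G6', idN_eq, permOf_idT]

theorem commB_iff {a b : Nat} (ha : decD a ∈ SylL) (hb : decD b ∈ SylL) :
    commB a b = true ↔ (permOf (decD a) * permOf (decD b) = permOf (decD b) * permOf (decD a) ∨
      permOf (decD a) * permOf (decD b) =
        permOf (decD zQ) * (permOf (decD b) * permOf (decD a))) := by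
  have hA := Syl_mem ha
  have hB := Syl_mem hb
  have hZ := Syl_mem zQ_mem
  have e1 : ∀ p < 24, (permOf (decD a) * permOf (decD b)) (pt p) = pt (dg a (dg b p)) :=
    fun p hp => by
      rw [Equiv.Perm.mul_apply, perm_pt hb hp, perm_pt ha (dg_lt hb hp)]
  have e2 : ∀ p < 24, (permOf (decD b) * permOf (decD a)) (pt p) = pt (dg b (dg a p)) :=
    fun p hp => by
      rw [Equiv.Perm.mul_apply, perm_pt ha hp, perm_pt hb (dg_lt ha hp)]
  have e3 : ∀ p < 24, (permOf (decD zQ) * (permOf (decD b) * permOf (decD a))) (pt p) =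
      pt (dg zQ (dg b (dg a p))) := fun p hp => by
    rw [Equiv.Perm.mul_apply, e2 p hp, perm_pt zQ_mem (dg_lt hb (dg_lt ha hp))]
  rw [commB, Bool.or_eq_true, List.all_eq_true, List.all_eq_true]
  constructor
  · rintro (h | h)
    · left
      exact SylB_ext (mul_mem hA hB) (mul_mem hB hA) (fun p hp => by
        rw [e1 p (Bs_lt p hp), e2 p (Bs_lt p hp), (nbeq_iff _ _).1 (h p hp)])
    · right
      exact SylB_ext (mul_mem hA hB) (mul_mem hZ (mul_mem hB hA)) (fun p hp => by
        rw [e1 p (Bs_lt p hp), e3 p (Bs_lt p hp), (nbeq_iff _ _).1 (h p hp)])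
  · rintro (h | h)
    · left
      intro p hp
      have h1 : (permOf (decD a) * permOf (decD b)) (pt p) =
          (permOf (decD b) * permOf (decD a)) (pt p) := by rw [h]
      rw [e1 p (Bs_lt p hp), e2 p (Bs_lt p hp)] at h1
      exact (nbeq_iff _ _).2 (pt_inj (dg_lt ha (dg_lt hb (Bs_lt p hp)))
        (dg_lt hb (dg_lt ha (Bs_lt p hp))) h1)
    · right
      intro p hp
      have h1 : (permOf (decD a) * permOf (decD b)) (pt p) =
          (permOf (decD zQ) * (permOf (decD b) * permOf (decD a))) (pt p) := by rw [h]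
      rw [e1 p (Bs_lt p hp), e3 p (Bs_lt p hp)] at h1
      exact (nbeq_iff _ _).2 (pt_inj (dg_lt ha (dg_lt hb (Bs_lt p hp)))
        (dg_lt zQ_mem (dg_lt hb (dg_lt ha (Bs_lt p hp)))) h1)

theorem nxor_iff (a b : Bool) : (!(Bool.xor a b)) = true ↔ a = b := by
  cases a <;> cases b <;> decide

theorem cm_commB {i j : Nat} (hi : i < 512) (hij : i ≤ j) (hj : j < 512) :
    (cm i).testBit j = commB (rn i) (rn j) := by
  have h := rows_all hi
  rw [rowOK] at h
  simp only [forceNat_eq] at h
  rw [List.all_eq_true] at h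
  exact (nxor_iff _ _).1 (h j (by rw [List.mem_range'_1]; omega))

theorem cm_symm {i j : Nat} (hi : i < 512) (hj : j < 512) :
    (cm i).testBit j = (cm j).testBit i := by
  have hmem : i ∈ List.range' 0 256 ++ List.range' 256 256 := by
    simp only [List.mem_append, List.mem_range'_1]
    omega
  rw [List.mem_append] at hmem
  have key : (forceNat (cm i) fun mi => (List.range 512).all fun j =>
      !(Bool.xor (mi.testBit j) ((cm j).testBit i))) = true := by
    rcases hmem with h | h
    · exact List.all_eq_true.1 CMsym_0 i h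
    · exact List.all_eq_true.1 CMsym_1 i h
  simp only [forceNat_eq] at key
  rw [List.all_eq_true] at key
  exact (nxor_iff _ _).1 (key j (List.mem_range.2 hj))

theorem keys_nodup : ((List.range 512).map (fun i => key1 (rn i)) ++
    (List.range 512).map (fun i => key2 (rn i))).Nodup := by
  rw [eqNats_sound _ _ G7a]
  exact nodupN_sound _ G7b

/-- the central involution in the subgroup -/
noncomputable def zB : ↥SylB := ⟨permOf (decD zQ), Syl_mem zQ_mem⟩

/-- the representatives in the subgroup -/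
noncomputable def gB (i : Nat) : ↥SylB :=
  if h : i < 512 then ⟨permOf (decD (rn i)), Syl_mem (rn_mem h)⟩ else 1

theorem gB_val {i : Nat} (h : i < 512) : (gB i).1 = permOf (decD (rn i)) := by
  rw [gB, dif_pos h]

section

variable {G : Type*} [Group G] (e : G ≃* ↥SylB)

theorem center_iff (c : G) : c ∈ Subgroup.center G ↔ e c = 1 ∨ e c = zB := by
  constructor
  · intro hc
    have h1 : ∀ h ∈ SylB, (e c).1 * h = h * (e c).1 := by
      intro h hh
      have h2 := Subgroup.mem_center_iff.1 hc (e.symm ⟨h, hh⟩)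
      have h3 := congrArg (fun x => (e x).1) h2
      simp only [map_mul, MulEquiv.apply_symm_apply, Subgroup.coe_mul] at h3
      exact h3.symm
    rcases center_sub (e c).2 h1 with h | h
    · left
      exact Subtype.ext h
    · right
      exact Subtype.ext h
  · intro hc
    rw [Subgroup.mem_center_iff]
    intro g
    apply e.injective
    rw [map_mul, map_mul]
    rcases hc with h | h
    · rw [h, mul_one, one_mul]
    · rw [h]
      exact Subtype.ext (z_central (e g).2)

theorem card_center (e : G ≃* ↥SylB) : Nat.card ↥(Subgroup.center G) = 2 := by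
  rw [Nat.card_eq_two_iff]
  refine ⟨1, ⟨e.symm zB, (center_iff e _).2 (Or.inr (e.apply_symm_apply zB))⟩, ?_, ?_⟩
  · intro h
    have h1 : e.symm zB = 1 := (congrArg Subtype.val h).symm
    have h2 : zB = 1 := by rw [← e.apply_symm_apply zB, h1, map_one]
    exact z_ne_one (congrArg Subtype.val h2)
  · ext c
    simp only [Set.mem_insert_iff, Set.mem_singleton_iff, Set.mem_univ, iff_true]
    rcases (center_iff e c.1).1 c.2 with h | h
    · left
      apply Subtype.ext
      apply e.injective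
      rw [h, Subgroup.coe_one, map_one]
    · right
      apply Subtype.ext
      apply e.injective
      rw [h, MulEquiv.apply_symm_apply]

theorem card_quot (e : G ≃* ↥SylB) : Nat.card (G ⧸ Subgroup.center G) = 512 := by
  have h := Subgroup.card_eq_card_quotient_mul_card_subgroup (Subgroup.center G)
  rw [card_center e, Nat.card_congr e.toEquiv, card_Syl] at h
  omega

theorem mk_eq_iff (a b : G) :
    (QuotientGroup.mk a : G ⧸ Subgroup.center G) = QuotientGroup.mk b ↔
      ((e a).1 = (e b).1 ∨ (e a).1 = permOf (decD zQ) * (e b).1) := by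
  rw [QuotientGroup.eq, center_iff e, map_mul, map_inv]
  constructor
  · rintro (h | h)
    · left
      rw [inv_mul_eq_one] at h
      rw [h]
    · right
      have h1 : e b = e a * zB := by rw [← h, mul_inv_cancel_left]
      have h2 : (e b).1 = (e a).1 * permOf (decD zQ) := congrArg Subtype.val h1
      rw [h2, ← mul_assoc, ← z_central (e a).2, mul_assoc, z_sq, mul_one]
  · rintro (h | h)
    · left
      rw [inv_mul_eq_one]
      exact Subtype.ext h
    · right
      apply Subtype.ext
      rw [Subgroup.coe_mul, Subgroup.coe_inv, h]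
      show (permOf (decD zQ) * (e b).1)⁻¹ * (e b).1 = permOf (decD zQ)
      rw [← z_central (e b).2, mul_inv_rev, inv_mul_cancel_right]
      exact inv_eq_of_mul_eq_one_left z_sq

/-- the representatives in the quotient -/
noncomputable def rQ (i : Nat) : G ⧸ Subgroup.center G := QuotientGroup.mk (e.symm (gB i))

theorem rQ_eq_iff {i j : Nat} (hi : i < 512) (hj : j < 512) :
    rQ e i = rQ e j ↔ (permOf (decD (rn i)) = permOf (decD (rn j)) ∨
      permOf (decD (rn i)) = permOf (decD zQ) * permOf (decD (rn j))) := by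
  rw [rQ, rQ, mk_eq_iff e, MulEquiv.apply_symm_apply, MulEquiv.apply_symm_apply, gB_val hi,
    gB_val hj]

theorem rQ_inj : ∀ i < 512, ∀ j < 512, rQ e i = rQ e j → i = j := by
  intro i hi j hj h
  have hnd := keys_nodup
  rcases (rQ_eq_iff e hi hj).1 h with h1 | h1
  · have hp : ∀ p ∈ Bs, dg (rn i) p = dg (rn j) p := fun p hp => by
      have h2 : permOf (decD (rn i)) (pt p) = permOf (decD (rn j)) (pt p) := by rw [h1]
      rw [perm_pt (rn_mem hi) (Bs_lt p hp), perm_pt (rn_mem hj) (Bs_lt p hp)] at h2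
      exact pt_inj (dg_lt (rn_mem hi) (Bs_lt p hp)) (dg_lt (rn_mem hj) (Bs_lt p hp)) h2
    have hk : key1 (rn i) = key1 (rn j) := by
      unfold key1
      simp only [Bs, List.foldl_cons, List.foldl_nil]
      rw [hp 23 (by decide), hp 0 (by decide), hp 2 (by decide), hp 4 (by decide),
        hp 5 (by decide), hp 1 (by decide), hp 6 (by decide)]
    exact List.inj_on_of_nodup_map hnd.of_append_left (List.mem_range.2 hi)
      (List.mem_range.2 hj) hk
  · exfalso
    have hp : ∀ p ∈ Bs, dg (rn i) p = dg zQ (dg (rn j) p) := fun p hp => by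
      have h2 : permOf (decD (rn i)) (pt p) =
          (permOf (decD zQ) * permOf (decD (rn j))) (pt p) := by rw [h1]
      rw [Equiv.Perm.mul_apply, perm_pt (rn_mem hi) (Bs_lt p hp),
        perm_pt (rn_mem hj) (Bs_lt p hp),
        perm_pt zQ_mem (dg_lt (rn_mem hj) (Bs_lt p hp))] at h2
      exact pt_inj (dg_lt (rn_mem hi) (Bs_lt p hp))
        (dg_lt zQ_mem (dg_lt (rn_mem hj) (Bs_lt p hp))) h2
    have hk : key1 (rn i) = key2 (rn j) := by
      unfold key1 key2
      simp only [Bs, List.foldl_cons, List.foldl_nil]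
      rw [hp 23 (by decide), hp 0 (by decide), hp 2 (by decide), hp 4 (by decide),
        hp 5 (by decide), hp 1 (by decide), hp 6 (by decide)]
    exact List.disjoint_of_nodup_append hnd
      (List.mem_map.2 ⟨i, List.mem_range.2 hi, rfl⟩)
      (List.mem_map.2 ⟨j, List.mem_range.2 hj, hk.symm⟩)

theorem rQ_comm : ∀ i < 512, ∀ j < 512,
    (rQ e i * rQ e j = rQ e j * rQ e i ↔ (cm i).testBit j = true) := by
  have key : ∀ i < 512, ∀ j < 512, i ≤ j →
      (rQ e i * rQ e j = rQ e j * rQ e i ↔ (cm i).testBit j = true) := by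
    intro i hi j hj hij
    rw [cm_commB hi hij hj, commB_iff (rn_mem hi) (rn_mem hj)]
    have h : rQ e i * rQ e j = rQ e j * rQ e i ↔
        (QuotientGroup.mk (e.symm (gB i) * e.symm (gB j)) : G ⧸ Subgroup.center G) =
          QuotientGroup.mk (e.symm (gB j) * e.symm (gB i)) := Iff.rfl
    rw [h, mk_eq_iff e, map_mul, map_mul, MulEquiv.apply_symm_apply, MulEquiv.apply_symm_apply,
      Subgroup.coe_mul, Subgroup.coe_mul, gB_val hi, gB_val hj]
  intro i hi j hj
  rcases le_total i j with h | h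
  · exact key i hi j hj h
  · rw [cm_symm hi hj, eq_comm]
    exact key j hj i hi h

theorem rQ_sq : ∀ i < 512, A0m.testBit i = true → rQ e i * rQ e i = 1 := by
  intro i hi hb
  have h8 := List.all_eq_true.1 G8 i (List.mem_range.2 hi)
  simp only [forceNat_eq] at h8
  rw [hb, Bool.not_true, Bool.false_or, sqB, Bool.or_eq_true, List.all_eq_true,
    List.all_eq_true] at h8
  have ha := rn_mem hi
  have hA := Syl_mem ha
  have e1 : ∀ p < 24, (permOf (decD (rn i)) * permOf (decD (rn i))) (pt p) =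
      pt (dg (rn i) (dg (rn i) p)) := fun p hp => by
    rw [Equiv.Perm.mul_apply, perm_pt ha hp, perm_pt ha (dg_lt ha hp)]
  have h : rQ e i * rQ e i = 1 ↔
      (QuotientGroup.mk (e.symm (gB i) * e.symm (gB i)) : G ⧸ Subgroup.center G) =
        QuotientGroup.mk 1 := Iff.rfl
  rw [h, mk_eq_iff e, map_mul, MulEquiv.apply_symm_apply, map_one, Subgroup.coe_mul, gB_val hi,
    Subgroup.coe_one, mul_one]
  rcases h8 with h8 | h8
  · left
    exact SylB_ext (mul_mem hA hA) (one_mem _) (fun p hp => by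
      rw [e1 p (Bs_lt p hp), (nbeq_iff _ _).1 (h8 p hp), Equiv.Perm.one_apply])
  · right
    exact SylB_ext (mul_mem hA hA) (Syl_mem zQ_mem) (fun p hp => by
      rw [e1 p (Bs_lt p hp), (nbeq_iff _ _).1 (h8 p hp), perm_pt zQ_mem (Bs_lt p hp)])

end

theorem fac2' : (244823040 : ℕ).factorization 2 = 10 := by
  have e : (244823040 : ℕ) = 2 ^ 10 * 239085 := by norm_num
  rw [e, Nat.factorization_mul (by norm_num) (by norm_num), Finsupp.add_apply,
    Nat.Prime.factorization_pow Nat.prime_two, Finsupp.single_eq_same,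
    Nat.factorization_eq_zero_of_not_dvd (by norm_num)]

theorem sylow_quot (P : Sylow 2 ↥Cfsg.M24) :
    (∀ M : Subgroup (↥(P : Subgroup ↥Cfsg.M24) ⧸ Subgroup.center ↥(P : Subgroup ↥Cfsg.M24)),
        IsCoatom M → Nat.card ↥(Subgroup.center ↥M) ≤ 8) ∧
      (∃ A : Subgroup (↥(P : Subgroup ↥Cfsg.M24) ⧸ Subgroup.center ↥(P : Subgroup ↥Cfsg.M24)),
        Cfsg.IsElementaryAbelian 2 A ∧ Nat.card ↥A = 64) ∧
      ∀ A B : Subgroup (↥(P : Subgroup ↥Cfsg.M24) ⧸ Subgroup.center ↥(P : Subgroup ↥Cfsg.M24)),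
        IsMulCommutative ↥A → Nat.card ↥A = 64 → IsMulCommutative ↥B → Nat.card ↥B = 64 →
          A = B := by
  classical
  have : Fact (Nat.Prime 2) := ⟨Nat.prime_two⟩
  have hle : SylB ≤ Cfsg.M24 := fun g hg => hg.1
  have cB : Nat.card ↥(SylB.subgroupOf Cfsg.M24) =
      2 ^ (Nat.card ↥Cfsg.M24).factorization 2 := by
    rw [Nat.card_congr (Subgroup.subgroupOfEquivOfLe hle).toEquiv, card_Syl, card_M24, fac2']
    norm_num
  have e0 : ↥(P : Subgroup ↥Cfsg.M24) ≃* ↥(SylB.subgroupOf Cfsg.M24) :=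
    Sylow.equiv P (Sylow.ofCard _ cB)
  have e : ↥(P : Subgroup ↥Cfsg.M24) ≃* ↥SylB := e0.trans (Subgroup.subgroupOfEquivOfLe hle)
  exact quot_main (rQ e) (card_quot e) (rQ_inj e) (rQ_comm e) (rQ_sq e)

end SylQ
end Golay
end Cfsg.Agent.Helper28
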